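import Cfsg.Agent.Lib.O83.Wt2

/-! Package AUT: automorphisms of `K` centralizing `Q`.  See `plans/O83.md`. -/

set_option autoImplicit false
set_option linter.unusedSectionVars false

namespace CfsgLib.O83

open Subgroup CfsgLib.ExtraTwo CfsgLib.LargeExtra

variable {G : Type*} [Group G] {K : Subgroup G} {z n : G} {y : Fin 4 → F3 → G} {P : G → W}

theorem Cz.aut_or (h : Cz z y P) (α : MulAut G) (hα : ∀ q ∈ QQ y, α q = q) {m : G} (hm : m * z = z * m) :
    α m = m ∨ α m = m * z := by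
  have := h.cent (m⁻¹ * α m) fun q hq => by
    have h1 := hα _ (h.pre.norm m hm q hq)
    rw [map_mul, map_mul, map_inv, hα q hq] at h1
    calc q * (m⁻¹ * α m) = m⁻¹ * (m * q * m⁻¹) * α m := by group
      _ = m⁻¹ * α m * q := by rw [← h1]; group
  rcases this with e | e
  · exact Or.inl (inv_mul_eq_one.1 e).symm
  · exact Or.inr (inv_mul_eq_iff_eq_mul.1 e)

theorem K0.aut_cent [Finite G] (hK : K0 ⊤ z y n) (α : MulAut G) (hα : ∀ q ∈ QQ y, α q = q) {m : G}
    (hm : m * z = z * m) : α m = m := by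
  obtain ⟨P, h⟩ := hK.cz_top
  have fr := h.fr
  have hz : α z = z := hα z fr.z_mem
  have one : ∀ a, a * z = z * a → α a = a → ∀ b, b * z = z * b → P b = P a → α b = b := by
    intro a ha e b hb e'
    have h1 := hα _ (h.mem_of_eq ha hb e'.symm)
    rw [map_mul, map_inv, e] at h1
    exact mul_left_cancel h1
  refine Yg_ind (p := fun w => ∀ m, m * z = z * m → P m = w → α m = m) ?_ ?_ ?_ (P m)
    (hK.PY h (mem_top m) hm) m hm rfl
  · intro a _ m hm e
    have hc : Commute m z := hm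
    have h3 : m ^ 3 ∈ QQ y := (h.P_eq_one (hc.pow_left 3)).1 (by rw [h.P_pow hm, e, tr_cube])
    rcases h.aut_or α hα hm with e1 | e1
    · exact e1
    · exfalso
      have h4 := hα _ h3
      rw [map_pow, e1, hc.mul_pow, pow_three' z, fr.zz, one_mul] at h4
      exact fr.z1 (mul_left_cancel (h4.trans (mul_one _).symm))
  · intro s hs hs1
    obtain ⟨a, -, -, ha, haQ, hj⟩ := hK.nE s 1 hs
    obtain ⟨j, hj, hj'⟩ := hj rfl
    obtain ⟨h0, h2⟩ := hj' hs1
    have haz := fr.act_comm_z ha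
    rw [← h.eq_of_act ha]
    refine one a haz ?_
    rcases h.aut_or α hα haz with e1 | e1
    · exact e1
    · exfalso
      obtain ⟨k, -, hk⟩ := hK.conj_full haQ hj h0
      have e2 : n * (a * z) * n⁻¹ = n * a * n⁻¹ * tt y := by rw [← hK.nz]; group
      have hx : n * a * n⁻¹ * tt y ∈ QQ y := mul_mem haQ (tt_mem y)
      refine h.wt2 hx (by rw [fr.pi_mul haQ (tt_mem y), hj, fr.pi_tt, h2]) ?_
      have e3 : a = n⁻¹ * k * z * (n⁻¹ * k)⁻¹ := by
        calc a = n⁻¹ * (n * a * n⁻¹) * n := by group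
          _ = _ := by rw [← hk]; group
      have e4 : a * z = α (n⁻¹ * k) * z * (α (n⁻¹ * k))⁻¹ := by
        rw [← e1]
        conv_lhs => rw [e3, map_mul, map_mul, map_inv, hz]
      refine isConj_iff.2 ⟨n * α (n⁻¹ * k), ?_⟩
      rw [← e2, e4]; group
  · intro a ha b hb pa pb
    obtain ⟨u, hu, rfl⟩ := h.ysub a ha
    obtain ⟨v, hv, rfl⟩ := h.ysub b hb
    rw [← h.P_mul hu hv]
    refine one _ ((show Commute u z from hu).mul_left hv) ?_
    rw [map_mul, pa u hu rfl, pb v hv rfl]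

theorem K0.aut_top [Finite G] (hK : K0 ⊤ z y n) (α : MulAut G) (hα : ∀ q ∈ QQ y, α q = q) :
    α = 1 ∨ α = MulAut.conj z := by
  obtain ⟨P, h⟩ := hK.cz_top
  have fr := h.fr
  have es := fr.es
  have htz : tt y * z = z * tt y := es.comm_z _ (tt_mem y)
  have hn : n⁻¹ = n := inv_eq_of_mul_eq_one_right hK.n2
  have key : ∀ c, c * z = z * c → c * tt y = tt y * c → c * (α n * n⁻¹) = α n * n⁻¹ * c := by
    intro c h1 h2
    have h3 : n⁻¹ * c * n * z = z * (n⁻¹ * c * n) := by
      rw [← hK.nz] at h2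
      calc n⁻¹ * c * n * z = n⁻¹ * (c * (n * z * n⁻¹)) * n := by group
        _ = _ := by rw [h2]; group
    have h4 := hK.aut_cent α hα h3
    rw [map_mul, map_mul, map_inv, hK.aut_cent α hα h1] at h4
    calc c * (α n * n⁻¹) = α n * ((α n)⁻¹ * c * α n) * n⁻¹ := by group
      _ = _ := by rw [h4]; group
  have hkz : α n * n⁻¹ * z = z * (α n * n⁻¹) := (key z rfl htz.symm).symm
  have hkQ : α n * n⁻¹ ∈ QQ y := h.pre.mem_of_conj
    (trivial_of_trivial_on_cent es (tt_mem y) fr.tt_sq (h.pre.norm _ hkz) hkz fun q hq hqt =>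
      Or.inl (conj_eq_of_comm (key q (es.comm_z q hq) hqt).symm))
  have hsq : α n * α n = 1 := by rw [← map_mul, hK.n2, map_one]
  have gen : ∀ β : MulAut G, (∀ m, m * z = z * m → β m = m) → α n = β n → α = β := by
    intro β h1 h2
    have := hK.gen (α.toMonoidHom.eqLocus β.toMonoidHom)
      (fun m _ hm => (hK.aut_cent α hα hm).trans (h1 m hm).symm) h2
    ext g
    exact this (mem_top g)
  have hnz : n * z * n = tt y := by rw [← hK.nz, hn]
  rcases double_cent es (tt_mem y) hkQ (fun q hq hqt => key q (es.comm_z q hq) hqt) with e | e | e | e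
  · exact Or.inl (gen 1 (fun _ _ => rfl) (mul_inv_eq_one.1 e))
  · exfalso
    rw [mul_inv_eq_iff_eq_mul.1 e] at hsq
    have : z * tt y = 1 := by rw [← hnz, ← hsq]; group
    exact fr.tt_ne_z (by rw [eq_inv_of_mul_eq_one_right this, es.inv_eq])
  · exfalso
    rw [mul_inv_eq_iff_eq_mul.1 e] at hsq
    have h1 : n * tt y * n = z := by
      rw [← hnz]
      calc n * (n * z * n) * n = n * n * z * (n * n) := by group
        _ = z := by rw [hK.n2, one_mul, mul_one]
    have : tt y * z = 1 := by rw [← h1, ← hsq]; group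
    exact fr.tt_ne_z (by rw [eq_inv_of_mul_eq_one_left this, es.inv_eq])
  · refine Or.inr (gen _ (fun m hm => ?_) ?_)
    · rw [MulAut.conj_apply]; exact conj_eq_of_comm hm.symm
    · rw [mul_inv_eq_iff_eq_mul.1 e, MulAut.conj_apply, htz, ← hK.nz, es.inv_eq]
      calc z * (n * z * n⁻¹) * n = z * n * z * (n⁻¹ * n) := by group
        _ = _ := by rw [inv_mul_cancel, mul_one]

end CfsgLib.O83
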