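import Cfsg.Agent.Lib.O83.Defs

/-! Package BW: the group `W` acting on `V`.  See `plans/O83.md`. -/

set_option autoImplicit false
set_option linter.unusedSectionVars false

namespace CfsgLib.O83

open Subgroup CfsgLib.ExtraTwo CfsgLib.LargeExtra

/-- the action on one block -/
def blk (c : F2) (x : F3) (p : F2 × F2) : F2 × F2 := p.1 • e3 (sg c * 0 + x) + p.2 • e3 (sg c * 1 + x)

theorem blk_zero : ∀ c x, blk c x 0 = 0 := by decide
theorem blk_add : ∀ c x p q, blk c x (p + q) = blk c x p + blk c x q := by decide +kernel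
theorem blk_e3 : ∀ c x j, blk c x (e3 j) = e3 (sg c * j + x) := by decide
theorem blk_id : ∀ p, blk 0 0 p = p := by decide
theorem blk_comp : ∀ c c' x x' p, blk (c + c') (sg c * x' + x) p = blk c x (blk c' x' p) := by
  decide +kernel
theorem blk_eq_zero : ∀ c x p, blk c x p = 0 ↔ p = 0 := by decide
theorem blk_fix : ∀ x p, blk 0 x p = p ↔ x = 0 ∨ p = 0 := by decide
theorem blk_q : ∀ c x p, (blk c x p).1 * (blk c x p).1 + (blk c x p).1 * (blk c x p).2 +
    (blk c x p).2 * (blk c x p).2 = p.1 * p.1 + p.1 * p.2 + p.2 * p.2 := by decide +kernel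
theorem blk_b : ∀ c x p q, (blk c x p).1 * (blk c x q).2 + (blk c x p).2 * (blk c x q).1 =
    p.1 * q.2 + p.2 * q.1 := by decide +kernel
theorem e3_cases : ∀ p : F2 × F2, p = 0 ∨ ∃ j, p = e3 j := by decide
theorem e3_inj : ∀ j l, e3 j = e3 l → j = l := by decide
theorem e3_ne : ∀ j, e3 j ≠ 0 := by decide

theorem rW_apply (w : W) (v : V) (i : Fin 4) : rW w v (w.s i) = blk (w.e i) (w.x i) (v i) := by
  simp only [rW, blk, W.j, Equiv.Perm.coe_inv, Equiv.symm_apply_apply]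

theorem ev_self (i : Fin 4) (j : F3) : ev i j i = e3 j := Pi.single_eq_same _ _

theorem ev_ne {i k : Fin 4} (h : k ≠ i) (j : F3) : ev i j k = 0 := Pi.single_eq_of_ne h _

theorem V_all {p : V → Prop} (h : ∀ a b c d, p ![a, b, c, d]) (v : V) : p v := by
  have : v = ![v 0, v 1, v 2, v 3] := funext fun i => by fin_cases i <;> rfl
  exact this ▸ h _ _ _ _

theorem mk0_mul (s t : Equiv.Perm (Fin 4)) (c d : F2) : mk0 s c * mk0 t d = mk0 (s * t) (c + d) := by
  ext i <;> simp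

theorem rW_zero (w : W) : rW w 0 = 0 := 
  funext fun _ => blk_zero _ _

theorem rW_add (w : W) (u v : V) : rW w (u + v) = rW w u + rW w v := 
  funext fun _ => blk_add _ _ _ _

theorem rW_ev (w : W) (i : Fin 4) (j : F3) : rW w (ev i j) = ev (w.s i) (w.j i j) := by
  funext k
  obtain ⟨l, rfl⟩ := w.s.surjective k
  rw [rW_apply]
  by_cases h : l = i
  · subst h
    rw [ev_self, ev_self, blk_e3, W.j]
  · rw [ev_ne h, ev_ne (w.s.injective.ne h), blk_zero]

theorem V_add_self (v : V) : v + v = 0 := by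
  funext i
  rw [Pi.add_apply, Pi.zero_apply]
  generalize v i = p
  revert p
  decide

theorem V_ind {p : V → Prop} (h0 : p 0) (hev : ∀ i j, p (ev i j)) (hadd : ∀ u v, p u → p v → p (u + v))
    (v : V) : p v := by
  have key : ∀ (i : Fin 4) (a : F2 × F2), p (Pi.single i a) := fun i a => by
    rcases e3_cases a with rfl | ⟨j, rfl⟩
    · rwa [Pi.single_zero]
    · exact hev i j
  rw [← Finset.univ_sum_single v, Fin.sum_univ_four]
  exact hadd _ _ (hadd _ _ (hadd _ _ (key _ _) (key _ _)) (key _ _)) (key _ _)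

theorem rW_one (v : V) : rW 1 v = v := 
  funext fun _ => blk_id _

theorem rW_mul (a b : W) (v : V) : rW (a * b) v = rW a (rW b v) := by
  funext k
  obtain ⟨l, rfl⟩ := (a * b).s.surjective k
  rw [rW_apply, W.mul_s, Equiv.Perm.mul_apply, rW_apply, rW_apply, W.mul_e, W.mul_x, blk_comp]

theorem rW_inj (w : W) {u v : V} (h : rW w u = rW w v) : u = v := by
  rw [← rW_one u, ← rW_one v, ← inv_mul_cancel w, rW_mul, rW_mul, h]

theorem rW_full (w : W) (j : Fin 4 → F3) : rW w (full j) = full fun k => w.j (w.s⁻¹ k) (j (w.s⁻¹ k)) := 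
  funext fun _ => blk_e3 _ _ _

theorem rW_tr_full (a j : Fin 4 → F3) : rW (tr a) (full j) = full (j + a) := by
  rw [rW_full]
  congr 1
  funext k
  simp [W.j, sg_zero]

theorem rW_mk0_tV (s : Equiv.Perm (Fin 4)) (c : F2) : rW (mk0 s c) tV = tV := by
  rw [tV, rW_full]
  refine congrArg full (funext fun k => ?_)
  simp [W.j]

theorem rW_apply_eq_zero (w : W) (v : V) (i : Fin 4) : rW w v (w.s i) = 0 ↔ v i = 0 := by
  rw [rW_apply, blk_eq_zero]

theorem qf_rW (w : W) (v : V) : qf (rW w v) = qf v := by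
  rw [qf, qf, ← Equiv.sum_comp w.s]
  refine Finset.sum_congr rfl fun i _ => ?_
  rw [rW_apply]
  exact blk_q _ _ _

theorem bf_rW (w : W) (u v : V) : bf (rW w u) (rW w v) = bf u v := by
  rw [bf, bf, ← Equiv.sum_comp w.s]
  refine Finset.sum_congr rfl fun i _ => ?_
  rw [rW_apply, rW_apply]
  exact blk_b _ _ _ _

theorem wt_rW (w : W) (v : V) : wt (rW w v) = wt v := by
  refine (Finset.card_equiv w.s fun i => ?_).symm
  simp only [Finset.mem_filter, Finset.mem_univ, true_and, Ne, rW_apply_eq_zero]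

theorem ev_inj {i k : Fin 4} {j l : F3} (h : ev i j = ev k l) : i = k ∧ j = l := by
  revert i k j l
  decide +kernel

theorem ev_add (i : Fin 4) (j : F3) : ev i j + ev i (j + 1) = ev i (j + 2) := by
  revert i j
  decide +kernel

theorem ev_apply_eq_zero (i k : Fin 4) (j : F3) : ev i j k = 0 ↔ k ≠ i := by
  revert i k j
  decide +kernel

theorem full_inj {j k : Fin 4 → F3} (h : full j = full k) : j = k := 
  funext fun i => e3_inj _ _ (congrFun h i)

theorem full_apply_ne (j : Fin 4 → F3) (i : Fin 4) : full j i ≠ 0 := 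
  e3_ne _

theorem full_eq_sum (j : Fin 4 → F3) : full j = ev 0 (j 0) + ev 1 (j 1) + ev 2 (j 2) + ev 3 (j 3) := by
  rw [← Finset.univ_sum_single (full j), Fin.sum_univ_four]
  rfl

theorem eq_of_rW {a b : W} (h : ∀ i j, rW a (ev i j) = rW b (ev i j)) : a = b := by
  have k : ∀ i j, a.s i = b.s i ∧ a.j i j = b.j i j := fun i j => ev_inj (by rw [← rW_ev, ← rW_ev, h])
  have k2 : ∀ (c c' : F2) (x x' : F3), sg c * 0 + x = sg c' * 0 + x' → sg c * 1 + x = sg c' * 1 + x' →
      c = c' ∧ x = x' := by decide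
  ext i
  · rw [(k i 0).1]
  · exact (k2 _ _ _ _ (k i 0).2 (k i 1).2).1
  · exact (k2 _ _ _ _ (k i 0).2 (k i 1).2).2

theorem qf_ev (i : Fin 4) (j : F3) : qf (ev i j) = 1 := by
  revert i j
  decide +kernel

theorem qf_full (j : Fin 4 → F3) : qf (full j) = 0 := by
  have k : ∀ l, (e3 l).1 * (e3 l).1 + (e3 l).1 * (e3 l).2 + (e3 l).2 * (e3 l).2 = 1 := by decide
  simp only [qf, full, k, Fin.sum_univ_four]
  decide

theorem bf_ev (i k : Fin 4) (j l : F3) : bf (ev i j) (ev k l) = if i = k ∧ j ≠ l then 1 else 0 := by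
  revert i k j l
  decide +kernel

theorem bf_ev_full (i : Fin 4) (l : F3) (j : Fin 4 → F3) : bf (ev i l) (full j) = if l = j i then 0 else 1 := by
  have k : ∀ a b, (e3 a).1 * (e3 b).2 + (e3 a).2 * (e3 b).1 = if a = b then 0 else 1 := by decide
  rw [bf, Finset.sum_eq_single i (fun b _ hb => by simp [ev_ne hb]) (by simp), ev_self]
  exact k _ _

theorem bf_comm (u v : V) : bf u v = bf v u := 
  Finset.sum_congr rfl fun i _ => by ring

theorem bf_add_left (u v w : V) : bf (u + v) w = bf u w + bf v w := by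
  rw [bf, bf, bf, ← Finset.sum_add_distrib]
  exact Finset.sum_congr rfl fun i _ => by simp only [Pi.add_apply, Prod.fst_add, Prod.snd_add]; ring

theorem bf_add_right (u v w : V) : bf u (v + w) = bf u v + bf u w := by
  rw [bf_comm, bf_add_left, bf_comm v, bf_comm w]

theorem qf_add (u v : V) : qf (u + v) = qf u + qf v + bf u v := by
  rw [← polar_qV, QuadraticMap.polar, qV_apply, qV_apply, qV_apply]
  ring

theorem bf_nondeg {v : V} (h : ∀ i j, bf v (ev i j) = 0) : v = 0 := by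
  funext i
  have k : ∀ p : F2 × F2, p.1 * (e3 0).2 + p.2 * (e3 0).1 = 0 → p.1 * (e3 1).2 + p.2 * (e3 1).1 = 0 →
      p = 0 := by decide
  have k2 : ∀ j, (v i).1 * (e3 j).2 + (v i).2 * (e3 j).1 = 0 := fun j => by
    have := h i j
    rwa [bf, Finset.sum_eq_single i (fun b _ hb => by simp [ev_ne hb]) (by simp), ev_self] at this
  exact k _ (k2 0) (k2 1)

theorem wt_ev (i : Fin 4) (j : F3) : wt (ev i j) = 1 := by
  revert i j
  decide +kernel

theorem wt_full (j : Fin 4 → F3) : wt (full j) = 4 := by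
  rw [wt, Finset.filter_true_of_mem fun i _ => full_apply_ne j i]
  rfl

theorem wt_ev_add {k l : Fin 4} (h : k ≠ l) (a b : F3) : wt (ev k a + ev l b) = 2 := by
  revert k l a b
  decide +kernel

theorem sing_cases {v : V} (h : qf v = 0) : v = 0 ∨ wt v = 2 ∨ ∃ j, v = full j := by
  have k : ∀ v : V, qf v = 0 → v = 0 ∨ wt v = 2 ∨ ∀ i, v i ≠ 0 := V_all (by decide +kernel)
  refine (k v h).imp_right (Or.imp_right fun h4 => ?_)
  choose j hj using fun i => (e3_cases (v i)).resolve_left (h4 i)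
  exact ⟨j, funext hj⟩

theorem nonsing_cases {v : V} (h : qf v = 1) : (∃ i j, v = ev i j) ∨ wt v = 3 := 
  V_all (p := fun v => qf v = 1 → (∃ i j, v = ev i j) ∨ wt v = 3) (by decide +kernel) v h

theorem wt_two {v : V} (h : wt v = 2) : ∃ k l a b, k ≠ l ∧ v = ev k a + ev l b := 
  V_all (p := fun v => wt v = 2 → ∃ k l a b, k ≠ l ∧ v = ev k a + ev l b) (by decide +kernel) v h

theorem fix_tr (a : Fin 4 → F3) (v : V) : rW (tr a) v = v ↔ ∀ i, a i = 0 ∨ v i = 0 := by
  rw [funext_iff]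
  exact forall_congr' fun i => blk_fix _ _

/-- a translation which is a `2`-element is trivial -/
theorem tr_two {a : Fin 4 → F3} {k : ℕ} (h : tr a ^ 2 ^ k = 1) : a = 0 := by
  have h1 : orderOf (tr a) ∣ Nat.gcd 3 (2 ^ k) :=
    Nat.dvd_gcd (orderOf_dvd_of_pow_eq_one (tr_cube a)) (orderOf_dvd_of_pow_eq_one h)
  rw [Nat.Coprime.pow_right k (by norm_num), Nat.dvd_one, orderOf_eq_one_iff] at h1
  exact tr_inj h1

/-- every element is a translation times a signed block permutation -/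
theorem eq_tr_mul {w : W} (he : ∀ i, w.e i = w.e 0) : w = tr (fun k => w.x (w.s⁻¹ k)) * mk0 w.s (w.e 0) := by
  ext i
  · simp
  · simp [he i]
  · simp

theorem Yg_ind {p : W → Prop} (h1 : ∀ a, ∑ i, a i = 0 → p (tr a)) (h2 : ∀ s, V4 s → s ≠ 1 → p (mk0 s 1))
    (hmul : ∀ a ∈ Yg, ∀ b ∈ Yg, p a → p b → p (a * b)) : ∀ w ∈ Yg, p w := by
  have k0 : ∀ s : Equiv.Perm (Fin 4), V4 s → s ≠ 1 → ∃ t u, V4 t ∧ t ≠ 1 ∧ V4 u ∧ u ≠ 1 ∧ s = t * u := by
    decide +kernel
  have k1 : ∀ s, V4 s → s ≠ 1 → p (mk0 s 0) := fun s hs hs1 => by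
    obtain ⟨t, u, a, b, c, d, rfl⟩ := k0 s hs hs1
    have := hmul _ (mk0_mem_Yg a 1) _ (mk0_mem_Yg c 1) (h2 t a b) (h2 u c d)
    rwa [mk0_mul] at this
  have k2 : ∀ s c, V4 s → p (mk0 s c) := fun s c hs => by
    by_cases hs1 : s = 1
    · subst hs1
      rcases f2_cases c with rfl | rfl
      · exact h1 0 (by simp)
      · have a : V4 (Equiv.swap 0 1 * Equiv.swap 2 3) := by decide +kernel
        have b : (Equiv.swap 0 1 * Equiv.swap 2 3 : Equiv.Perm (Fin 4)) ≠ 1 := by decide +kernel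
        have := hmul _ (mk0_mem_Yg a 0) _ (mk0_mem_Yg a 1) (k1 _ a b) (h2 _ a b)
        rwa [mk0_mul, a.1] at this
    · rcases f2_cases c with rfl | rfl
      exacts [k1 s hs hs1, h2 s hs hs1]
  intro w hw
  have h3 : ∑ k, w.x (w.s⁻¹ k) = 0 := (sum_perm _ _).trans hw.2.2
  rw [eq_tr_mul hw.2.1]
  exact hmul _ (tr_mem_Yg h3) _ (mk0_mem_Yg hw.1 _) (h1 _ h3) (k2 _ _ hw.1)

theorem invol_Yg {w : W} (hw : w ∈ Yg) (h2 : w * w = 1) :
    ∃ a, ∑ i, a i = 0 ∧ tr a * w * (tr a)⁻¹ = mk0 w.s (w.e 0) := by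
  have k : ∀ i, sg (w.e 0) * w.x i + w.x (w.s i) = 0 := fun i => by
    have := congrArg (fun u : W => u.x i) h2
    simpa only [W.mul_x, hw.2.1 (w.s i), W.one_x] using this
  refine ⟨fun i => -(sg (w.e 0) * w.x i), ?_, ?_⟩
  · rw [Finset.sum_neg_distrib, ← Finset.mul_sum, hw.2.2, mul_zero, neg_zero]
  · rw [mul_inv_eq_iff_eq_mul]
    ext i
    · simp
    · simp [hw.2.1 i]
    · simp only [W.mul_x, tr_e, tr_x, tr_s, mk0_e, mk0_x, sg_zero]
      have := k i
      revert this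
      generalize w.e 0 = c
      generalize w.x i = a
      generalize w.x (w.s i) = b
      revert a b c
      decide

theorem free_mk0 {s : Equiv.Perm (Fin 4)} (hs : V4 s) {c : F2} (h1 : mk0 s c ≠ 1) {u : V}
    (hu : rW (mk0 s c) u = u) : ∃ v, u = v + rW (mk0 s c) v := by
  by_cases hs1 : s = 1
  · subst hs1
    rcases f2_cases c with rfl | rfl
    · exact (h1 rfl).elim
    have k : ∀ p : F2 × F2, blk 1 0 p = p → ∃ q, p = q + blk 1 0 q := by decide
    choose v hv using fun i => k (u i) (congrFun hu i)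
    exact ⟨v, funext hv⟩
  have k : ∀ s : Equiv.Perm (Fin 4), V4 s → s ≠ 1 → ∀ i, (s i < i ↔ ¬ s (s i) < s i) := by
    decide +kernel
  refine ⟨fun i => if s i < i then u i else 0, funext fun l => ?_⟩
  obtain ⟨i, rfl⟩ := s.surjective l
  have h3 : blk c 0 (u i) = u (s i) := (rW_apply (mk0 s c) u i).symm.trans (congrFun hu (s i))
  have h4 := rW_apply (mk0 s c) (fun i => if s i < i then u i else 0) i
  rw [mk0_s, mk0_e, mk0_x] at h4
  rw [Pi.add_apply, h4]
  by_cases h5 : s i < i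
  · rw [if_pos h5, if_neg ((k s hs hs1 i).1 h5), zero_add, h3]
  · rw [if_neg h5, if_pos (not_not.1 fun e => h5 ((k s hs hs1 i).2 e)), blk_zero, add_zero]

/-- an element normalizing the translations of sum zero has constant signs -/
theorem sgn_const {w : W} (h : ∀ a : Fin 4 → F3, ∑ i, a i = 0 → ∑ k, sg (w.e (w.s⁻¹ k)) * a (w.s⁻¹ k) = 0)
    (i : Fin 4) : w.e i = w.e 0 := by
  have h1 := (sum_perm w.s⁻¹ fun k => sg (w.e k) * (Pi.single i 1 - Pi.single 0 1 : Fin 4 → F3) k).symm.trans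
    (h (Pi.single i 1 - Pi.single 0 1) (by simp [Finset.sum_sub_distrib]))
  simp only [Pi.sub_apply, mul_sub, Finset.sum_sub_distrib, Pi.single_apply, mul_ite, mul_one,
    mul_zero, Finset.sum_ite_eq', Finset.mem_univ, if_true] at h1
  revert h1
  generalize w.e i = a
  generalize w.e 0 = b
  revert a b
  decide

/-- the centralizer of the translations of sum zero -/
theorem cent_A {w : W} (h : ∀ a : Fin 4 → F3, ∑ i, a i = 0 → w * tr a = tr a * w) : w = tr w.x := by
  have k : ∀ a : Fin 4 → F3, ∑ i, a i = 0 → ∀ i, sg (w.e i) * a i = a (w.s i) := fun a ha i => by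
    have := congrArg (fun u : W => u.x i) (h a ha)
    simp only [W.mul_x, tr_e, tr_x, tr_s, Equiv.Perm.one_apply, sg_zero] at this
    linear_combination this
  have k2 : ∀ i m : Fin 4, ∃ l, l ≠ i ∧ l ≠ m := by decide
  have k3 : ∀ i, w.s i = i ∧ w.e i = 0 := fun i => by
    obtain ⟨l, h1, h2⟩ := k2 i (w.s i)
    have := k (Pi.single i 1 - Pi.single l 1) (by simp [Finset.sum_sub_distrib]) i
    rw [Pi.sub_apply, Pi.sub_apply, Pi.single_eq_same, Pi.single_eq_of_ne h1.symm,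
      Pi.single_eq_of_ne h2.symm, Pi.single_apply] at this
    revert this
    generalize w.e i = c
    split_ifs with h3
    · revert c
      simp only [h3, true_and]
      decide
    · revert c
      simp only [h3, false_and]
      decide
  exact eq_tr (Equiv.ext fun i => (k3 i).1) fun i => (k3 i).2

theorem bw_trans_one (i k : Fin 4) (j l : F3) : ∃ w ∈ Yg, rW w (ev i j) = ev k l := by
  have k1 : ∀ i k : Fin 4, ∃ s, V4 s ∧ s i = k := by decide +kernel
  have k2 : ∀ k : Fin 4, ∃ m, m ≠ k := by decide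
  obtain ⟨s, hs, rfl⟩ := k1 i k
  obtain ⟨m, hm⟩ := k2 (s i)
  refine ⟨tr (Pi.single (s i) (l - j) - Pi.single m (l - j)) * mk0 s 0,
    mul_mem (tr_mem_Yg (by simp [Finset.sum_sub_distrib])) (mk0_mem_Yg hs 0), ?_⟩
  rw [rW_ev]
  congr 1
  simp [W.j, sg_zero, Pi.single_eq_of_ne hm.symm]

/-- `Yg` is irreducible on `V` -/
theorem irr {U : V → Prop} (hadd : ∀ u v, U u → U v → U (u + v)) (hY : ∀ w ∈ Yg, ∀ v, U v → U (rW w v))
    {v : V} (hv : U v) (h0 : v ≠ 0) (u : V) : U u := by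
  obtain ⟨i, hi⟩ := Function.ne_iff.1 h0
  have k1 : ∀ i : Fin 4, ∃ k l, k ≠ i ∧ l ≠ i ∧ k ≠ l ∧ True := by decide
  obtain ⟨k, l, hk, hl, hkl, -⟩ := k1 i
  have k2 : ∀ p : F2 × F2, p + blk 0 0 p = 0 := by decide
  have k3 : ∀ p : F2 × F2, p ≠ 0 → p + blk 0 1 p ≠ 0 := by decide
  have step : ∀ k, k ≠ i → ∀ v, U v → v i ≠ 0 →
      ∃ u, U u ∧ u i ≠ 0 ∧ ∀ m, m ≠ i → (m ≠ k ∨ v m = 0) → u m = 0 := fun k hk v hv hi => by
    refine ⟨_, hadd _ _ hv (hY _ (tr_mem_Yg (a := Pi.single i 1 - Pi.single k 1)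
      (by simp [Finset.sum_sub_distrib])) v hv), ?_, fun m hm hm' => ?_⟩
    · have := rW_apply (tr (Pi.single i 1 - Pi.single k 1)) v i
      rw [tr_e, tr_x, Pi.sub_apply, Pi.single_eq_same, Pi.single_eq_of_ne hk.symm, sub_zero] at this
      exact fun e => k3 _ hi (this ▸ e)
    · have := rW_apply (tr (Pi.single i 1 - Pi.single k 1)) v m
      refine (congrArg (v m + ·) this).trans ?_
      rcases hm' with hm' | hm'
      · rw [tr_e, tr_x, Pi.sub_apply, Pi.single_eq_of_ne hm, Pi.single_eq_of_ne hm', sub_zero, k2]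
      · rw [hm', blk_zero, add_zero]
  obtain ⟨u1, a1, b1, c1⟩ := step k hk v hv hi
  obtain ⟨u2, a2, b2, c2⟩ := step l hl u1 a1 b1
  obtain ⟨j, hj⟩ := (e3_cases (u2 i)).resolve_left b2
  have e : u2 = ev i j := funext fun m => by
    by_cases hm : m = i
    · rw [hm, hj, ev_self]
    · rw [ev_ne hm]
      refine c2 m hm ?_
      by_cases h : m = l
      · exact Or.inr (c1 m hm (Or.inl (h ▸ hkl.symm)))
      · exact Or.inl h
  refine V_ind (V_add_self v ▸ hadd _ _ hv hv) (fun a b => ?_) hadd u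
  obtain ⟨w, hw, e'⟩ := bw_trans_one i a j b
  exact e' ▸ hY w hw _ (e ▸ a2)

/-- `Yg` is transitive on the vectors of weight one -/
theorem trans_one (i k : Fin 4) (j l : F3) : ∃ w ∈ Yg, rW w (ev i j) = ev k l := 
  bw_trans_one i k j l

/-- `Yg` is transitive on the vectors of weight three -/
theorem trans_three {u v : V} (hu : wt u = 3) (hv : wt v = 3) : ∃ w ∈ Yg, rW w u = v := by
  have k0 : ∀ v : V, wt v = 3 → ∃ i, v i = 0 ∧ ∀ k, k ≠ i → v k ≠ 0 := V_all (by decide +kernel)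
  have k1 : ∀ i k : Fin 4, ∃ s, V4 s ∧ s i = k := by decide +kernel
  have k2 : ∀ p q : F2 × F2, ∃ a : F3, p ≠ 0 → q ≠ 0 → blk 0 a p = q := by decide
  obtain ⟨i, hi, hi'⟩ := k0 u hu
  obtain ⟨k, hk, hk'⟩ := k0 v hv
  obtain ⟨s, hs, rfl⟩ := k1 i k
  choose a ha using fun l => k2 (rW (mk0 s 0) u l) (v l)
  refine ⟨tr (a - Pi.single (s i) (∑ l, a l)) * mk0 s 0,
    mul_mem (tr_mem_Yg (by simp [Finset.sum_sub_distrib])) (mk0_mem_Yg hs 0), ?_⟩
  rw [rW_mul]
  funext l
  obtain ⟨m, rfl⟩ := s.surjective l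
  refine (rW_apply (tr _) _ (s m)).trans ?_
  by_cases h : m = i
  · subst h
    rw [hk, blk_eq_zero]
    exact (rW_apply_eq_zero (mk0 s 0) u m).2 hi
  · have h' := s.injective.ne h
    rw [tr_e, tr_x, Pi.sub_apply, Pi.single_eq_of_ne h', sub_zero]
    exact ha _ (fun e => hi' m h ((rW_apply_eq_zero (mk0 s 0) u m).1 e)) (hk' _ h')

end CfsgLib.O83
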