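import Cfsg.Agent.Lib.O83.Fr2

/-! Package WT2: elements of weight two are not conjugate to `z`.  See `plans/O83.md`. -/

set_option autoImplicit false
set_option linter.unusedSectionVars false

namespace CfsgLib.O83

open Subgroup CfsgLib.ExtraTwo CfsgLib.LargeExtra

variable {G : Type*} [Group G] {K : Subgroup G} {z n : G} {y : Fin 4 → F3 → G} {P : G → W}

/-- two further indices -/
theorem wt2_other : ∀ k l : Fin 4, k ≠ l → ∃ k' l' : Fin 4, k' ≠ l' ∧ k' ≠ k ∧ k' ≠ l ∧ l' ≠ k ∧ l' ≠ l := by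
  decide

/-- at most four permutations preserve a pair -/
theorem wt2_card : ∀ k l : Fin 4, k ≠ l →
    (Finset.univ.filter fun s : Equiv.Perm (Fin 4) => (s k = k ∨ s k = l) ∧ (s l = k ∨ s l = l)).card ≤ 4 := by
  decide +kernel

theorem wt2_sum (k l : Fin 4) :
    ∑ i, (Pi.single k 1 - Pi.single l 1 : Fin 4 → F3) i = 0 := by
  simp [Finset.sum_sub_distrib]

theorem wt2_supp {k l i : Fin 4} (a b : F3) (h : k ≠ l) : (ev k a + ev l b) i = 0 ↔ i ≠ k ∧ i ≠ l := by
  constructor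
  · intro e
    refine ⟨fun hi => ?_, fun hi => ?_⟩
    · subst hi
      have h1 : ev l b i = 0 := (ev_apply_eq_zero l i b).2 h
      rw [Pi.add_apply, h1, add_zero, ev_apply_eq_zero] at e
      exact e rfl
    · subst hi
      have h1 : ev k a i = 0 := (ev_apply_eq_zero k i a).2 h.symm
      rw [Pi.add_apply, h1, zero_add, ev_apply_eq_zero] at e
      exact e rfl
  · rintro ⟨h1, h2⟩
    rw [Pi.add_apply, (ev_apply_eq_zero k i a).2 h1, (ev_apply_eq_zero l i b).2 h2, add_zero]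

/-- a translation of square one is trivial -/
theorem wt2_tr_sq {a : Fin 4 → F3} (h : tr a * tr a = 1) : a = 0 :=
  tr_two (k := 1) (by rw [pow_one, pow_two]; exact h)

theorem Cz.wt2 [Finite G] (h : Cz z y P) {x : G} (hx : x ∈ QQ y) (h2 : wt (pi z y x) = 2) : ¬ IsConj z x := by
  intro hc
  obtain ⟨g, rfl⟩ := isConj_iff.1 hc
  have hne : g * z * g⁻¹ ≠ z := by
    intro e
    rw [e, h.fr.pi_z] at h2
    revert h2; decide
  obtain ⟨-, L, h8, hsq, hL, hfix, hn⟩ := h.pair_L hx hne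
  obtain ⟨k, l, a, b, hkl, hv⟩ := wt_two h2
  obtain ⟨k', l', hkl', h1, h2', h3, h4⟩ := wt2_other k l hkl
  let c : Fin 4 → F3 := Pi.single k' 1 - Pi.single l' 1
  obtain ⟨m, hm, hPm⟩ := h.ysub (tr c) (tr_mem_Yg (wt2_sum k' l'))
  have hdfix : rW (P m) (pi z y (g * z * g⁻¹)) = pi z y (g * z * g⁻¹) := by
    rw [hPm, fix_tr, hv]
    intro i
    by_cases hi : i = k' ∨ i = l'
    · right
      rw [wt2_supp a b hkl]
      rcases hi with rfl | rfl
      exacts [⟨h1, h2'⟩, ⟨h3, h4⟩]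
    · left
      rw [not_or] at hi
      simp [c, hi.1, hi.2]
  have hcomm : ∀ r ∈ L, r * tr c * r⁻¹ = tr c := by
    intro r hr
    have e1 := L.mul_mem (hn m hm hdfix r hr) (L.inv_mem hr)
    rw [hPm] at e1
    have e2 : tr c * r * (tr c)⁻¹ * r⁻¹ = tr (c - fun i => sg (r.e (r.s⁻¹ i)) * c (r.s⁻¹ i)) := by
      rw [sub_eq_add_neg, tr_add, tr_neg, ← conj_tr]; group
    rw [e2] at e1
    have e3 := wt2_tr_sq (hsq _ e1)
    rw [conj_tr, ← sub_eq_zero.1 e3]
  have hinj : ∀ r ∈ L, r.s = 1 → r = 1 := by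
    intro r hr hs
    obtain ⟨m', -, hm', hP'⟩ := (hL r).1 hr
    have hsg : ∀ i, r.e i = r.e 0 := by
      have := h.sgn m' hm' (by rw [hP']; exact hs)
      rwa [hP'] at this
    have e1 := hcomm r hr
    rw [conj_tr] at e1
    have e2 := congrFun (tr_inj e1) k'
    simp only [hs, inv_one, Equiv.Perm.one_apply] at e2
    have e3 : c k' = 1 := by simp [c, hkl']
    rw [e3, mul_one] at e2
    have e4 : r.e k' = 0 := by
      rcases f2_cases (r.e k') with e | e
      · exact e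
      · rw [e] at e2; exact absurd e2 (by decide)
    have e5 : r = tr r.x := eq_tr hs fun i => by rw [hsg, ← hsg k', e4]
    have e6 : r.x = 0 := wt2_tr_sq (by rw [← e5]; exact hsq r hr)
    rw [e5, e6, tr_zero]
  have hpres : ∀ r ∈ L, ∀ i, (i = k ∨ i = l) → (r.s i = k ∨ r.s i = l) := by
    intro r hr i hi
    by_contra hcon
    rw [not_or] at hcon
    have e1 := (rW_apply_eq_zero r (pi z y (g * z * g⁻¹)) i).1 (by
      rw [hfix r hr, hv, wt2_supp a b hkl]; exact hcon)
    rw [hv, wt2_supp a b hkl] at e1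
    rcases hi with hi | hi
    exacts [e1.1 hi, e1.2 hi]
  have hle : Nat.card L ≤ 4 := by
    refine le_trans ?_ (wt2_card k l hkl)
    rw [← Nat.card_eq_finsetCard]
    refine Nat.card_le_card_of_injective
      (fun r : L => ⟨r.1.s, by
        simp only [Finset.mem_filter, Finset.mem_univ, true_and]
        exact ⟨hpres _ r.2 k (Or.inl rfl), hpres _ r.2 l (Or.inr rfl)⟩⟩) ?_
    intro r r' e
    have e1 : r.1.s = r'.1.s := congrArg Subtype.val e
    have e2 := hinj _ (L.mul_mem (L.inv_mem r.2) r'.2) (by simp [e1])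
    exact Subtype.ext (inv_mul_eq_one.1 e2)
  omega

theorem Cz.full_of_conj [Finite G] (h : Cz z y P) {x : G} (hx : x ∈ QQ y) (hc : IsConj z x) :
    x = z ∨ ∃ j, pi z y x = full j := by
  obtain ⟨g, hg⟩ := isConj_iff.1 hc
  have hsq : x * x = 1 := by
    rw [← hg]
    calc g * z * g⁻¹ * (g * z * g⁻¹) = g * (z * z) * g⁻¹ := by group
      _ = 1 := by rw [h.fr.zz]; group
  rcases sing_cases ((h.fr.sq_iff hx).1 hsq) with e | e | e
  · rcases (h.fr.pi_eq_zero hx).1 e with e1 | e1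
    · exfalso
      apply h.fr.z1
      calc z = g⁻¹ * x * g := by rw [← hg]; group
        _ = 1 := by rw [e1]; group
    · exact Or.inl e1
  · exact absurd hc (h.wt2 hx e)
  · exact Or.inr e

end CfsgLib.O83
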