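import Cfsg.Agent.Lib.O83.Sk
import Cfsg.Agent.Lib.O83.Wt2
import Cfsg.Agent.Lib.O8R.Frame

/-! Package CA: the case of translations of sum zero.  See `plans/O83.md`. -/

set_option autoImplicit false
set_option linter.unusedSectionVars false

namespace CfsgLib.O83

open Subgroup CfsgLib.ExtraTwo CfsgLib.LargeExtra

variable {G : Type*} [Group G] {K : Subgroup G} {z n : G} {y : Fin 4 → F3 → G} {P : G → W}

theorem ca_tr_pow (a : Fin 4 → F3) (k : ℕ) : tr a ^ k = tr (k • a) := by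
  induction k with
  | zero => rw [pow_zero, zero_smul, tr_zero]
  | succ k ih => rw [pow_succ, ih, succ_nsmul, tr_add]

theorem ca_V4_conj : ∀ s t : Equiv.Perm (Fin 4), V4 t → V4 (s * t * s⁻¹) := by decide +kernel

theorem ca_card_V4 : Fintype.card {s : Equiv.Perm (Fin 4) // V4 s} = 4 := by decide +kernel

theorem ca_conj_mk0 (w : W) : w * mk0 1 1 * w⁻¹ * mk0 1 1 = tr fun k => 2 * w.x (w.s⁻¹ k) := by
  ext k
  · simp
  · simp only [W.mul_e, W.inv_e, W.inv_s, mk0_e, mk0_s, tr_e, Equiv.Perm.one_apply]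
    generalize w.e (w.s⁻¹ k) = t
    revert t; decide
  · simp only [W.mul_x, W.mul_e, W.inv_x, W.inv_s, mk0_e, mk0_s, mk0_x, tr_x, Equiv.Perm.one_apply]
    generalize w.e (w.s⁻¹ k) = t
    generalize w.x (w.s⁻¹ k) = u
    generalize sg _ = v
    revert t u v; decide

theorem Ce.dich (h : Ce z y P) : (∀ m a, m * z = z * m → P m = tr a → ∑ i, a i = 0) ∨ CF z y P := by
  by_cases hA : ∀ m a, m * z = z * m → P m = tr a → ∑ i, a i = 0
  · exact Or.inl hA
  push Not at hA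
  obtain ⟨m, a, hm, e, ha⟩ := hA
  refine Or.inr ⟨h, fun b => ?_⟩
  obtain ⟨k, hk⟩ : ∃ k : ℕ, k • ∑ i, a i = ∑ i, b i := by
    refine ⟨((∑ i, b i) * ∑ i, a i).val, ?_⟩
    revert ha
    generalize ∑ i, a i = s
    generalize ∑ i, b i = t
    revert s t; decide
  obtain ⟨d, hd, e'⟩ := h.ysub _ (tr_mem_Yg (a := b - k • a) (by
    simp only [Pi.sub_apply, Pi.smul_apply, Finset.sum_sub_distrib, ← Finset.smul_sum, hk, sub_self]))
  have hc : m ^ k * z = z * m ^ k := (show Commute m z from hm).pow_left k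
  refine ⟨d * m ^ k, (show Commute d z from hd).mul_left hc, ?_⟩
  rw [h.toCz.P_mul hd hc, h.toCz.P_pow hm, e, e', ca_tr_pow, ← tr_add, sub_add_cancel]

theorem ca_conj_comm {a b : G} (ha : a * z = z * a) (hb : b * z = z * b) : a * b * a⁻¹ * z = z * (a * b * a⁻¹) :=
  ((show Commute a z from ha).mul_left hb).mul_left (show Commute a z from ha).inv_left

theorem Cz.caseA_e (h : Cz z y P) (hA : ∀ m a, m * z = z * m → P m = tr a → ∑ i, a i = 0) {m : G}
    (hm : m * z = z * m) (i : Fin 4) : (P m).e i = (P m).e 0 := by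
  refine sgn_const (fun a ha => ?_) i
  obtain ⟨d, hd, e⟩ := h.ysub _ (tr_mem_Yg ha)
  exact hA _ _ (ca_conj_comm hm hd) (by rw [h.P_conj hm hd, e, conj_tr])

theorem Cz.caseA_x (h : Cz z y P) (hA : ∀ m a, m * z = z * m → P m = tr a → ∑ i, a i = 0) {m : G}
    (hm : m * z = z * m) : ∑ i, (P m).x i = 0 := by
  obtain ⟨d, hd, e⟩ := h.ysub _ (mk0_mem_Yg (s := 1) (by decide +kernel) 1)
  have h1 := ca_conj_comm hm hd
  have h2 := hA _ _ ((show Commute _ z from h1).mul_left hd)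
    (by rw [h.P_mul h1 hd, h.P_conj hm hd, e, ca_conj_mk0])
  rw [← Finset.mul_sum, sum_perm] at h2
  revert h2
  generalize ∑ i, (P m).x i = t
  revert t; decide

theorem K0.caseA_conj (hK : K0 K z y n) (h : Cz z y P)
    (hA : ∀ m a, m * z = z * m → P m = tr a → ∑ i, a i = 0) {m d : G} (hm : m * z = z * m) (hd : d ∈ K)
    (hz : d * z = z * d) : m * d * m⁻¹ ∈ K := by
  have h1 := ca_conj_comm hm hz
  refine hK.mem_of_PY h h1 ⟨?_, h.caseA_e hA h1, h.caseA_x hA h1⟩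
  rw [h.P_conj hm hz]
  exact ca_V4_conj _ _ (hK.PY h hd hz).1

theorem K0.caseA_conj' (hK : K0 K z y n) (h : Cz z y P)
    (hA : ∀ m a, m * z = z * m → P m = tr a → ∑ i, a i = 0) {m d : G} (hm : m * tt y = tt y * m) (hd : d ∈ K)
    (hz : d * tt y = tt y * d) : m * d * m⁻¹ ∈ K := by
  have key : ∀ c, c * tt y = tt y * c → n⁻¹ * c * n * z = z * (n⁻¹ * c * n) := by
    intro c h2
    rw [← hK.nz] at h2
    calc n⁻¹ * c * n * z = n⁻¹ * (c * (n * z * n⁻¹)) * n := by group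
      _ = _ := by rw [h2]; group
  have h1 := hK.caseA_conj h hA (key m hm) (mul_mem (mul_mem (inv_mem hK.nK) hd) hK.nK) (key d hz)
  have h2 := mul_mem (mul_mem hK.nK h1) (inv_mem hK.nK)
  convert h2 using 1
  group

theorem K0.caseA_norm [Finite G] (hK : K0 K z y n) (h : Ce z y P)
    (hA : ∀ m a, m * z = z * m → P m = tr a → ∑ i, a i = 0) {m : G} (hm : m * z = z * m) :
    m ∈ normalizer (K : Set G) := by
  have h' := h.toCz
  have fr := h'.fr
  have p := h'.pre.pair (by rw [fr.card]; norm_num) (g := n) (by rw [hK.nz]; exact tt_mem y)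
    (by rw [hK.nz]; exact fr.tt_ne_z)
  rw [hK.nz] at p
  have hQ1 : (QQ y).map (MulAut.conj n).toMonoidHom ≤ K := by
    rintro _ ⟨q, hq, rfl⟩
    exact mul_mem (mul_mem hK.nK (hK.Q_le hq)) (inv_mem hK.nK)
  have both : ∀ c, c * z = z * c → c * tt y = tt y * c → c ∈ normalizer (K : Set G) := by
    intro c h1 h2
    have hM : ∀ d ∈ K, d * z = z * d → d ∈ K.comap (MulAut.conj c).toMonoidHom :=
      fun d hd hz => hK.caseA_conj h' hA h1 hd hz
    obtain ⟨g, hg, hgz, -⟩ := O8R.exists_swap p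
    have hgK : g ∈ K := sup_le hK.Q_le hQ1 hg
    have hle : QQ y ⊔ (QQ y).map (MulAut.conj n).toMonoidHom ≤ K.comap (MulAut.conj c).toMonoidHom :=
      sup_le (fun q hq => hM q (hK.Q_le hq) (fr.es.comm_z q hq))
        (fun q hq => hK.caseA_conj' h' hA h2 (hQ1 hq) (p.h1.es.comm_z q hq))
    have hgM := hle hg
    have h3 : g⁻¹ * n ∈ K.comap (MulAut.conj c).toMonoidHom := by
      refine hM _ (mul_mem (inv_mem hgK) hK.nK) ?_
      calc g⁻¹ * n * z = g⁻¹ * (n * z * n⁻¹) * n := by group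
        _ = _ := by rw [hK.nz, ← hgz]; group
    have h4 := mul_mem hgM h3
    rw [mul_inv_cancel_left] at h4
    exact mem_normalizer_fintype fun d hd => hK.gen _ hM h4 hd
  have hw := eq_tr_mul (h'.caseA_e hA hm)
  obtain ⟨d, hd, hda⟩ := hK.lift _ (tr_mem_Yg (a := fun k => (P m).x ((P m).s⁻¹ k))
    (by rw [sum_perm, h'.caseA_x hA hm]))
  have hdz := fr.act_comm_z hda
  have hdz' : d⁻¹ * z = z * d⁻¹ := (show Commute d z from hdz).inv_left
  have h1 : d⁻¹ * m * z = z * (d⁻¹ * m) := (show Commute d⁻¹ z from hdz').mul_left hm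
  have h2 : P (d⁻¹ * m) = mk0 (P m).s ((P m).e 0) := by
    rw [h'.P_mul hdz' hm, h'.P_inv hdz, h'.eq_of_act hda, inv_mul_eq_iff_eq_mul]
    exact hw
  have h3 := h'.pi_conj h1 (tt_mem y)
  rw [h2, fr.pi_tt, rW_mk0_tV, ← fr.pi_tt,
    fr.pi_eq_iff (h'.pre.norm _ h1 _ (tt_mem y)) (tt_mem y)] at h3
  obtain ⟨a, ha, h4, h5⟩ := p.exists_conj_mem h1 h3
  have h6 := mul_mem (le_normalizer hd) (mul_mem (inv_mem (le_normalizer (hK.Q_le ha))) (both _ h4 h5))
  rwa [inv_mul_cancel_left, mul_inv_cancel_left] at h6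

theorem K0.caseA_fus [Finite G] (hK : K0 K z y n) (h : Ce z y P) (h2 : 4096 ∣ Nat.card K)
    (hA : ∀ m a, m * z = z * m → P m = tr a → ∑ i, a i = 0) {g : G}
    (hg : g * z * g⁻¹ ∈ normalizer (K : Set G)) : ∃ k ∈ K, k * z * k⁻¹ = g * z * g⁻¹ := by
  have h' := h.toCz
  have fr := h'.fr
  have hx2 : g * z * g⁻¹ * (g * z * g⁻¹) = 1 := by
    calc _ = g * (z * z) * g⁻¹ := by group
      _ = 1 := by rw [fr.zz]; group
  obtain ⟨k, hk, hkQ⟩ := hK.into (mem_of_index_odd (h.index_odd h2) hx2 hg) hx2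
  have e : k * (g * z * g⁻¹) * k⁻¹ = k * g * z * (k * g)⁻¹ := by group
  rw [e] at hkQ
  suffices H : ∃ k' ∈ K, k' * z * k'⁻¹ = k * g * z * (k * g)⁻¹ by
    obtain ⟨k', hk', e'⟩ := H
    refine ⟨k⁻¹ * k', mul_mem (inv_mem hk) hk', ?_⟩
    calc k⁻¹ * k' * z * (k⁻¹ * k')⁻¹ = k⁻¹ * (k' * z * k'⁻¹) * k := by group
      _ = _ := by rw [e']; group
  by_cases hne : k * g * z * (k * g)⁻¹ = z
  · exact ⟨1, one_mem K, by rw [hne]; group⟩
  obtain e1 | ⟨j, hj⟩ := h'.full_of_conj hkQ (isConj_iff.2 ⟨_, rfl⟩)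
  · exact absurd e1 hne
  refine hK.conj_full hkQ hj ?_
  by_contra h0
  obtain ⟨-, L, h8, hsq, hL, hfix, -⟩ := h'.pair_L hkQ hne
  rw [hj] at hfix
  have hker : ∀ r ∈ L, r.s = 1 → r = 1 := by
    intro r hr hs
    obtain ⟨m, -, hm, rfl⟩ := (hL r).1 hr
    have he := h'.caseA_e hA hm
    rcases f2_cases ((P m).e 0) with e0 | e0
    · have h3 := eq_tr hs fun i => (he i).trans e0
      have h4 : (P m).x = 0 := tr_two (k := 1) (by rw [← h3, pow_one, pow_two, hsq _ hr])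
      rw [h3, h4, tr_zero]
    · exfalso
      have h3 := hfix _ hr
      rw [rW_full] at h3
      have h4 : ∀ i, (P m).x i = 2 * j i := by
        intro i
        have h5 := congrFun (full_inj h3) i
        simp only [hs, inv_one, Equiv.Perm.one_apply, W.j, he i, e0, sg_one] at h5
        linear_combination h5
      have h5 := h'.caseA_x hA hm
      simp only [h4, ← Finset.mul_sum] at h5
      revert h0 h5
      generalize ∑ i, j i = t
      revert t; decide
  have hV : ∀ r ∈ L, V4 r.s := by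
    intro r hr
    obtain ⟨m, -, hm, rfl⟩ := (hL r).1 hr
    exact ⟨congrArg W.s (hsq _ hr), h.even m hm⟩
  have hle := Nat.card_le_card_of_injective
    (fun r : L => (⟨r.1.s, hV _ r.2⟩ : {s : Equiv.Perm (Fin 4) // V4 s})) fun r r' hrr => by
      have h3 : r.1.s = r'.1.s := congrArg Subtype.val hrr
      have h4 := hker _ (mul_mem (inv_mem r.2) r'.2) (by rw [W.mul_s, W.inv_s, h3, inv_mul_cancel])
      exact Subtype.ext (inv_mul_eq_one.1 h4)
  rw [Nat.card_eq_fintype_card (α := {s : Equiv.Perm (Fin 4) // V4 s}), ca_card_V4] at hle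
  omega

end CfsgLib.O83
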