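import Mathlib
import Cfsg.Prelude.Def_Classical
import Cfsg.Prelude.Def_Local
import Cfsg.Prelude.Def_LocalStructure
import Cfsg.Agent.Lib.LargeExtra.Setting

/-!
# Groups with a subgroup `Ω₈⁺(2)` of odd index (S2920): definitions

`W = S₃ ≀ S₄` acts on the twelve points `(i, j)`, `i : Fin 4`, `j : ZMod 3`, and on `V = (F₂²)⁴`.
-/

set_option autoImplicit false

namespace CfsgLib.O83

open Subgroup CfsgLib.ExtraTwo CfsgLib.LargeExtra

abbrev F2 : Type := ZMod 2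
abbrev F3 : Type := ZMod 3
abbrev V : Type := Fin 4 → F2 × F2

/-- the sign `(-1)^b` -/
def sg (b : F2) : F3 := if b = 0 then 1 else -1

theorem sg_zero : sg 0 = 1 := rfl
theorem sg_one : sg 1 = -1 := rfl
theorem sg_add : ∀ a b, sg (a + b) = sg a * sg b := by decide
theorem sg_sq : ∀ a, sg a * sg a = 1 := by decide
theorem f2_cases : ∀ a : F2, a = 0 ∨ a = 1 := by decide
theorem f3_cases : ∀ a : F3, a = 0 ∨ a = 1 ∨ a = 2 := by decide

/-- the wreath product `S₃ ≀ S₄`; `w` maps the point `(i, j)` to `(w.s i, sg (w.e i) * j + w.x i)` -/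
@[ext] structure W where
  s : Equiv.Perm (Fin 4)
  e : Fin 4 → F2
  x : Fin 4 → F3
  deriving DecidableEq

namespace W

instance : Mul W := ⟨fun a b => ⟨a.s * b.s, fun i => a.e (b.s i) + b.e i,
  fun i => sg (a.e (b.s i)) * b.x i + a.x (b.s i)⟩⟩
instance : One W := ⟨⟨1, 0, 0⟩⟩
instance : Inv W := ⟨fun a => ⟨a.s⁻¹, fun i => a.e (a.s⁻¹ i), fun i => -(sg (a.e (a.s⁻¹ i)) * a.x (a.s⁻¹ i))⟩⟩

@[simp] theorem mul_s (a b : W) : (a * b).s = a.s * b.s := rfl
@[simp] theorem mul_e (a b : W) (i : Fin 4) : (a * b).e i = a.e (b.s i) + b.e i := rfl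
@[simp] theorem mul_x (a b : W) (i : Fin 4) : (a * b).x i = sg (a.e (b.s i)) * b.x i + a.x (b.s i) := rfl
@[simp] theorem one_s : (1 : W).s = 1 := rfl
@[simp] theorem one_e (i : Fin 4) : (1 : W).e i = 0 := rfl
@[simp] theorem one_x (i : Fin 4) : (1 : W).x i = 0 := rfl
@[simp] theorem inv_s (a : W) : a⁻¹.s = a.s⁻¹ := rfl
@[simp] theorem inv_e (a : W) (i : Fin 4) : a⁻¹.e i = a.e (a.s⁻¹ i) := rfl
@[simp] theorem inv_x (a : W) (i : Fin 4) : a⁻¹.x i = -(sg (a.e (a.s⁻¹ i)) * a.x (a.s⁻¹ i)) := rfl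

instance : Group W := Group.ofLeftAxioms
  (fun a b c => by
    ext i
    · simp [mul_assoc]
    · simp [add_assoc]
    · simp only [mul_x, mul_e, mul_s, Equiv.Perm.mul_apply, sg_add]; ring)
  (fun a => by ext i <;> simp [sg_zero])
  (fun a => by
    ext i
    · simp
    · simp [CharTwo.add_self_eq_zero]
    · simp)

/-- the three components -/
def equivProd : W ≃ Equiv.Perm (Fin 4) × (Fin 4 → F2) × (Fin 4 → F3) :=
  ⟨fun w => (w.s, w.e, w.x), fun p => ⟨p.1, p.2.1, p.2.2⟩, fun _ => rfl, fun _ => rfl⟩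

instance : Fintype W := Fintype.ofEquiv _ equivProd.symm

/-- the second coordinate of the image of the point `(i, j)` -/
def j (w : W) (i : Fin 4) (j : F3) : F3 := sg (w.e i) * j + w.x i

theorem j_mul (a b : W) (i : Fin 4) (k : F3) : (a * b).j i k = a.j (b.s i) (b.j i k) := by
  simp only [j, mul_e, mul_x, sg_add]; ring

theorem j_one (i : Fin 4) (k : F3) : (1 : W).j i k = k := by simp [j, sg_zero]

/-- the permutation of the blocks -/
def sHom : W →* Equiv.Perm (Fin 4) := ⟨⟨W.s, rfl⟩, fun _ _ => rfl⟩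

end W

/-- translations -/
def tr (a : Fin 4 → F3) : W := ⟨1, 0, a⟩
/-- block permutation with constant sign -/
def mk0 (s : Equiv.Perm (Fin 4)) (c : F2) : W := ⟨s, fun _ => c, 0⟩

@[simp] theorem tr_s (a : Fin 4 → F3) : (tr a).s = 1 := rfl
@[simp] theorem tr_e (a : Fin 4 → F3) (i : Fin 4) : (tr a).e i = 0 := rfl
@[simp] theorem tr_x (a : Fin 4 → F3) : (tr a).x = a := rfl
@[simp] theorem mk0_s (s : Equiv.Perm (Fin 4)) (c : F2) : (mk0 s c).s = s := rfl
@[simp] theorem mk0_e (s : Equiv.Perm (Fin 4)) (c : F2) (i : Fin 4) : (mk0 s c).e i = c := rfl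
@[simp] theorem mk0_x (s : Equiv.Perm (Fin 4)) (c : F2) (i : Fin 4) : (mk0 s c).x i = 0 := rfl

theorem tr_zero : tr 0 = 1 := rfl
theorem tr_add (a b : Fin 4 → F3) : tr (a + b) = tr a * tr b := by
  ext i <;> simp [sg_zero, add_comm]
theorem tr_neg (a : Fin 4 → F3) : tr (-a) = (tr a)⁻¹ :=
  eq_inv_of_mul_eq_one_left (by rw [← tr_add, neg_add_cancel, tr_zero])
theorem tr_inj {a b : Fin 4 → F3} (h : tr a = tr b) : a = b := congrArg W.x h
theorem tr_comm (a b : Fin 4 → F3) : tr a * tr b = tr b * tr a := by rw [← tr_add, ← tr_add, add_comm]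
theorem tr_cube (a : Fin 4 → F3) : tr a ^ 3 = 1 := by
  rw [pow_three', ← tr_add, ← tr_add, ← tr_zero]
  congr 1; funext i; simp only [Pi.add_apply, Pi.zero_apply]; generalize a i = t; revert t; decide
theorem eq_tr {w : W} (hs : w.s = 1) (he : ∀ i, w.e i = 0) : w = tr w.x := by
  ext i <;> simp [hs, he]
/-- conjugating a translation -/
theorem conj_tr (w : W) (a : Fin 4 → F3) :
    w * tr a * w⁻¹ = tr fun k => sg (w.e (w.s⁻¹ k)) * a (w.s⁻¹ k) := by
  ext k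
  · simp
  · simp [CharTwo.add_self_eq_zero]
  · simp only [W.mul_x, W.mul_e, W.inv_s, W.inv_x, tr_s, tr_e, tr_x, Equiv.Perm.one_apply, add_zero]
    linear_combination (-(w.x (w.s⁻¹ k))) * sg_sq (w.e (w.s⁻¹ k))

/-- the Klein four-group in `S₄` -/
def V4 (s : Equiv.Perm (Fin 4)) : Prop := s * s = 1 ∧ Equiv.Perm.sign s = 1

instance : DecidablePred V4 := fun s => inferInstanceAs (Decidable (s * s = 1 ∧ Equiv.Perm.sign s = 1))

theorem V4.mul : ∀ s t, V4 s → V4 t → V4 (s * t) := by decide +kernel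
theorem V4.inv : ∀ s, V4 s → V4 s⁻¹ := by decide +kernel

theorem sum_perm (s : Equiv.Perm (Fin 4)) (a : Fin 4 → F3) : ∑ i, a (s i) = ∑ i, a i := Equiv.sum_comp s a

/-- the image `S₃ × S₃ × S₃` of the involution centralizer of `Ω₈⁺(2)` -/
def Yg : Subgroup W where
  carrier := {w | V4 w.s ∧ (∀ i, w.e i = w.e 0) ∧ ∑ i, w.x i = 0}
  one_mem' := ⟨by decide +kernel, fun _ => rfl, by simp⟩
  mul_mem' := by
    rintro a b ⟨h1, h2, h3⟩ ⟨k1, k2, k3⟩
    refine ⟨V4.mul _ _ h1 k1, fun i => by rw [W.mul_e, W.mul_e, h2, h2 (b.s 0), k2], ?_⟩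
    simp only [W.mul_x, h2, Finset.sum_add_distrib, ← Finset.mul_sum, k3, sum_perm b.s a.x, h3, mul_zero, add_zero]
  inv_mem' := by
    rintro a ⟨h1, h2, h3⟩
    refine ⟨V4.inv _ h1, fun i => by rw [W.inv_e, W.inv_e, h2, h2 (a.s⁻¹ 0)], ?_⟩
    simp only [W.inv_x, h2, Finset.sum_neg_distrib, ← Finset.mul_sum, sum_perm a.s⁻¹ a.x, h3, mul_zero, neg_zero]

theorem mem_Yg {w : W} : w ∈ Yg ↔ V4 w.s ∧ (∀ i, w.e i = w.e 0) ∧ ∑ i, w.x i = 0 := Iff.rfl

instance : DecidablePred (· ∈ Yg) := fun w =>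
  inferInstanceAs (Decidable (V4 w.s ∧ (∀ i, w.e i = w.e 0) ∧ ∑ i, w.x i = 0))

theorem tr_mem_Yg {a : Fin 4 → F3} (h : ∑ i, a i = 0) : tr a ∈ Yg :=
  ⟨(by decide +kernel : V4 1), fun _ => rfl, h⟩
theorem mk0_mem_Yg {s : Equiv.Perm (Fin 4)} (h : V4 s) (c : F2) : mk0 s c ∈ Yg := ⟨h, fun _ => rfl, by simp⟩

/-- the three non-zero vectors of the plane -/
def e3 (j : F3) : F2 × F2 := if j = 0 then (1, 0) else if j = 1 then (0, 1) else (1, 1)
/-- the twelve vectors of weight one -/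
def ev (i : Fin 4) (j : F3) : V := Pi.single i (e3 j)
/-- the 81 vectors of weight four -/
def full (j : Fin 4 → F3) : V := fun i => e3 (j i)
/-- the base vector of weight four -/
def tV : V := full 0
/-- the linear action of `W` on `V` -/
def rW (w : W) (v : V) : V := fun k =>
  (v (w.s⁻¹ k)).1 • e3 (w.j (w.s⁻¹ k) 0) + (v (w.s⁻¹ k)).2 • e3 (w.j (w.s⁻¹ k) 1)
/-- the quadratic form -/
def qf (v : V) : F2 := ∑ i, ((v i).1 * (v i).1 + (v i).1 * (v i).2 + (v i).2 * (v i).2)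
/-- its polar form -/
def bf (v w : V) : F2 := ∑ i, ((v i).1 * (w i).2 + (v i).2 * (w i).1)
/-- the number of non-zero blocks -/
def wt (v : V) : ℕ := (Finset.univ.filter fun i => v i ≠ 0).card

/-- a bilinear form with `B v v = qf v` -/
def bV : LinearMap.BilinForm F2 V := LinearMap.mk₂ F2
  (fun v w => ∑ i, ((v i).1 * (w i).1 + (v i).1 * (w i).2 + (v i).2 * (w i).2))
  (fun a b c => by rw [← Finset.sum_add_distrib]; exact Finset.sum_congr rfl fun i _ => by simp; ring)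
  (fun a b c => by rw [smul_eq_mul, Finset.mul_sum]; exact Finset.sum_congr rfl fun i _ => by simp; ring)
  (fun a b c => by rw [← Finset.sum_add_distrib]; exact Finset.sum_congr rfl fun i _ => by simp; ring)
  (fun a b c => by rw [smul_eq_mul, Finset.mul_sum]; exact Finset.sum_congr rfl fun i _ => by simp; ring)

/-- the quadratic form, bundled -/
def qV : QuadraticForm F2 V := LinearMap.BilinMap.toQuadraticMap bV

theorem qV_apply (v : V) : qV v = qf v := rfl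

theorem polar_qV (v w : V) : QuadraticMap.polar qV v w = bf v w := by
  simp only [QuadraticMap.polar, qV_apply, qf, bf, ← Finset.sum_sub_distrib]
  refine Finset.sum_congr rfl fun i _ => ?_
  simp only [Pi.add_apply, Prod.fst_add, Prod.snd_add]
  generalize (v i).1 = a; generalize (v i).2 = b; generalize (w i).1 = c; generalize (w i).2 = d
  revert a b c d; decide

variable {G : Type*} [Group G]

/-- four commuting quaternion groups with common centre `⟨z⟩` -/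
structure Fr (z : G) (y : Fin 4 → F3 → G) : Prop where
  z1 : z ≠ 1
  zz : z * z = 1
  sq : ∀ i j, y i j * y i j = z
  mul : ∀ i j, y i j * y i (j + 1) = y i (j + 2)
  cm : ∀ i k, i ≠ k → ∀ j l, y i j * y k l = y k l * y i j

/-- the extraspecial group of order `2⁹` -/
def QQ (y : Fin 4 → F3 → G) : Subgroup G := closure {g | ∃ i j, g = y i j}

/-- the standard lift of a vector -/
def sec (y : Fin 4 → F3 → G) (v : V) : G :=
  y 0 0 ^ (v 0).1.val * y 0 1 ^ (v 0).2.val * (y 1 0 ^ (v 1).1.val * y 1 1 ^ (v 1).2.val) *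
    (y 2 0 ^ (v 2).1.val * y 2 1 ^ (v 2).2.val) * (y 3 0 ^ (v 3).1.val * y 3 1 ^ (v 3).2.val)

open Classical in
/-- the coordinates on `QQ y` -/
noncomputable def pi (z : G) (y : Fin 4 → F3 → G) (g : G) : V :=
  if h : ∃ v, g = sec y v ∨ g = sec y v * z then h.choose else 0

/-- the base involution of weight four -/
def tt (y : Fin 4 → F3 → G) : G := y 0 0 * y 1 0 * y 2 0 * y 3 0

/-- `m` acts on the frame as `w` -/
def Act (z : G) (y : Fin 4 → F3 → G) (m : G) (w : W) : Prop :=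
  ∀ i j, m * y i j * m⁻¹ = y (w.s i) (w.j i j) ∨ m * y i j * m⁻¹ = y (w.s i) (w.j i j) * z

/-- the centralizer of `z` acts on the frame through `P`, with constant signs on the kernel of the action on the
blocks, and the image contains `Yg` -/
structure Cz (z : G) (y : Fin 4 → F3 → G) (P : G → W) : Prop where
  fr : Fr z y
  cent : ∀ g, (∀ q ∈ QQ y, q * g = g * q) → g = 1 ∨ g = z
  act : ∀ m, m * z = z * m → Act z y m (P m)
  sgn : ∀ m, m * z = z * m → (P m).s = 1 → ∀ i, (P m).e i = (P m).e 0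
  ysub : ∀ w ∈ Yg, ∃ m, m * z = z * m ∧ P m = w

/-- only even permutations of the blocks -/
structure Ce (z : G) (y : Fin 4 → F3 → G) (P : G → W) : Prop extends Cz z y P where
  even : ∀ m, m * z = z * m → Equiv.Perm.sign (P m).s = 1

/-- all translations occur -/
structure CF (z : G) (y : Fin 4 → F3 → G) (P : G → W) : Prop extends Ce z y P where
  full : ∀ a, ∃ m, m * z = z * m ∧ P m = tr a

/-- root elements in the block `i` -/
def Rt (z : G) (P : G → W) (i : Fin 4) (r : G) : Prop :=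
  r * z = z * r ∧ r ^ 3 = 1 ∧ (P r = tr (Pi.single i 1) ∨ P r = tr (Pi.single i (-1)))

/-- centralizers of root elements do not centralize `z` -/
structure CB (z : G) (y : Fin 4 → F3 → G) (P : G → W) : Prop extends CF z y P where
  nc : ∀ i r, Rt z P i r → ∃ g, g * r = r * g ∧ g * z ≠ z * g

/-- `r` is a root element at the conjugate `u` of `z` -/
def IsRt (z : G) (P : G → W) (u r : G) : Prop := ∃ g i, g * z * g⁻¹ = u ∧ Rt z P i (g⁻¹ * r * g)

/-- `v` is an involution inverting all four blocks at `z` -/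
def Op0 (z : G) (P : G → W) (v : G) : Prop :=
  v * v = 1 ∧ v * z = z * v ∧ (P v).s = 1 ∧ (P v).e 0 = 1

/-- `u`, `v` are conjugates of `z` and `v` inverts all four blocks at `u` -/
def Opp (z : G) (P : G → W) (u v : G) : Prop :=
  IsConj z v ∧ ∃ g, g * z * g⁻¹ = u ∧ Op0 z P (g⁻¹ * v * g)

/-- standard generators `a i`, `n i * (a i)⁻¹ * (n i)⁻¹` of four commuting `SL₂(3)` at `u`, inverted by `v` -/
structure Blk (u v : G) (a n : Fin 4 → G) : Prop where
  inv : ∀ i, v * a i * v⁻¹ = (a i)⁻¹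
  nn : ∀ i, n i * n i = u
  an : ∀ i, (a i * n i) ^ 3 = 1
  vn : ∀ i, v * n i * v⁻¹ = (n i)⁻¹
  aa : ∀ i k, a i * a k = a k * a i
  na : ∀ i k, i ≠ k → a i * n k = n k * a i
  nc : ∀ i k, n i * n k = n k * n i

/-- `r` is one of the four elements of order three in the two root subgroups given by `a`, `n` -/
def InB (a n r : G) : Prop := r = a ∨ r = a⁻¹ ∨ r = n * a * n⁻¹ ∨ r = n * a⁻¹ * n⁻¹

/-- a standard pair at `u`, inverted by `v` -/
structure SP (R : G → G → Prop) (u v a n : G) : Prop where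
  rt : R u a
  inv : v * a * v⁻¹ = a⁻¹
  nn : n * n = u
  an : (a * n) ^ 3 = 1
  vn : v * n * v⁻¹ = n⁻¹

/-- abstract root data: `R u r`: `r` is a root element at `u`; `Op u v`: opposite involutions -/
structure Sys (R Op : G → G → Prop) : Prop where
  Rconj : ∀ {u r}, R u r → ∀ g, R (g * u * g⁻¹) (g * r * g⁻¹)
  Rinv : ∀ {u r}, R u r → R u r⁻¹
  R3 : ∀ {u r}, R u r → r ^ 3 = 1
  R1 : ∀ {u r}, R u r → r ≠ 1
  Rc : ∀ {u r}, R u r → r * u = u * r
  Oconj : ∀ {u v}, Op u v → ∀ g, Op (g * u * g⁻¹) (g * v * g⁻¹)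
  Osymm : ∀ {u v}, Op u v → Op v u
  Omul : ∀ {u v}, Op u v → Op u (u * v)
  Ou : ∀ {u v}, Op u v → u * u = 1 ∧ u ≠ 1 ∧ u * v = v * u
  blk : ∀ {u v}, Op u v → ∃ a n, Blk u v a n ∧ (∀ i, R u (a i)) ∧
    ∀ r, R u r → v * r * v⁻¹ = r⁻¹ → ∃ i, InB (a i) (n i) r
  s1 : ∀ {u v r p q}, Op u v → R u r → v * r * v⁻¹ = r⁻¹ → p ^ 3 = 1 → u * p * u⁻¹ = p⁻¹ → p * r = r * p →
    q ^ 3 = 1 → u * q * u⁻¹ = q⁻¹ → q * r = r * q → p * q * p⁻¹ * q⁻¹ ∈ zpowers r
  s2 : ∀ {u v a n r}, Op u v → SP R u v a n → R v r → u * r * u⁻¹ = r⁻¹ →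
    r * a = a * r ∨ r * (n * a * n⁻¹) = n * a * n⁻¹ * r
  s3 : ∀ {u v r p}, Op u v → R u r → v * r * v⁻¹ = r⁻¹ → R v p → u * p * u⁻¹ = p⁻¹ → p * r = r * p →
    (∀ g, R (u * v) g → u * g * u⁻¹ = g⁻¹ → g * r = r * g → g * p = p * g) →
    ∀ p' g, R v p' → u * p' * u⁻¹ = p'⁻¹ → p' * r = r * p' → R (u * v) g → u * g * u⁻¹ = g⁻¹ →
      g * r = r * g → g * p' = p' * g

/-- the subgroup generated by the 24 root subgroups normalized by `⟨u, v⟩` -/
def MM (R : G → G → Prop) (u v : G) : Subgroup G :=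
  closure {r | (R u r ∧ v * r * v⁻¹ = r⁻¹) ∨ (R v r ∧ u * r * u⁻¹ = r⁻¹) ∨ (R (u * v) r ∧ u * r * u⁻¹ = r⁻¹)}

/-- what is used about `K ≅ Ω₈⁺(2)`, part checked in the model -/
structure K0 (K : Subgroup G) (z : G) (y : Fin 4 → F3 → G) (n : G) : Prop where
  fr : Fr z y
  yK : ∀ i j, y i j ∈ K
  lift : ∀ w ∈ Yg, ∃ m ∈ K, Act z y m w
  cen : ∀ m ∈ K, m * z = z * m → ∃ w ∈ Yg, Act z y m w
  cQ : ∀ m ∈ K, (∀ q ∈ QQ y, q * m = m * q) → m = 1 ∨ m = z
  nK : n ∈ K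
  n2 : n * n = 1
  nz : n * z * n⁻¹ = tt y
  nE : ∀ s c, V4 s → ∃ a ∈ K, a * a = 1 ∧ Act z y a (mk0 s c) ∧ n * a * n⁻¹ ∈ QQ y ∧
    (c = 1 → ∃ j, pi z y (n * a * n⁻¹) = full j ∧ (s ≠ 1 → ∑ i, j i = 0 ∧ wt (full j + tV) = 2))
  gen : ∀ M : Subgroup G, (∀ m ∈ K, m * z = z * m → m ∈ M) → n ∈ M → K ≤ M
  u9 : ∃ u ∈ K, ∃ g ∈ K, u ^ 3 = 1 ∧ Act z y u (tr ![1, -1, 0, 0]) ∧ g * u = u * g ∧ g ^ 9 = 1 ∧ g ^ 3 ≠ 1

/-- what is used about `K ≅ Ω₈⁺(2)` -/
structure KS (K : Subgroup G) (z : G) (y : Fin 4 → F3 → G) (n : G) : Prop extends K0 K z y n where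
  aut : ∀ c ∈ normalizer (K : Set G), (∀ q ∈ QQ y, q * c = c * q) →
    (∀ k ∈ K, c * k = k * c) ∨ ∀ k ∈ K, c * z * k = k * (c * z)
  simple : IsSimpleGroup K
  card : Nat.card K = 174182400

/-- the standing hypothesis -/
structure Hyp (K : Subgroup G) (z : G) (y : Fin 4 → F3 → G) (n : G) : Prop extends KS K z y n where
  pre : Pre (QQ y) z
  odd : ¬ 2 ∣ (normalizer (K : Set G)).index

/-- the group `Ω₈⁺(2)` -/
abbrev Om : Type := Cfsg.Omega (ZMod 2) (Cfsg.quadFormPlus 4 (ZMod 2))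
/-- the group `PΩ₈⁺(3)` -/
abbrev PO3 : Type := Cfsg.POmega (ZMod 3) (Cfsg.quadFormPlus 4 (ZMod 3))

end CfsgLib.O83
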