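import Cfsg.Agent.Lib.O83.Bw
import Cfsg.Agent.Lib.ExtraTwo.Coord

/-! Package FR1: the extraspecial group of a frame and its coordinates.  See `plans/O83.md`. -/

set_option autoImplicit false
set_option linter.unusedSectionVars false

namespace CfsgLib.O83

open Subgroup CfsgLib.ExtraTwo CfsgLib.LargeExtra

variable {G : Type*} [Group G] {K : Subgroup G} {z n : G} {y : Fin 4 → F3 → G} {P : G → W}

theorem y_mem (y : Fin 4 → F3 → G) (i : Fin 4) (j : F3) : y i j ∈ QQ y := 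
  subset_closure ⟨i, j, rfl⟩

/-- the power of `z` with exponent in `F2` -/
def zpw (z : G) (a : F2) : G := z ^ a.val

/-- the factor of `sec` in one block -/
def secB (y : Fin 4 → F3 → G) (i : Fin 4) (p : F2 × F2) : G := y i 0 ^ p.1.val * y i 1 ^ p.2.val

theorem zpw_zero (z : G) : zpw z 0 = 1 := pow_zero z

theorem zpw_one (z : G) : zpw z 1 = z := pow_one z

theorem zpw_cases (z : G) (a : F2) : zpw z a = 1 ∨ zpw z a = z := by
  rcases f2_cases a with rfl | rfl
  exacts [Or.inl (zpw_zero z), Or.inr (zpw_one z)]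

theorem secB_mem (y : Fin 4 → F3 → G) (i : Fin 4) (p : F2 × F2) : secB y i p ∈ QQ y :=
  mul_mem (pow_mem (y_mem y _ _) _) (pow_mem (y_mem y _ _) _)

theorem secB_zero (y : Fin 4 → F3 → G) (i : Fin 4) : secB y i 0 = 1 := by
  simp [secB]

theorem sec_eq (y : Fin 4 → F3 → G) (v : V) :
    sec y v = secB y 0 (v 0) * secB y 1 (v 1) * secB y 2 (v 2) * secB y 3 (v 3) := rfl

theorem sec_zero (y : Fin 4 → F3 → G) : sec y 0 = 1 := by
  simp [sec]

theorem sec_mem (y : Fin 4 → F3 → G) (v : V) : sec y v ∈ QQ y := 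
  mul_mem (mul_mem (mul_mem (secB_mem y _ _) (secB_mem y _ _)) (secB_mem y _ _)) (secB_mem y _ _)

theorem tt_mem (y : Fin 4 → F3 → G) : tt y ∈ QQ y := 
  mul_mem (mul_mem (mul_mem (y_mem y _ _) (y_mem y _ _)) (y_mem y _ _)) (y_mem y _ _)

theorem QQ_le {M : Subgroup G} (h : ∀ i j, y i j ∈ M) : QQ y ≤ M := 
  (closure_le _).2 fun _ ⟨i, j, e⟩ => e ▸ h i j

theorem QQ_map {H : Type*} [Group H] (f : G →* H) (y : Fin 4 → F3 → G) :
    QQ (fun i j => f (y i j)) = (QQ y).map f := by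
  rw [QQ, QQ, MonoidHom.map_closure]
  congr 1
  ext g
  constructor
  · rintro ⟨i, j, rfl⟩
    exact ⟨_, ⟨i, j, rfl⟩, rfl⟩
  · rintro ⟨_, ⟨i, j, rfl⟩, rfl⟩
    exact ⟨i, j, rfl⟩

theorem tt_map {H : Type*} [Group H] (f : G →* H) (y : Fin 4 → F3 → G) :
    tt (fun i j => f (y i j)) = f (tt y) := by
  simp only [tt, map_mul]

namespace Fr

variable (h : Fr z y) {x x' : G}
include h

theorem comm_z (i : Fin 4) (j : F3) : y i j * z = z * y i j := by
  rw [← h.sq i j, mul_assoc]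

theorem y_inv (i : Fin 4) (j : F3) : (y i j)⁻¹ = y i j * z := by
  rw [inv_eq_iff_mul_eq_one, ← mul_assoc, h.sq, h.zz]

theorem y_anti (i : Fin 4) {j l : F3} (hjl : j ≠ l) : y i j * y i l = y i l * y i j * z := by
  have k : ∀ j, y i (j + 1) * y i j = y i j * y i (j + 1) * z := fun j => by
    have h1 := h.mul i (j + 1)
    rw [show j + 1 + 1 = j + 2 by ring, show j + 1 + 2 = j by
      rw [add_assoc, show (1 + 2 : F3) = 0 from rfl, add_zero]] at h1
    rw [h.mul, ← h1, ← mul_assoc, h.sq, h.comm_z]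
  have k2 : ∀ j l : F3, j ≠ l → j = l + 1 ∨ l = j + 1 := by decide
  rcases k2 j l hjl with rfl | rfl
  · exact k l
  · rw [k j, mul_assoc, h.zz, mul_one]

theorem z_mem : z ∈ QQ y := 
  h.sq 0 0 ▸ mul_mem (y_mem y 0 0) (y_mem y 0 0)

theorem Q_ind {p : G → Prop} (hy : ∀ i j, p (y i j)) (hmul : ∀ a ∈ QQ y, ∀ b ∈ QQ y, p a → p b → p (a * b)) :
    ∀ x ∈ QQ y, p x := by
  have hz : p z := h.sq 0 0 ▸ hmul _ (y_mem y 0 0) _ (y_mem y 0 0) (hy 0 0) (hy 0 0)
  intro x hx
  induction hx using closure_induction'' with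
  | one => exact h.zz ▸ hmul _ h.z_mem _ h.z_mem hz hz
  | mem x hx =>
    obtain ⟨i, j, rfl⟩ := hx
    exact hy i j
  | inv_mem x hx =>
    obtain ⟨i, j, rfl⟩ := hx
    exact h.y_inv i j ▸ hmul _ (y_mem y i j) _ h.z_mem (hy i j) hz
  | mul a b ha hb pa pb => exact hmul a ha b hb pa pb

theorem Q_comm_z (hx : x ∈ QQ y) : x * z = z * x :=
  h.Q_ind (p := fun x => x * z = z * x) h.comm_z
    (fun a _ b _ pa pb => by rw [mul_assoc, pb, ← mul_assoc, pa, mul_assoc]) x hx

theorem zpw_comm (a : F2) (hx : x ∈ QQ y) : Commute (zpw z a) x :=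
  Commute.pow_left (h.Q_comm_z hx).symm _

theorem zpw_add (a b : F2) : zpw z (a + b) = zpw z a * zpw z b := by
  rcases f2_cases a with rfl | rfl <;> rcases f2_cases b with rfl | rfl <;>
    simp [zpw_zero, zpw_one, h.zz, CharTwo.add_self_eq_zero]

theorem zpw_inj {a b : F2} (e : zpw z a = zpw z b) : a = b := by
  rcases f2_cases a with rfl | rfl <;> rcases f2_cases b with rfl | rfl <;>
    simp_all [zpw_zero, zpw_one, h.z1, h.z1.symm]

theorem secB_mul (i : Fin 4) (p q : F2 × F2) :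
    secB y i p * secB y i q = secB y i (p + q) * zpw z (q.1 * p.1 + q.1 * p.2 + q.2 * p.2) := by
  obtain ⟨a, b⟩ := p
  obtain ⟨c, d⟩ := q
  have e1 : ∀ j x, y i j * (y i j * x) = z * x := fun j x => by rw [← mul_assoc, h.sq]
  have e2 : ∀ x, y i 1 * (y i 0 * x) = z * (y i 0 * (y i 1 * x)) := fun x => by
    rw [← mul_assoc, h.y_anti i (show (1 : F3) ≠ 0 by decide),
      h.Q_comm_z (mul_mem (y_mem y _ _) (y_mem y _ _)), mul_assoc, mul_assoc]
  have e3 : ∀ j x, y i j * (z * x) = z * (y i j * x) := fun j x => by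
    rw [← mul_assoc, h.comm_z, mul_assoc]
  have e4 : ∀ x, z * (z * x) = x := fun x => by rw [← mul_assoc, h.zz, one_mul]
  have e5 : (1 : F2).val = 1 := rfl
  refine mul_right_cancel (b := y 0 2) ?_
  generalize y 0 2 = x
  rcases f2_cases a with rfl | rfl <;> rcases f2_cases b with rfl | rfl <;>
    rcases f2_cases c with rfl | rfl <;> rcases f2_cases d with rfl | rfl <;>
    simp [secB, zpw, mul_assoc, CharTwo.add_self_eq_zero, e1, e2, e3, e4, e5, -mul_left_inj]

theorem secB_comm {i k : Fin 4} (hik : i ≠ k) (p q : F2 × F2) : Commute (secB y i p) (secB y k q) := by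
  have c : ∀ j l a b, Commute (y i j ^ a) (y k l ^ b) := fun j l a b =>
    Commute.pow_pow (h.cm i k hik j l) a b
  exact ((c _ _ _ _).mul_right (c _ _ _ _)).mul_left ((c _ _ _ _).mul_right (c _ _ _ _))

theorem sec_mul (u v : V) : sec y u * sec y v = sec y (u + v) * zpw z (bV v u) := by
  have c := @secB_comm _ _ _ _ h
  have m := secB_mem y
  have d := fun a i p => h.zpw_comm a (m i p)
  rw [sec_eq, sec_eq, sec_eq,
    (((c (by decide) _ _).mul_right (c (by decide) _ _)).mul_right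
      (c (by decide) _ _)).mul_mul_mul_comm,
    ((c (by decide) _ _).mul_right (c (by decide) _ _)).mul_mul_mul_comm,
    (c (by decide) _ _).mul_mul_mul_comm, h.secB_mul, h.secB_mul, h.secB_mul, h.secB_mul,
    (d _ _ _).mul_mul_mul_comm, ← h.zpw_add, (d _ _ _).mul_mul_mul_comm, ← h.zpw_add,
    (d _ _ _).mul_mul_mul_comm, ← h.zpw_add]
  congr 2
  exact (Fin.sum_univ_four fun i => (v i).1 * (u i).1 + (v i).1 * (u i).2 + (v i).2 * (u i).2).symm

theorem sec_zpw_mul (u v : V) (a b : F2) :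
    sec y u * zpw z a * (sec y v * zpw z b) = sec y (u + v) * zpw z (bV v u + (a + b)) := by
  rw [(h.zpw_comm a (sec_mem y v)).mul_mul_mul_comm, h.sec_mul, mul_assoc, h.zpw_add, h.zpw_add]

theorem sec_zpw_comm (u v : V) (a b : F2) : sec y u * zpw z a * (sec y v * zpw z b) =
    sec y v * zpw z b * (sec y u * zpw z a) * zpw z (bf u v) := by
  rw [h.sec_zpw_mul, h.sec_zpw_mul, mul_assoc, ← h.zpw_add, add_comm v u]
  congr 2
  have : bV v u = bV u v + bf u v := by
    simp only [bV, LinearMap.mk₂_apply, bf, ← Finset.sum_add_distrib]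
    refine Finset.sum_congr rfl fun i _ => ?_
    generalize (v i).1 = a; generalize (v i).2 = b; generalize (u i).1 = c; generalize (u i).2 = d
    revert a b c d; decide
  rw [this]
  ring

theorem sec_ev (i : Fin 4) (j : F3) : sec y (ev i j) = y i j := by
  have e5 : (1 : F2).val = 1 := rfl
  have k : secB y i (e3 j) = y i j := by
    rcases f3_cases j with rfl | rfl | rfl
    · simp [secB, e3, e5]
    · simp [secB, show e3 1 = (0, 1) from rfl, e5]
    · simpa [secB, show e3 2 = (1, 1) from rfl, e5] using h.mul i 0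
  rw [sec_eq, ← k]
  fin_cases i <;> simp [ev, secB_zero]

theorem exists_sec (hx : x ∈ QQ y) : ∃ v a, x = sec y v * zpw z a := by
  refine h.Q_ind (p := fun x => ∃ v a, x = sec y v * zpw z a)
    (fun i j => ⟨ev i j, 0, by rw [zpw_zero, mul_one, h.sec_ev]⟩) ?_ x hx
  rintro _ - _ - ⟨u, a, rfl⟩ ⟨v, b, rfl⟩
  exact ⟨_, _, h.sec_zpw_mul u v a b⟩

theorem sec_inj {u v : V} {a b : F2} (e : sec y u * zpw z a = sec y v * zpw z b) : u = v := by
  refine add_eq_zero_zmod2.1 (bf_nondeg fun i j => ?_)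
  have h1 := h.sec_zpw_comm u (ev i j) a 0
  rw [e, h.sec_zpw_comm v (ev i j) b 0, mul_right_inj] at h1
  rw [bf_add_left, h.zpw_inj h1, CharTwo.add_self_eq_zero]

theorem pi_sec_zpw (v : V) (a : F2) : pi z y (sec y v * zpw z a) = v := by
  have h1 : ∃ u, sec y v * zpw z a = sec y u ∨ sec y v * zpw z a = sec y u * z :=
    ⟨v, (zpw_cases z a).imp (fun e => by rw [e, mul_one]) fun e => by rw [e]⟩
  rw [pi, dif_pos h1]
  rcases h1.choose_spec with e | e
  · exact (h.sec_inj (a := a) (b := 0) (e.trans (by rw [zpw_zero, mul_one]))).symm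
  · exact (h.sec_inj (a := a) (b := 1) (e.trans (by rw [zpw_one]))).symm

theorem es : ES (QQ y) z := by
  refine ⟨h.z1, h.zz, h.z_mem, fun x hx => h.Q_comm_z hx, fun x hx hc => ?_, fun x hx x' hx' => ?_,
    y 0 0, y_mem y 0 0, y 0 1, y_mem y 0 1, fun e => h.z1 ?_⟩
  · obtain ⟨v, a, rfl⟩ := h.exists_sec hx
    have h0 : v = 0 := bf_nondeg fun i j => h.zpw_inj <| by
      have h1 := h.sec_zpw_comm v (ev i j) a 0
      rw [zpw_zero, mul_one, h.sec_ev, ← hc _ (y_mem y i j), left_eq_mul] at h1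
      rw [h1, zpw_zero]
    rw [h0, sec_zero, one_mul]
    exact zpw_cases z a
  · obtain ⟨u, a, rfl⟩ := h.exists_sec hx
    obtain ⟨v, b, rfl⟩ := h.exists_sec hx'
    rw [← h.Q_comm_z (mul_mem hx' hx), h.sec_zpw_comm u v a b]
    rcases zpw_cases z (bf u v) with e | e <;> simp [e]
  · have := h.y_anti 0 (show (0 : F3) ≠ 1 by decide)
    rwa [e, left_eq_mul] at this

theorem pi_sec (v : V) : pi z y (sec y v) = v := by
  simpa [zpw_zero] using h.pi_sec_zpw v 0

theorem coord : Coord (QQ y) z qV (pi z y) := by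
  refine ⟨h.es, fun x hx x' hx' => ?_, fun v => ⟨_, sec_mem y v, h.pi_sec v⟩, fun x hx => ?_,
    fun x hx => ?_⟩
  · obtain ⟨u, a, rfl⟩ := h.exists_sec hx
    obtain ⟨v, b, rfl⟩ := h.exists_sec hx'
    rw [h.sec_zpw_mul, h.pi_sec_zpw, h.pi_sec_zpw, h.pi_sec_zpw]
  · refine ⟨fun e => ?_, fun e => ?_⟩
    · obtain ⟨u, a, rfl⟩ := h.exists_sec hx
      rw [h.pi_sec_zpw] at e
      rw [e, sec_zero, one_mul]
      exact zpw_cases z a
    · rcases e with rfl | rfl
      · simpa [zpw_zero, sec_zero] using h.pi_sec_zpw 0 0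
      · simpa [zpw_one, sec_zero] using h.pi_sec_zpw 0 1
  · obtain ⟨u, a, rfl⟩ := h.exists_sec hx
    rw [h.sec_zpw_mul, h.pi_sec_zpw, V_add_self, sec_zero, one_mul, CharTwo.add_self_eq_zero,
      add_zero]
    exact ⟨fun e => by rw [show bV u u = 0 from e, zpw_zero],
      fun e => h.zpw_inj (e.trans (zpw_zero z).symm)⟩

theorem pi_y (i : Fin 4) (j : F3) : pi z y (y i j) = ev i j := by
  rw [← h.sec_ev, h.pi_sec]

theorem pi_mul (hx : x ∈ QQ y) (hx' : x' ∈ QQ y) : pi z y (x * x') = pi z y x + pi z y x' := 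
  h.coord.map_mul x hx x' hx'

theorem pi_one : pi z y 1 = 0 := 
  h.coord.map_one

theorem pi_z : pi z y z = 0 := 
  h.coord.map_z

theorem pi_inv (hx : x ∈ QQ y) : pi z y x⁻¹ = pi z y x := 
  h.coord.map_inv hx

theorem pi_mul_z (hx : x ∈ QQ y) : pi z y (x * z) = pi z y x := 
  h.coord.map_mul_z hx

theorem pi_eq_zero (hx : x ∈ QQ y) : pi z y x = 0 ↔ x = 1 ∨ x = z := 
  h.coord.ker x hx

theorem pi_eq_iff (hx : x ∈ QQ y) (hx' : x' ∈ QQ y) : pi z y x = pi z y x' ↔ x = x' ∨ x = x' * z := 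
  eq_comm.trans (h.coord.eq_iff hx' hx)

theorem pi_surj (v : V) : ∃ x ∈ QQ y, pi z y x = v := 
  h.coord.surj v

theorem comm_iff (hx : x ∈ QQ y) (hx' : x' ∈ QQ y) : x * x' = x' * x ↔ bf (pi z y x) (pi z y x') = 0 := by
  rw [← polar_qV, h.coord.polar_iff hx hx']

theorem sq_iff (hx : x ∈ QQ y) : x * x = 1 ↔ qf (pi z y x) = 0 := 
  (h.coord.sq x hx).symm

theorem card : Nat.card (QQ y) = 512 := by
  rw [h.coord.card_eq, Nat.card_eq_fintype_card]
  simp

theorem pi_tt : pi z y (tt y) = tV := by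
  have a := y_mem y
  rw [tt, h.pi_mul (mul_mem (mul_mem (a _ _) (a _ _)) (a _ _)) (a _ _),
    h.pi_mul (mul_mem (a _ _) (a _ _)) (a _ _), h.pi_mul (a _ _) (a _ _), tV, full_eq_sum]
  simp only [h.pi_y, Pi.zero_apply]

theorem tt_sq : tt y * tt y = 1 := by
  rw [h.sq_iff (tt_mem y), h.pi_tt, tV, qf_full]

theorem tt_ne_one : tt y ≠ 1 := fun e => by
  have := h.pi_tt
  rw [e, h.pi_one] at this
  exact full_apply_ne 0 0 (congrFun this 0).symm

theorem tt_ne_z : tt y ≠ z := fun e => by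
  have := h.pi_tt
  rw [e, h.pi_z] at this
  exact full_apply_ne 0 0 (congrFun this 0).symm

theorem map {H : Type*} [Group H] {f : G →* H} (hf : Function.Injective f) :
    Fr (f z) fun i j => f (y i j) := 
  ⟨fun e => h.z1 (hf (e.trans f.map_one.symm)), by rw [← map_mul, h.zz, map_one],
    fun i j => by rw [← map_mul, h.sq], fun i j => by rw [← map_mul, h.mul],
    fun i k hik j l => by rw [← map_mul, h.cm i k hik, map_mul]⟩

theorem pi_map {H : Type*} [Group H] {f : G →* H} (hf : Function.Injective f) (hx : x ∈ QQ y) :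
    pi (f z) (fun i j => f (y i j)) (f x) = pi z y x := by
  obtain ⟨v, a, rfl⟩ := h.exists_sec hx
  rw [h.pi_sec_zpw]
  refine Eq.trans (congrArg _ ?_) ((h.map hf).pi_sec_zpw v a)
  simp only [sec, zpw, map_mul, map_pow]

end Fr

theorem Fr.of_map {H : Type*} [Group H] {f : G →* H} (hf : Function.Injective f)
    (h : Fr (f z) fun i j => f (y i j)) : Fr z y := 
  ⟨fun e => h.z1 (by rw [e, map_one]), hf (by rw [map_mul, h.zz, map_one]),
    fun i j => hf (by rw [map_mul, h.sq]), fun i j => hf (by rw [map_mul, h.mul]),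
    fun i k hik j l => hf (by rw [map_mul, h.cm i k hik, map_mul])⟩

end CfsgLib.O83
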