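import Cfsg.Agent.Lib.O83.Fr1

/-! Package FR2: elements acting on the frame.  See `plans/O83.md`. -/

set_option autoImplicit false
set_option linter.unusedSectionVars false

namespace CfsgLib.O83

open Subgroup CfsgLib.ExtraTwo CfsgLib.LargeExtra

variable {G : Type*} [Group G] {K : Subgroup G} {z n : G} {y : Fin 4 → F3 → G} {P : G → W}

theorem Act.map {H : Type*} [Group H] (f : G →* H) {m : G} {w : W} (h : Act z y m w) :
    Act (f z) (fun i j => f (y i j)) (f m) w := fun i j =>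
  (h i j).imp (fun e => by simpa only [map_mul, map_inv] using congrArg f e)
    fun e => by simpa only [map_mul, map_inv] using congrArg f e

theorem Act.of_map {H : Type*} [Group H] {f : G →* H} (hf : Function.Injective f) {m : G} {w : W}
    (h : Act (f z) (fun i j => f (y i j)) (f m) w) : Act z y m w := fun i j =>
  (h i j).imp (fun e => hf (by simpa only [map_mul, map_inv] using e))
    fun e => hf (by simpa only [map_mul, map_inv] using e)

namespace Fr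

variable (h : Fr z y) {m m' x : G} {w w' : W}
include h

theorem act_comm_z (hm : Act z y m w) : m * z = z * m := by
  have h1 : m * z * m⁻¹ = m * y 0 0 * m⁻¹ * (m * y 0 0 * m⁻¹) := by
    rw [← h.sq 0 0]
    group
  refine comm_of_conj_eq (h1.trans ?_)
  rcases hm 0 0 with e | e <;> rw [e]
  · exact h.sq _ _
  · rw [← h.y_inv, ← mul_inv_rev, h.sq, h.es.inv_eq]

theorem act_aux (hm : Act z y m w) :
    ∀ x ∈ QQ y, m * x * m⁻¹ ∈ QQ y ∧ pi z y (m * x * m⁻¹) = rW w (pi z y x) := by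
  refine h.Q_ind (fun i j => ?_) fun a ha b hb pa pb => ?_
  · rw [h.pi_y, rW_ev]
    rcases hm i j with e | e <;> rw [e]
    · exact ⟨y_mem y _ _, h.pi_y _ _⟩
    · exact ⟨mul_mem (y_mem y _ _) h.z_mem, by rw [h.pi_mul_z (y_mem y _ _), h.pi_y]⟩
  · rw [show m * (a * b) * m⁻¹ = m * a * m⁻¹ * (m * b * m⁻¹) by group]
    exact ⟨mul_mem pa.1 pb.1, by rw [h.pi_mul pa.1 pb.1, pa.2, pb.2, h.pi_mul ha hb, rW_add]⟩

theorem act_of_pi' (hm : ∀ i j, m * y i j * m⁻¹ ∈ QQ y)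
    (hp : ∀ i j, pi z y (m * y i j * m⁻¹) = ev (w.s i) (w.j i j)) : Act z y m w := fun i j =>
  (h.pi_eq_iff (hm i j) (y_mem y _ _)).1 ((hp i j).trans (h.pi_y _ _).symm)

theorem act_one : Act z y 1 1 := fun i j =>
  (h.pi_eq_iff (by simpa using y_mem y i j) (y_mem y _ _)).1 (by simp [W.j_one])

theorem act_conj_mem (hm : Act z y m w) (hx : x ∈ QQ y) : m * x * m⁻¹ ∈ QQ y := 
  (h.act_aux hm x hx).1

theorem act_pi_conj (hm : Act z y m w) (hx : x ∈ QQ y) : pi z y (m * x * m⁻¹) = rW w (pi z y x) := 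
  (h.act_aux hm x hx).2

theorem act_unique (hm : Act z y m w) (hm' : Act z y m w') : w = w' := 
  eq_of_rW fun i j => by
    rw [← h.pi_y, ← h.act_pi_conj hm (y_mem y i j), ← h.act_pi_conj hm' (y_mem y i j)]

theorem act_mul (hm : Act z y m w) (hm' : Act z y m' w') : Act z y (m * m') (w * w') := by
  have e : ∀ x, m * m' * x * (m * m')⁻¹ = m * (m' * x * m'⁻¹) * m⁻¹ := fun x => by group
  have k := fun i j => h.act_conj_mem hm' (y_mem y i j)
  refine h.act_of_pi' (fun i j => e _ ▸ h.act_conj_mem hm (k i j)) fun i j => ?_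
  rw [e, h.act_pi_conj hm (k i j), h.act_pi_conj hm' (y_mem y i j), ← rW_mul, h.pi_y, rW_ev]

theorem act_inv (hm : Act z y m w) : Act z y m⁻¹ w⁻¹ := by
  intro i j
  have e1 : w.s (w⁻¹.s i) = i := by simp
  have e2 : w.j (w⁻¹.s i) (w⁻¹.j i j) = j := by rw [← W.j_mul, mul_inv_cancel, W.j_one]
  have hz := h.act_comm_z hm
  have := hm (w⁻¹.s i) (w⁻¹.j i j)
  rw [e1, e2] at this
  refine this.imp (fun e => by rw [← e]; group) fun e => ?_
  have e3 : y i j = m * y (w⁻¹.s i) (w⁻¹.j i j) * m⁻¹ * z := by rw [e, h.es.zz']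
  rw [e3, inv_inv, mul_assoc, mul_assoc, ← hz]
  group

theorem act_pow (hm : Act z y m w) (k : ℕ) : Act z y (m ^ k) (w ^ k) := by
  induction k with
  | zero => simpa using h.act_one
  | succ k ih => rw [pow_succ, pow_succ]; exact h.act_mul ih hm

theorem act_of_mem (hx : x ∈ QQ y) : Act z y x 1 := fun i j => by
  rw [W.j_one]
  exact h.es.conj (y_mem y i j) hx

theorem act_of_pi (hm : ∀ i j, m * y i j * m⁻¹ ∈ QQ y)
    (hp : ∀ i j, pi z y (m * y i j * m⁻¹) = ev (w.s i) (w.j i j)) : Act z y m w := 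
  h.act_of_pi' hm hp

theorem exists_inner (hm : Act z y m 1) : ∃ q ∈ QQ y, ∀ x ∈ QQ y, m * x * m⁻¹ = q * x * q⁻¹ := by
  have : Finite (QQ y) := Nat.finite_of_card_ne_zero (by rw [h.card]; norm_num)
  refine h.es.inner (fun x => m * x * m⁻¹) (fun a _ b _ => by group) fun x hx => ?_
  rw [← h.pi_eq_iff (h.act_conj_mem hm hx) hx, h.act_pi_conj hm hx, rW_one]

theorem mem_of_act_one (hm : Act z y m 1)
    (hc : ∀ q ∈ QQ y, (∀ x ∈ QQ y, x * (q⁻¹ * m) = q⁻¹ * m * x) → q⁻¹ * m = 1 ∨ q⁻¹ * m = z) :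
    m ∈ QQ y := by
  obtain ⟨q, hq, e⟩ := h.exists_inner hm
  have h1 := hc q hq fun x hx => (comm_of_conj_eq (by
    calc q⁻¹ * m * x * (q⁻¹ * m)⁻¹ = q⁻¹ * (m * x * m⁻¹) * q := by group
      _ = x := by rw [e x hx]; group)).symm
  have h2 : q⁻¹ * m ∈ QQ y := h1.elim (fun e => e ▸ one_mem _) fun e => e ▸ h.z_mem
  simpa using mul_mem hq h2

theorem act_conj_tt {j : Fin 4 → F3} (hx : x ∈ QQ y) (hj : pi z y x = full j)
    (hm : Act z y m (tr (-j))) : ∃ q ∈ QQ y, q * m * x * (q * m)⁻¹ = tt y := by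
  have h1 : pi z y (m * x * m⁻¹) = pi z y (tt y) := by
    rw [h.act_pi_conj hm hx, hj, rW_tr_full, add_neg_cancel, h.pi_tt, tV]
  rcases (h.pi_eq_iff (h.act_conj_mem hm hx) (tt_mem y)).1 h1 with e | e
  · exact ⟨1, one_mem _, by rw [one_mul, e]⟩
  · obtain ⟨q, hq, e2⟩ := h.es.exists_conj (tt_mem y) h.tt_ne_one h.tt_ne_z
    refine ⟨q⁻¹, inv_mem hq, ?_⟩
    calc q⁻¹ * m * x * (q⁻¹ * m)⁻¹ = q⁻¹ * (m * x * m⁻¹) * q := by group
      _ = tt y := by rw [e, ← e2]; group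

theorem comm_of_odd (hm : Act z y m w) {k : ℕ} (hk : Odd k) (ho : m ^ k = 1) (hx : x ∈ QQ y)
    (hf : rW w (pi z y x) = pi z y x) : m * x = x * m := by
  rcases (h.pi_eq_iff (h.act_conj_mem hm hx) hx).1 ((h.act_pi_conj hm hx).trans hf) with e | e
  · exact comm_of_conj_eq e
  have hz := h.act_comm_z hm
  have e2 : m * m * x = x * (m * m) := comm_of_conj_eq (by
    calc m * m * x * (m * m)⁻¹ = m * (m * x * m⁻¹) * m⁻¹ := by group
      _ = m * (x * z) * m⁻¹ := by rw [e]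
      _ = m * x * m⁻¹ * (m * z * m⁻¹) := by group
      _ = x := by rw [e, conj_eq_of_comm hz, h.es.zz'])
  obtain ⟨l, rfl⟩ := hk
  have e3 : Commute (m ^ (2 * l)) x := by
    rw [pow_mul, pow_two]
    exact Commute.pow_left e2 l
  rw [pow_succ, mul_eq_one_iff_eq_inv] at ho
  rw [ho] at e3
  exact (Commute.inv_left_iff.1 e3).eq

theorem invol_coset (hw : ∀ u, rW w u = u → ∃ v, u = v + rW w v) (hm : Act z y m w) (h2 : m * m = 1)
    (hx : x ∈ QQ y) (h2' : m * x * (m * x) = 1) :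
    ∃ p ∈ QQ y, p * (m * x) * p⁻¹ = m ∨ p * (m * x) * p⁻¹ = m * z := by
  have h1 : m * x * m⁻¹ = x⁻¹ := by
    rw [eq_inv_iff_mul_eq_one, ← h2', ← eq_inv_of_mul_eq_one_left h2]
    group
  obtain ⟨v, hv⟩ := hw (pi z y x) (by rw [← h.act_pi_conj hm hx, h1, h.pi_inv hx])
  obtain ⟨p, hp, rfl⟩ := h.pi_surj v
  have hp' := h.act_conj_mem hm hp
  have hm' : m⁻¹ = m := (eq_inv_of_mul_eq_one_left h2).symm
  have h3 : m * p * m⁻¹ * x * p⁻¹ ∈ QQ y := mul_mem (mul_mem hp' hx) (inv_mem hp)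
  have h4 : pi z y (m * p * m⁻¹ * x * p⁻¹) = 0 := by
    rw [h.pi_mul (mul_mem hp' hx) (inv_mem hp), h.pi_mul hp' hx, h.pi_inv hp, h.act_pi_conj hm hp, hv,
      add_comm (pi z y p), ← add_assoc, V_add_self, zero_add, V_add_self]
  have h5 : p * (m * x) * p⁻¹ = m * (m * p * m⁻¹ * x * p⁻¹) := by
    rw [hm']
    simp only [← mul_assoc, h2, one_mul]
  refine ⟨p, hp, ?_⟩
  rw [h5]
  exact ((h.pi_eq_zero h3).1 h4).imp (fun e => by rw [e, mul_one]) fun e => by rw [e]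

end Fr

namespace Cz

variable (h : Cz z y P) {a b m x : G} {w : W}
include h

theorem pre : Pre (QQ y) z := 
  ⟨h.fr.es, h.cent, fun g hg _ hx => h.fr.act_conj_mem (h.act g hg) hx⟩

theorem eq_of_act (hm : Act z y m w) : P m = w := 
  h.fr.act_unique (h.act m (h.fr.act_comm_z hm)) hm

theorem P_mul (ha : a * z = z * a) (hb : b * z = z * b) : P (a * b) = P a * P b := 
  h.eq_of_act (h.fr.act_mul (h.act a ha) (h.act b hb))

theorem P_one : P 1 = 1 := 
  h.eq_of_act h.fr.act_one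

theorem P_inv (ha : a * z = z * a) : P a⁻¹ = (P a)⁻¹ := 
  h.eq_of_act (h.fr.act_inv (h.act a ha))

theorem P_pow (ha : a * z = z * a) (k : ℕ) : P (a ^ k) = P a ^ k := 
  h.eq_of_act (h.fr.act_pow (h.act a ha) k)

theorem P_conj (ha : a * z = z * a) (hb : b * z = z * b) : P (a * b * a⁻¹) = P a * P b * (P a)⁻¹ := 
  h.eq_of_act (h.fr.act_mul (h.fr.act_mul (h.act a ha) (h.act b hb)) (h.fr.act_inv (h.act a ha)))

theorem P_eq_one (hm : m * z = z * m) : P m = 1 ↔ m ∈ QQ y := by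
  refine ⟨fun e => ?_, fun hx => h.eq_of_act (h.fr.act_of_mem hx)⟩
  exact h.fr.mem_of_act_one (e ▸ h.act m hm) fun q _ => h.cent _

theorem P_Q (hx : x ∈ QQ y) : P x = 1 := 
  h.eq_of_act (h.fr.act_of_mem hx)

theorem mem_of_eq (ha : a * z = z * a) (hb : b * z = z * b) (e : P a = P b) : a⁻¹ * b ∈ QQ y := by
  have k := h.fr.act_mul (h.fr.act_inv (h.act a ha)) (h.act b hb)
  rw [← h.P_eq_one (h.fr.act_comm_z k), h.eq_of_act k, e, inv_mul_cancel]

/-- `P` as a homomorphism -/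
noncomputable def hom : centralizer ({z} : Set G) →* W :=
  MonoidHom.mk' (fun m => P m) fun a b => h.P_mul (mem_cent.1 a.2) (mem_cent.1 b.2)

theorem hom_apply (m : centralizer ({z} : Set G)) : h.hom m = P m := rfl

theorem pi_conj (hm : m * z = z * m) (hx : x ∈ QQ y) : pi z y (m * x * m⁻¹) = rW (P m) (pi z y x) := 
  h.fr.act_pi_conj (h.act m hm) hx

/-- elements of order three over a translation -/
theorem exists_three {c : Fin 4 → F3} (hm : m * z = z * m) (e : P m = tr c) : P (m ^ 4) = tr c ∧ (m ^ 4) ^ 3 = 1 := by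
  have h3 : P (m ^ 3) = 1 := by rw [h.P_pow hm, e, tr_cube]
  refine ⟨by rw [h.P_pow hm, e, pow_succ, tr_cube, one_mul], ?_⟩
  rw [← pow_mul, mul_comm, pow_mul]
  exact h.fr.es.pow_four ((h.P_eq_one (Commute.pow_left hm 3).eq).1 h3)

/-- an element of weight four whose translation occurs is conjugate to `tt y` -/
theorem conj_tt {j : Fin 4 → F3} (hx : x ∈ QQ y) (hj : pi z y x = full j) (hm : m * z = z * m)
    (e : P m = tr (-j)) : ∃ q ∈ QQ y, q * m * x * (q * m)⁻¹ = tt y := 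
  h.fr.act_conj_tt hx hj (e ▸ h.act m hm)

/-- the pair at a conjugate of `z` in `Q` and its image `L` in `W` -/
theorem pair_L [Finite G] {g : G} (hx : g * z * g⁻¹ ∈ QQ y) (hne : g * z * g⁻¹ ≠ z) :
    Pair (QQ y) ((QQ y).map (MulAut.conj g).toMonoidHom) z (g * z * g⁻¹) ∧
    ∃ L : Subgroup W, 8 ≤ Nat.card L ∧ (∀ r ∈ L, r * r = 1) ∧
      (∀ r, r ∈ L ↔ ∃ m ∈ (QQ y).map (MulAut.conj g).toMonoidHom, m * z = z * m ∧ P m = r) ∧
      (∀ r ∈ L, rW r (pi z y (g * z * g⁻¹)) = pi z y (g * z * g⁻¹)) ∧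
      ∀ m, m * z = z * m → rW (P m) (pi z y (g * z * g⁻¹)) = pi z y (g * z * g⁻¹) →
        ∀ r ∈ L, P m * r * (P m)⁻¹ ∈ L := by
  have p := h.pre.pair (by rw [h.fr.card]; norm_num) hx hne
  have hf : ∀ g : centralizer ({z} : Set G), h.hom g = 1 ↔ (g : G) ∈ QQ y := fun g =>
    h.P_eq_one (mem_cent.1 g.2)
  have hL : ∀ r, r ∈ (((QQ y).map (MulAut.conj g).toMonoidHom).subgroupOf
      (centralizer ({z} : Set G))).map h.hom ↔
      ∃ m ∈ (QQ y).map (MulAut.conj g).toMonoidHom, m * z = z * m ∧ P m = r := fun r =>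
    ⟨fun ⟨m, h1, h2⟩ => ⟨m, h1, mem_cent.1 m.2, h2⟩,
      fun ⟨m, h1, h2, h3⟩ => ⟨⟨m, mem_cent.2 h2⟩, h1, h3⟩⟩
  refine ⟨p, _, ?_, fun r hr => p.map_mul_self h.hom hf hr, hL, fun r hr => ?_,
    fun m hm e r hr => p.map_conj_mem h.hom hf ⟨m, mem_cent.2 hm⟩ ?_ hr⟩
  · have h1 := p.card_E_mul_card_map h.hom hf
    have h2 := p.card_E_sq_le
    rw [card_map_conj, h.fr.card] at h1
    rw [h.fr.card] at h2
    by_contra h3
    have h4 : Nat.card (QQ y ⊓ (QQ y).map (MulAut.conj g).toMonoidHom : Subgroup G) ≤ 32 := by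
      nlinarith
    nlinarith
  · obtain ⟨m, h1, h2, rfl⟩ := (hL r).1 hr
    rw [← h.pi_conj h2 hx, conj_eq_of_comm (p.h1.es.comm_z m h1)]
  · exact (h.fr.pi_eq_iff (h.pre.norm m hm _ hx) hx).1 ((h.pi_conj hm hx).trans e)

end Cz

namespace K0

variable (hK : K0 K z y n) {m : G}
include hK

theorem Q_le : QQ y ≤ K := 
  QQ_le hK.yK

theorem z_mem : z ∈ K := 
  hK.Q_le hK.fr.z_mem

theorem PY (h : Cz z y P) (hm : m ∈ K) (hz : m * z = z * m) : P m ∈ Yg := by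
  obtain ⟨w, hw, e⟩ := hK.cen m hm hz
  rwa [h.eq_of_act e]

theorem mem_of_PY (h : Cz z y P) (hz : m * z = z * m) (hP : P m ∈ Yg) : m ∈ K := by
  obtain ⟨a, ha, e⟩ := hK.lift _ hP
  have := hK.Q_le (h.mem_of_eq (h.fr.act_comm_z e) hz (h.eq_of_act e))
  simpa using mul_mem ha this

theorem mem_Q_of_act (hm : m ∈ K) (h1 : Act z y m 1) : m ∈ QQ y := 
  hK.fr.mem_of_act_one h1 fun _ hq => hK.cQ _ (mul_mem (inv_mem (hK.Q_le hq)) hm)

/-- elements of `Q` of weight four and sum zero are conjugate to `z` in `K` -/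
theorem conj_full {x : G} {j : Fin 4 → F3} (hx : x ∈ QQ y) (hj : pi z y x = full j) (h0 : ∑ i, j i = 0) :
    ∃ k ∈ K, k * z * k⁻¹ = x := by
  obtain ⟨m, hm, e⟩ := hK.lift _ (tr_mem_Yg (a := -j) (by simp [h0]))
  obtain ⟨q, hq, e2⟩ := hK.fr.act_conj_tt hx hj e
  refine ⟨(q * m)⁻¹ * n, mul_mem (inv_mem (mul_mem (hK.Q_le hq) hm)) hK.nK, ?_⟩
  calc (q * m)⁻¹ * n * z * ((q * m)⁻¹ * n)⁻¹ = (q * m)⁻¹ * (n * z * n⁻¹) * (q * m) := by group
    _ = x := by rw [hK.nz, ← e2]; group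

end K0

theorem K0.cz_top (hK : K0 ⊤ z y n) : ∃ P, Cz z y P := by
  classical
  have k : ∀ m : G, ∃ w ∈ Yg, m * z = z * m → Act z y m w := fun m => by
    by_cases hm : m * z = z * m
    · obtain ⟨w, hw, e⟩ := hK.cen m (mem_top m) hm
      exact ⟨w, hw, fun _ => e⟩
    · exact ⟨1, one_mem _, fun e => (hm e).elim⟩
  choose P h1 h2 using k
  refine ⟨P, hK.fr, fun g => hK.cQ g (mem_top g), h2, fun m _ _ => (h1 m).2.1, fun w hw => ?_⟩
  obtain ⟨m, -, e⟩ := hK.lift w hw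
  exact ⟨m, hK.fr.act_comm_z e, hK.fr.act_unique (h2 m (hK.fr.act_comm_z e)) e⟩

end CfsgLib.O83
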