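import Cfsg.Agent.Lib.O83.Rt1
import Cfsg.Agent.Lib.O83.Wt2
import Cfsg.Agent.Lib.ZStar.Main
import Cfsg.Agent.Lib.G23.Core
import Cfsg.Agent.Lib.LargeExtra.Sub
import Cfsg.Agent.S2912

/-! Package KEY1: the odd core of the centralizer of a root element.  See `plans/O83.md`. -/

set_option autoImplicit false
set_option linter.unusedSectionVars false

namespace CfsgLib.O83

open Subgroup CfsgLib.ExtraTwo CfsgLib.LargeExtra

variable {G : Type*} [Group G] {K : Subgroup G} {z n : G} {y : Fin 4 → F3 → G} {P : G → W}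

variable {i : Fin 4} {r c o p q g : G}

/-- the odd core of the centralizer of `r` -/
def OO (r : G) : Subgroup G :=
  (Cfsg.pPrimeCore 2 (centralizer ({r} : Set G))).map (centralizer ({r} : Set G)).subtype

theorem OO_odd [Finite G] (r : G) : Odd (Nat.card (OO r)) :=
  Nat.coprime_two_right.1 (Core.coprime_card_map_pPrimeCore _)

theorem OO_comm (ho : o ∈ OO r) : o * r = r * o := mem_centralizer_singleton_iff.1 (map_subtype_le _ ho)

theorem OO_norm [Finite G] (hg : g * r * g⁻¹ = r ∨ g * r * g⁻¹ = r⁻¹) : g ∈ normalizer (OO r : Set G) := by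
  refine Core.normalizer_le_normalizer_map_pPrimeCore _ (mem_normalizer_fintype fun x hx => ?_)
  have h1 : Commute (g * x * g⁻¹) (g * r * g⁻¹) := Commute.conj (mem_centralizer_singleton_iff.1 hx) g
  refine mem_centralizer_singleton_iff.2 ?_
  rcases hg with e | e <;> rw [e] at h1
  exacts [h1, Commute.inv_right_iff.1 h1]

theorem OO_conj [Finite G] (hg : g * r * g⁻¹ = r ∨ g * r * g⁻¹ = r⁻¹) (ho : o ∈ OO r) : g * o * g⁻¹ ∈ OO r :=
  (mem_normalizer_iff.1 (OO_norm hg) o).1 ho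

theorem k1_zc {ρ : G} (h : o * r = r * o) (hρ : ρ ∈ zpowers r) : o * ρ = ρ * o := by
  obtain ⟨k, rfl⟩ := hρ
  exact Commute.zpow_right h k

theorem k1_odd (h3 : r ^ 3 = 1) : Odd (Nat.card (zpowers r)) := by
  rw [Nat.card_zpowers]
  exact Odd.of_dvd_nat (by decide) (orderOf_dvd_of_pow_eq_one h3)

theorem self_mem_OO [Finite G] (h3 : r ^ 3 = 1) : r ∈ OO r := by
  refine Core.le_map_pPrimeCore (zpowers_le.2 (mem_centralizer_singleton_iff.2 rfl))
    (fun x hx => mem_normalizer_fintype fun a ha => ?_) (Nat.coprime_two_right.2 (k1_odd h3)) (mem_zpowers r)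
  rwa [k1_zc (mem_centralizer_singleton_iff.1 hx) ha, mul_inv_cancel_right]

theorem k1_single {w : W} {ε : F3} (hε : ε ≠ 0) (h : w * tr (Pi.single i ε) = tr (Pi.single i ε) * w) :
    w.s i = i ∧ w.e i = 0 := by
  have h1 := conj_tr w (Pi.single i ε)
  rw [h, mul_inv_cancel_right] at h1
  have h2 := congrFun (tr_inj h1) (w.s i)
  simp only [Equiv.Perm.coe_inv, Equiv.symm_apply_apply, Pi.single_eq_same] at h2
  have k : ∀ (b : F2) (ε : F3), ε ≠ 0 → sg b * ε ≠ 0 ∧ (ε = sg b * ε → b = 0) := by decide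
  by_cases e : w.s i = i
  · rw [e, Pi.single_eq_same] at h2
    exact ⟨e, (k _ _ hε).2 h2⟩
  · rw [Pi.single_eq_of_ne e] at h2
    exact absurd h2.symm (k _ _ hε).1

theorem k1_perm : ∀ (s : Equiv.Perm (Fin 4)) (i : Fin 4), Equiv.Perm.sign s = 1 → s * s = 1 → s i = i → s = 1 := by
  decide +kernel

theorem k1_perm' : ∀ (s : Equiv.Perm (Fin 4)) (i : Fin 4), (∀ k, k ≠ i → s k = k) → s = 1 := by
  decide +kernel

theorem k1_bf {v : V} (h : v i = 0) (j : F3) : bf v (ev i j) = 0 := by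
  refine Finset.sum_eq_zero fun k _ => ?_
  by_cases e : k = i
  · simp [e, h]
  · simp [ev_ne e]

theorem k1_card {G' : Type*} [Group G'] (f : G →* G') (H : Subgroup G) :
    Nat.card H = Nat.card ↥(f.ker ⊓ H) * Nat.card (H.map f) := by
  rw [← relIndex_ker, ← inf_relIndex_right, ← relIndex_bot_left, ← relIndex_bot_left,
    relIndex_mul_relIndex _ _ _ bot_le inf_le_right]

theorem Rt.exists_eps (hr : Rt z P i r) : ∃ ε : F3, ε ≠ 0 ∧ P r = tr (Pi.single i ε) :=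
  hr.2.2.elim (fun e => ⟨_, by decide, e⟩) fun e => ⟨_, by decide, e⟩

theorem Rt.exists_pow (hr : Rt z P i r) (h : Cz z y P) (a : F3) : ∃ m : ℕ, P (r ^ m) = tr (Pi.single i a) := by
  obtain ⟨ε, h1, h2⟩ := hr.exists_eps
  have k : ∀ ε a : F3, ε ≠ 0 → a = 0 ∨ a = ε ∨ a = ε + ε := by decide
  rcases k ε a h1 with rfl | rfl | rfl
  · exact ⟨0, by rw [pow_zero, h.P_one, Pi.single_zero, tr_zero]⟩
  · exact ⟨1, by rw [pow_one, h2]⟩
  · exact ⟨2, by rw [pow_two, h.P_mul hr.1 hr.1, h2, Pi.single_add, tr_add]⟩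

namespace Rt

variable [Finite G] (hr : Rt z P i r) (h : Ce z y P)
include hr h

theorem isolated (hc : c * r = r * c) (hz : c * z * c⁻¹ * z = z * (c * z * c⁻¹)) : c * z * c⁻¹ = z := by
  obtain ⟨ε, h1, h2⟩ := hr.exists_eps
  have xr : c * z * c⁻¹ * r = r * (c * z * c⁻¹) :=
    (Commute.mul_left (Commute.mul_left hc hr.1.symm) (Commute.inv_left hc))
  have xx : c * z * c⁻¹ * (c * z * c⁻¹) = 1 := by rw [conj_mul, h.fr.zz]; group
  have cj : IsConj z (c * z * c⁻¹) := isConj_iff.2 ⟨c, rfl⟩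
  generalize c * z * c⁻¹ = x at hz xr xx cj
  obtain ⟨a1, a2⟩ := k1_single (w := P x) h1 (by rw [← h2, ← h.P_mul hz hr.1, ← h.P_mul hr.1 hz, xr])
  have a3 : P x * P x = 1 := by rw [← h.P_mul hz hz, xx, h.P_one]
  have a4 := k1_perm _ i (h.even x hz) (congrArg W.s a3) a1
  have a5 := eq_tr a4 fun k => (h.sgn x hz a4 k).trans ((h.sgn x hz a4 i).symm.trans a2)
  rw [a5] at a3
  rw [wt2_tr_sq a3, tr_zero] at a5
  have hx := (h.P_eq_one hz).1 a5
  refine (h.full_of_conj hx cj).resolve_right ?_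
  rintro ⟨j, hj⟩
  exact full_apply_ne j i (hj ▸ (hr.comm_Q h.toCz hx).1 xr.symm)

theorem comm_mem_OO (hc : c * r = r * c) : z * c * z⁻¹ * c⁻¹ ∈ OO r := by
  have hz : z ∈ centralizer ({r} : Set G) := mem_centralizer_singleton_iff.2 hr.1.symm
  have := ZStar.zstar (t := (⟨z, hz⟩ : centralizer ({r} : Set G))) ⟨by
    rw [← orderOf_coe]; exact h.fr.es.orderOf_eq, fun g k => Subtype.ext
      (hr.isolated h (mem_centralizer_singleton_iff.1 g.2) (congrArg Subtype.val k).symm)⟩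
    ⟨c, mem_centralizer_singleton_iff.2 hc⟩
  exact ⟨_, this, rfl⟩

theorem mem_OO (hp : p * r = r * p) (h3 : p ^ 3 = 1) (hz : z * p * z⁻¹ = p⁻¹) : p ∈ OO r := by
  have := hr.comm_mem_OO h hp
  rwa [hz, show p⁻¹ * p⁻¹ = p * (p ^ 3)⁻¹ by group, h3, inv_one, mul_one] at this

theorem comm_Qr (ho : o ∈ OO r) (hz : o * z = z * o) {x : G} (hx : x ∈ QQ y) (hc : r * x = x * r) :
    o * x * o⁻¹ = x := by
  refine mul_inv_eq_one.1 (eq_one_of_mem_odd h.fr.es (OO_odd r)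
    (mul_mem (h.fr.act_conj_mem (h.act o hz) hx) (inv_mem hx)) ?_)
  rw [show o * x * o⁻¹ * x⁻¹ = o * (x * o⁻¹ * x⁻¹) by group]
  exact mul_mem ho (OO_conj (.inl (by rw [← hc, mul_inv_cancel_right])) (inv_mem ho))

theorem cz (ho : o ∈ OO r) (hz : o * z = z * o) : o ∈ zpowers r := by
  have a1 : ∀ k, k ≠ i → ∀ j, (P o).s k = k ∧ (P o).j k j = j := fun k hk j => by
    have := h.pi_conj hz (y_mem y k j)
    rw [hr.comm_Qr h ho hz (y_mem y k j) ((hr.comm_Q h.toCz (y_mem y k j)).2 (by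
      rw [h.fr.pi_y]; exact ev_ne hk.symm j)), h.fr.pi_y, rW_ev] at this
    exact ⟨(ev_inj this).1.symm, (ev_inj this).2.symm⟩
  have k : ∀ (b : F2) (x : F3), sg b * 0 + x = 0 → sg b * 1 + x = 1 → b = 0 ∧ x = 0 := by decide
  have a2 := fun l hl => k _ _ (a1 l hl 0).2 (a1 l hl 1).2
  have a3 := k1_perm' _ i fun l hl => (a1 l hl 0).1
  obtain ⟨l, hl⟩ := exists_ne i
  have a4 := eq_tr a3 fun k => (h.sgn o hz a3 k).trans ((h.sgn o hz a3 l).symm.trans (a2 l hl).1)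
  obtain ⟨m, hm⟩ := hr.exists_pow h.toCz ((P o).x i)
  have a5 : P (r ^ m) = P o := by
    rw [hm, a4]
    congr 1
    funext l
    by_cases e : l = i
    · rw [e, Pi.single_eq_same, tr_x]
    · rw [Pi.single_eq_of_ne e, (a2 l e).2]
  have := eq_one_of_mem_odd h.fr.es (OO_odd r) (h.mem_of_eq (Commute.pow_left hr.1 m) hz a5)
    (mul_mem (inv_mem (pow_mem (self_mem_OO hr.2.1) m)) ho)
  rw [← inv_mul_eq_one.1 this]
  exact pow_mem (mem_zpowers r) m

theorem z_conj (ho : o ∈ OO r) : z * o * z⁻¹ ∈ OO r := OO_conj (.inl (by rw [← hr.1, mul_inv_cancel_right])) ho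

theorem inv_mod (ho : o ∈ OO r) : z * o * z⁻¹ * o ∈ zpowers r := by
  obtain ⟨k, hk, e, he, h1, h2, rfl⟩ := G23.exists_dec (OO_odd r) h.fr.zz
    (OO_norm (.inl (by rw [← hr.1, mul_inv_cancel_right]))) ho
  have h3 := hr.cz h he (mul_inv_eq_iff_eq_mul.1 h2).symm
  rw [← conj_mul, h1, h2, show k⁻¹ * e * (k * e) = k⁻¹ * (e * k) * e by group, ← k1_zc (OO_comm hk) h3,
    inv_mul_cancel_left]
  exact mul_mem h3 h3

theorem comm_mod (hp : p ∈ OO r) (hq : q ∈ OO r) : p * q * p⁻¹ * q⁻¹ ∈ zpowers r := by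
  have a := hr.inv_mod h hp
  have b := hr.inv_mod h hq
  have c := hr.inv_mod h (mul_mem hp hq)
  have d := mul_mem (mul_mem (inv_mem a) (inv_mem b)) c
  have e1 := k1_zc (OO_comm (hr.z_conj h hp)) (inv_mem b)
  have e2 := k1_zc (OO_comm (mul_mem hp hq)) d
  have e : p * q * p⁻¹ * q⁻¹ = (z * p * z⁻¹ * p)⁻¹ * (z * q * z⁻¹ * q)⁻¹ * (z * (p * q) * z⁻¹ * (p * q)) := by
    calc p * q * p⁻¹ * q⁻¹ = p * q * ((z * p * z⁻¹ * p)⁻¹ * (z * p * z⁻¹ * (z * q * z⁻¹ * q)⁻¹) *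
          (z * q * z⁻¹ * (p * q))) * (p * q)⁻¹ := by group
      _ = p * q * ((z * p * z⁻¹ * p)⁻¹ * (z * q * z⁻¹ * q)⁻¹ * (z * (p * q) * z⁻¹ * (p * q))) * (p * q)⁻¹ := by
          rw [e1]; group
      _ = _ := by rw [e2, mul_inv_cancel_right]
  exact e ▸ d

theorem exists_not_mem (hc : c * r = r * c) (hz : c * z ≠ z * c) : ∃ o ∈ OO r, o ∉ zpowers r := by
  refine ⟨_, hr.comm_mem_OO h hc, fun k => hz (mul_inv_eq_iff_eq_mul.1 (hr.isolated h hc ?_))⟩
  have := k1_zc hr.1.symm k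
  rw [h.fr.es.inv_eq] at this
  refine mul_left_cancel (a := z) ?_
  calc z * (c * z * c⁻¹ * z) = z * c * z * c⁻¹ * z := by group
    _ = _ := by rw [← this]; group

theorem es_cent : ES (QQ y ⊓ centralizer ({r} : Set G)) z ∧
    Nat.card (QQ y ⊓ centralizer ({r} : Set G) : Subgroup G) = 128 := by
  have m : ∀ x, x ∈ QQ y ⊓ centralizer ({r} : Set G) ↔ x ∈ QQ y ∧ pi z y x i = 0 := fun x => by
    rw [mem_inf, mem_centralizer_singleton_iff, eq_comm]
    exact and_congr_right fun hx => hr.comm_Q h.toCz hx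
  have my : ∀ k, k ≠ i → ∀ j, y k j ∈ QQ y ⊓ centralizer ({r} : Set G) := fun k hk j =>
    (m _).2 ⟨y_mem y k j, by rw [h.fr.pi_y]; exact ev_ne hk.symm j⟩
  refine ⟨h.fr.es.of_le inf_le_left ((m _).2 ⟨h.fr.z_mem, by rw [h.fr.pi_z]; rfl⟩) (fun x hx k => ?_) ?_, ?_⟩
  · refine (h.fr.pi_eq_zero hx.1).1 (bf_nondeg fun l j => ?_)
    by_cases e : l = i
    · exact e ▸ k1_bf (e ▸ ((m x).1 hx).2) j
    · rw [← h.fr.pi_y, ← h.fr.comm_iff hx.1 (y_mem y l j)]
      exact (k _ (my l e j)).symm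
  · obtain ⟨l, hl⟩ := exists_ne i
    refine ⟨_, my l hl 0, not_or.1 fun k => ?_⟩
    have := (h.fr.pi_eq_zero (y_mem y l 0)).2 k
    rw [h.fr.pi_y] at this
    exact e3_ne 0 ((ev_self l 0).symm.trans (congrFun this l))
  · let f : QQ y →* Multiplicative (F2 × F2) := MonoidHom.mk' (fun x => Multiplicative.ofAdd (pi z y x i))
      fun a b => by rw [← ofAdd_add]; exact congrArg (fun v : V => Multiplicative.ofAdd (v i)) (h.fr.pi_mul a.2 b.2)
    have hf : Function.Surjective f := fun a => by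
      obtain ⟨x, hx, e⟩ := h.fr.pi_surj (Pi.single i a.toAdd)
      exact ⟨⟨x, hx⟩, by change Multiplicative.ofAdd (pi z y x i) = a; rw [e, Pi.single_eq_same]; rfl⟩
    have h1 := f.ker.card_mul_index
    rw [index_ker, MonoidHom.range_eq_top.2 hf, card_top, h.fr.card,
      show f.ker = (QQ y ⊓ centralizer ({r} : Set G)).subgroupOf (QQ y) from
        Subgroup.ext fun x => by rw [mem_subgroupOf, m]; exact ⟨fun k => ⟨x.2, k⟩, fun k => k.2⟩,
      Nat.card_congr (subgroupOfEquivOfLe inf_le_left).toEquiv,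
      show Nat.card (Multiplicative (F2 × F2)) = 4 by simp] at h1
    omega

theorem dim8 {B : Subgroup G} (hB : B ≤ OO r) (hrB : r ∈ B)
    (hn : ∀ x ∈ QQ y, x * r = r * x → ∀ b ∈ B, x * b * x⁻¹ ∈ B) (hne : ∃ b ∈ B, b ∉ zpowers r)
    (h3 : ∀ b ∈ B, b ^ 3 ∈ zpowers r) : 3 ^ 9 ≤ Nat.card B := by
  set N := centralizer ({r} : Set G) with hN
  have BN : B ≤ N := hB.trans (map_subtype_le _)
  have : ((zpowers r).subgroupOf N).Normal := ⟨fun a ha g => by
    rw [mem_subgroupOf] at ha ⊢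
    change (g : G) * a * (g : G)⁻¹ ∈ _
    rwa [k1_zc (mem_centralizer_singleton_iff.1 g.2) ha, mul_inv_cancel_right]⟩
  let f := QuotientGroup.mk' ((zpowers r).subgroupOf N)
  have hk : ∀ k, f k = 1 ↔ (k : G) ∈ zpowers r := fun k => QuotientGroup.eq_one_iff k
  obtain ⟨es, cd⟩ := hr.es_cent h
  have one : ∀ x ∈ QQ y, x ∈ zpowers r → x = 1 := fun x => eq_one_of_mem_odd h.fr.es (k1_odd hr.2.1)
  have es' := (es.subgroupOf inf_le_right).map f (fun x hx k => .inl (Subtype.ext (one _ hx.1 ((hk x).1 k))))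
    fun k => h.fr.z1 (one _ h.fr.z_mem ((hk _).1 k))
  have nm : ((QQ y ⊓ N).subgroupOf N).map f ≤ normalizer (((B.subgroupOf N).map f : Subgroup _) : Set _) := by
    rintro _ ⟨x, hx, rfl⟩
    refine mem_normalizer_fintype ?_
    rintro _ ⟨b, hb, rfl⟩
    exact ⟨x * b * x⁻¹, hn x hx.1 (mem_centralizer_singleton_iff.1 x.2) b hb, by simp⟩
  have : Fact (Nat.Prime 3) := ⟨Nat.prime_three⟩
  have key := Cfsg.Agent.S2912.result (p := 2) (r := 3) (by decide) _ ((B.subgroupOf N).map f) 3 es'.isExtraspecial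
    (by rw [card_quot_odd h.fr.es (k1_odd hr.2.1) inf_le_left inf_le_right f hk, cd]; rfl) ⟨⟨⟨?_⟩⟩, ?_⟩ nm ?_
    1 le_rfl (by decide) fun _ a _ => a
  · have c1 := k1_card f (B.subgroupOf N)
    rw [Nat.card_congr (subgroupOfEquivOfLe BN).toEquiv, QuotientGroup.ker_mk',
      inf_eq_left.2 (subgroupOf_mono N (zpowers_le.2 hrB)), Nat.card_congr (subgroupOfEquivOfLe
        (zpowers_le.2 (BN hrB))).toEquiv, Nat.card_zpowers, orderOf_eq_prime hr.2.1 (hr.ne_one h.toCz)] at c1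
    omega
  · rintro ⟨_, a, ha, rfl⟩ ⟨_, b, hb, rfl⟩
    refine Subtype.ext ?_
    change f a * f b = f b * f a
    rw [← mul_inv_eq_one, mul_inv_rev, ← mul_assoc, ← map_inv, ← map_inv, ← map_mul, ← map_mul, ← map_mul, hk]
    exact hr.comm_mod h (hB ha) (hB hb)
  · rintro _ ⟨a, ha, rfl⟩
    rw [← map_pow, hk]
    exact h3 a ha
  · refine eq_bot_iff.2 fun e he => mem_bot.2 (by_contra fun e1 => ?_)
    have zc : f ⟨z, es.mem.2⟩ ∈ centralizer (((B.subgroupOf N).map f : Subgroup _) : Set _) := by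
      by_cases e2 : e = f ⟨z, es.mem.2⟩
      · exact e2 ▸ he.2
      · obtain ⟨q, hq, k⟩ := es'.exists_conj he.1 e1 e2
        refine ((centralizer _).mul_mem_cancel_left he.2).1 (k ▸ fun a ha => ?_)
        have := he.2 _ ((mem_normalizer_iff.1 (inv_mem (nm hq)) a).1 ha)
        calc a * (q * e * q⁻¹) = q * (q⁻¹ * a * q⁻¹⁻¹ * e) * q⁻¹ := by group
          _ = _ := by rw [this]; group
    obtain ⟨b, hb, k⟩ := hne
    have b1 := zc (f ⟨b, BN hb⟩) ⟨_, hb, rfl⟩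
    have b2 := (hk (⟨z, es.mem.2⟩ * ⟨b, BN hb⟩ * ⟨z, es.mem.2⟩⁻¹ * ⟨b, BN hb⟩)).2 (hr.inv_mod h (hB hb))
    rw [map_mul, map_mul, map_mul, ← b1, map_inv, mul_inv_cancel_right, ← map_mul, hk] at b2
    refine k (((zpowers r).mul_mem_cancel_left b2).1 ?_)
    have := h3 b hb
    rwa [pow_three'] at this

end Rt

end CfsgLib.O83
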