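import Cfsg.Agent.Lib.O83.Rt1

/-! Package RT2: involutions inverting the four blocks.  See `plans/O83.md`. -/

set_option autoImplicit false
set_option linter.unusedSectionVars false

namespace CfsgLib.O83

open Subgroup CfsgLib.ExtraTwo CfsgLib.LargeExtra

variable {G : Type*} [Group G] {K : Subgroup G} {z n : G} {y : Fin 4 → F3 → G} {P : G → W}

variable {v r m : G}

theorem Op0.e_eq (hv : Op0 z P v) (h : Cz z y P) (i : Fin 4) : (P v).e i = 1 := by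
  rw [h.sgn v hv.2.1 hv.2.2.1 i, hv.2.2.2]

theorem Op0.neg_tr (hv : Op0 z P v) (h : Cz z y P) (a : Fin 4 → F3) : P v * tr a * (P v)⁻¹ = tr (-a) := by
  rw [conj_tr]
  congr 1
  funext k
  rw [hv.e_eq h, hv.2.2.1, sg_one]
  simp

theorem Op0.mul_z (hv : Op0 z P v) (h : Cz z y P) : Op0 z P (z * v) := by
  have e : P (z * v) = P v := by rw [h.P_mul rfl hv.2.1, h.P_Q h.fr.z_mem, one_mul]
  refine ⟨?_, rt1_mul rfl hv.2.1, by rw [e]; exact hv.2.2.1, by rw [e]; exact hv.2.2.2⟩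
  calc z * v * (z * v) = z * (v * z) * v := by group
    _ = z * z * (v * v) := by rw [hv.2.1]; group
    _ = 1 := by rw [h.fr.zz, hv.1, one_mul]

theorem Op0.conj (hv : Op0 z P v) (h : Cz z y P) (hm : m * z = z * m) : Op0 z P (m * v * m⁻¹) := by
  refine ⟨?_, rt1_conj hm hv.2.1, ?_, ?_⟩
  · calc m * v * m⁻¹ * (m * v * m⁻¹) = m * (v * v) * m⁻¹ := by group
      _ = 1 := by rw [hv.1]; group
  · rw [h.P_conj hm hv.2.1, W.mul_s, W.mul_s, hv.2.2.1, W.inv_s, mul_one, mul_inv_cancel]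
  · rw [h.P_conj hm hv.2.1, W.mul_e, W.mul_e, hv.2.2.1, hv.e_eq h, W.inv_e, W.inv_s,
      Equiv.Perm.one_apply]
    generalize (P m).e _ = a
    revert a; decide

theorem Op0.not_mem (hv : Op0 z P v) (h : Cz z y P) : v ∉ QQ y := by
  intro hq
  have := hv.2.2.2
  rw [h.P_Q hq, W.one_e] at this
  exact absurd this (by decide)

theorem op0_of_inv (h2 : v * v = 1) (hz : v * z = z * v)
    (e : ∀ a, P v * tr a * (P v)⁻¹ = tr (-a)) : Op0 z P v := by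
  have key : ∀ k, (P v).s⁻¹ k = k ∧ (P v).e ((P v).s⁻¹ k) = 1 := by
    intro k
    have h1 := e (Pi.single k 1)
    rw [conj_tr] at h1
    have h3 := congrFun (tr_inj h1) k
    simp only [Pi.neg_apply, Pi.single_eq_same] at h3
    by_cases hk : (P v).s⁻¹ k = k
    · refine ⟨hk, ?_⟩
      rw [hk, Pi.single_eq_same] at h3
      rw [hk]
      revert h3
      generalize (P v).e k = a
      revert a; decide
    · rw [Pi.single_eq_of_ne hk, mul_zero] at h3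
      exact absurd h3 (by decide)
  refine ⟨h2, hz, inv_eq_one.1 (Equiv.ext fun k => (key k).1), ?_⟩
  have := (key 0).2
  rwa [(key 0).1] at this

theorem Op0.rt2_mem (hv : Op0 z P v) (h : Cz z y P) (i : Fin 4) (j : F3) :
    v * y i j * v⁻¹ ∈ QQ y := h.fr.act_conj_mem (h.act v hv.2.1) (y_mem y i j)

theorem Op0.rt2_pi (hv : Op0 z P v) (h : Cz z y P) (i : Fin 4) (j : F3) :
    pi z y (v * y i j * v⁻¹) = ev i (-j + (P v).x i) := by
  rw [h.pi_conj hv.2.1 (y_mem y i j), h.fr.pi_y, rW_ev, hv.2.2.1, Equiv.Perm.one_apply, W.j,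
    hv.e_eq h, sg_one, neg_one_mul]

theorem Op0.rt2_inv (hv : Op0 z P v) (h : Cz z y P) (i : Fin 4) :
    v * y i (-(P v).x i) * v⁻¹ = (y i (-(P v).x i))⁻¹ := by
  set j := -(P v).x i with hj
  have hx : (P v).x i = -j := by rw [hj, neg_neg]
  have e0 : y i (j + 1) * y i (j + 2) = y i j := by
    have := h.fr.mul i (j + 1)
    rwa [(by decide : ∀ j : F3, j + 1 + 1 = j + 2), (by decide : ∀ j : F3, j + 1 + 2 = j)] at this
  obtain ⟨c, hc, e1⟩ : ∃ c, Commute c z ∧ (∀ g, Commute g z → Commute c g) ∧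
      v * y i (j + 1) * v⁻¹ = y i (j + 2) * c := by
    have h1 := hv.rt2_pi h i (j + 1)
    rw [hx, (by decide : ∀ j : F3, -(j + 1) + -j = j + 2), ← h.fr.pi_y] at h1
    rcases (h.fr.pi_eq_iff (hv.rt2_mem h i _) (y_mem y i _)).1 h1 with e | e
    · exact ⟨1, Commute.one_left _, fun g _ => Commute.one_left _, by rw [e, mul_one]⟩
    · exact ⟨z, rfl, fun g hg => hg.symm, e⟩
  have e2 : v * y i (j + 2) * v⁻¹ = y i (j + 1) * c⁻¹ := by
    have h1 := (e1.1 v hv.2.1).eq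
    calc v * y i (j + 2) * v⁻¹ = v * (y i (j + 2) * c) * (v * c)⁻¹ := by group
      _ = v * v * y i (j + 1) * (v * v)⁻¹ * c⁻¹ := by rw [← e1.2, ← h1]; group
      _ = _ := by rw [hv.1]; group
  have h3 := (e1.1 _ (h.fr.comm_z i (j + 1))).eq
  calc v * y i j * v⁻¹ = v * y i (j + 1) * v⁻¹ * (v * y i (j + 2) * v⁻¹) := by rw [← e0]; group
    _ = y i (j + 2) * (c * y i (j + 1)) * c⁻¹ := by rw [e1.2, e2]; group
    _ = y i (j + 2) * y i (j + 1) := by rw [h3]; group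
    _ = (y i j)⁻¹ := by
      rw [h.fr.y_anti i ((by decide : ∀ j : F3, j + 2 ≠ j + 1) j), e0, h.fr.y_inv]

theorem Op0.rt2_fix (hv : Op0 z P v) (h : Cz z y P) {i : Fin 4} (hr : Rt z P i r) {j : F3} {q : G}
    (hq : q ∈ QQ y) (e : pi z y q = pi z y (v * y i j * v⁻¹) + pi z y (y i j))
    (hc : r * q = q * r) : j = -(P v).x i := by
  have h1 := (hr.comm_Q h hq).1 hc
  rw [e, hv.rt2_pi h, h.fr.pi_y, Pi.add_apply, ev_self, ev_self] at h1
  exact (by decide : ∀ j x : F3, e3 (-j + x) + e3 j = 0 → j = -x) _ _ h1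

theorem Op0.rt2_root [Finite G] (hv : Op0 z P v) (h : CF z y P) (i : Fin 4) :
    ∃ a, Rt z P i a ∧ P a = tr (Pi.single i 1) ∧ v * a * v⁻¹ = a⁻¹ := by
  have h' := h.toCe.toCz
  obtain ⟨ρ, h1, h2, h3⟩ := h.exists_three (Pi.single i 1)
  have hρ : Rt z P i ρ := ⟨h1, h2, .inl h3⟩
  have hτ := (hρ.inv h').conj h' hv.2.1
  rw [hv.2.2.1, Equiv.Perm.one_apply] at hτ
  have e : P ρ = P (v * ρ⁻¹ * v⁻¹) := by
    rw [h'.P_conj hv.2.1 (rt1_inv h1), h'.P_inv h1, h3, ← tr_neg, hv.neg_tr h', neg_neg]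
  rcases hρ.conj_Q h' hτ e with e1 | ⟨j, e1⟩
  · refine ⟨ρ, hρ, h3, ?_⟩
    rw [← inv_inj, inv_inv]
    conv_rhs => rw [← e1]
    group
  have e2 : v * ρ * v⁻¹ = y i j * ρ⁻¹ * (y i j)⁻¹ := by
    rw [← inv_inj]
    calc (v * ρ * v⁻¹)⁻¹ = v * ρ⁻¹ * v⁻¹ := by group
      _ = _ := by rw [e1]; group
  have hj := hv.rt2_fix h' hρ (mul_mem (hv.rt2_mem h' i j) (y_mem y i j))
    (h'.fr.pi_mul (hv.rt2_mem h' i j) (y_mem y i j)) (by
      calc ρ * (v * y i j * v⁻¹ * y i j)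
          = (v * v) * ρ * (v * v)⁻¹ * (v * y i j * v⁻¹ * y i j) := by rw [hv.1]; group
        _ = v * (v * ρ * v⁻¹) * y i j * v⁻¹ * y i j := by group
        _ = v * y i j * v⁻¹ * (v * ρ⁻¹ * v⁻¹) * y i j := by rw [e2]; group
        _ = v * y i j * v⁻¹ * y i j * ρ := by rw [e1]; group)
  have hq := y_mem y i (j + 1)
  have hqz := h'.fr.comm_z i (j + 1)
  have h4 := hρ.conj h' hqz
  rw [h'.P_Q hq, W.one_s, Equiv.Perm.one_apply] at h4
  refine ⟨_, h4, by rw [h'.P_conj hqz h1, h'.P_Q hq, h3]; group, ?_⟩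
  have h5 := (hρ.comm_Q h' (mul_mem (mul_mem (inv_mem hq) (hv.rt2_mem h' i (j + 1)))
    (y_mem y i j))).2 (by
      rw [h'.fr.pi_mul (mul_mem (inv_mem hq) (hv.rt2_mem h' i (j + 1))) (y_mem y i j),
        h'.fr.pi_mul (inv_mem hq) (hv.rt2_mem h' i (j + 1)), h'.fr.pi_inv hq, hv.rt2_pi h',
        h'.fr.pi_y, h'.fr.pi_y, Pi.add_apply, Pi.add_apply, ev_self, ev_self, ev_self, hj]
      generalize (P v).x i = x
      revert x; decide)
  have h6 := ((show Commute _ _ from h5).inv_left).eq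
  calc v * (y i (j + 1) * ρ * (y i (j + 1))⁻¹) * v⁻¹
      = v * y i (j + 1) * v⁻¹ * (v * ρ * v⁻¹) * (v * y i (j + 1) * v⁻¹)⁻¹ := by group
    _ = y i (j + 1) * ((y i (j + 1))⁻¹ * (v * y i (j + 1) * v⁻¹) * y i j * ρ⁻¹) *
          (v * y i (j + 1) * v⁻¹ * y i j)⁻¹ := by rw [e2]; group
    _ = _ := by rw [← h6]; group

theorem rt2_invinv (e : v * r * v⁻¹ = r⁻¹) : v * r⁻¹ * v⁻¹ = r⁻¹⁻¹ := by
  calc v * r⁻¹ * v⁻¹ = (v * r * v⁻¹)⁻¹ := by group
    _ = _ := by rw [e]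

theorem Op0.rt2_blk [Finite G] (hv : Op0 z P v) (h : CF z y P) (i : Fin 4) :
    ∃ a n : G, Rt z P i a ∧ v * a * v⁻¹ = a⁻¹ ∧ n * n = z ∧ (a * n) ^ 3 = 1 ∧ v * n * v⁻¹ = n⁻¹ ∧
      (∃ j, n = y i j ∨ n = (y i j)⁻¹) ∧ ∀ r, Rt z P i r → v * r * v⁻¹ = r⁻¹ → InB a n r := by
  have h' := h.toCe.toCz
  obtain ⟨a, ha, e1, e2⟩ := hv.rt2_root h i
  have e3' := hv.rt2_inv h' i
  have hfix := fun (j : F3) => hv.rt2_fix h' ha (j := j)
    (mul_mem (inv_mem (y_mem y i j)) (hv.rt2_mem h' i j)) (by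
      rw [h'.fr.pi_mul (inv_mem (y_mem y i j)) (hv.rt2_mem h' i j), h'.fr.pi_inv (y_mem y i j),
        add_comm])
  generalize -(P v).x i = j at e3' hfix
  have hq := y_mem y i j
  have key : ∀ r, Rt z P i r → v * r * v⁻¹ = r⁻¹ → P r = P a →
      r = a ∨ r = y i j * a * (y i j)⁻¹ := by
    intro r hr e4 e5
    rcases ha.conj_Q h' hr e5.symm with e6 | ⟨l, e6⟩
    · exact .inl e6
    · right
      rw [← hfix l ?_, e6]
      refine (Commute.inv_left_iff.1 ?_).eq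
      calc a⁻¹ * ((y i l)⁻¹ * (v * y i l * v⁻¹))
          = (y i l)⁻¹ * (y i l * a * (y i l)⁻¹)⁻¹ * (v * y i l * v⁻¹) := by group
        _ = (y i l)⁻¹ * (v * y i l * v⁻¹) * (v * a * v⁻¹) := by rw [← e6, ← e4, e6]; group
        _ = _ := by rw [e2]
  have hcomp : ∀ n : G, n * a * n⁻¹ = y i j * a * (y i j)⁻¹ → ∀ r, Rt z P i r →
      v * r * v⁻¹ = r⁻¹ → InB a n r := by
    intro n hn r hr e4
    rcases ha.P_cases h' hr with e5 | e5
    · rcases key r hr e4 e5 with e6 | e6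
      · exact .inl e6
      · exact .inr (.inr (.inl (by rw [hn, e6])))
    · rcases key r⁻¹ (hr.inv h') (rt2_invinv e4) e5 with e6 | e6
      · exact .inr (.inl (by rw [← e6, inv_inv]))
      · refine .inr (.inr (.inr ?_))
        rw [← hn] at e6
        rw [← inv_inv r, e6]; group
  have m1 := h'.fr.act_conj_mem (h'.act a ha.1) hq
  have m2 := h'.fr.act_conj_mem (h'.act a ha.1) m1
  have e4 : (a * y i j) ^ 3 = a * y i j * a⁻¹ * (a * (a * y i j * a⁻¹) * a⁻¹) * y i j := by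
    calc (a * y i j) ^ 3
        = a * y i j * a⁻¹ * (a * (a * y i j * a⁻¹) * a⁻¹) * (a ^ 3 * y i j) := by
          rw [pow_three', pow_three']; group
      _ = _ := by rw [ha.2.1, one_mul]
  have h5 : (a * y i j) ^ 3 = 1 ∨ (a * y i j) ^ 3 = z := by
    rw [e4, ← h'.fr.pi_eq_zero (mul_mem (mul_mem m1 m2) hq), h'.fr.pi_mul (mul_mem m1 m2) hq,
      h'.fr.pi_mul m1 m2, h'.pi_conj ha.1 m1, h'.pi_conj ha.1 hq, h'.fr.pi_y, rW_ev, rW_ev, e1]
    simp only [tr_s, Equiv.Perm.one_apply, W.j, tr_e, tr_x, sg_zero, one_mul, Pi.single_eq_same, ev]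
    rw [← Pi.single_add, ← Pi.single_add,
      (by decide : ∀ j : F3, e3 (j + 1) + e3 (j + 1 + 1) + e3 j = 0), Pi.single_zero]
  rcases h5 with h5 | h5
  · exact ⟨a, y i j, ha, e2, h'.fr.sq i j, h5, e3', ⟨j, .inl rfl⟩, hcomp _ rfl⟩
  · refine ⟨a, (y i j)⁻¹, ha, e2, ?_, ?_, ?_, ⟨j, .inr rfl⟩, hcomp _ ?_⟩
    · rw [← mul_inv_rev, h'.fr.sq, h'.fr.es.inv_eq]
    · rw [h'.fr.y_inv, ← mul_assoc,
        (show Commute (a * y i j) z from rt1_mul ha.1 (h'.fr.comm_z i j)).mul_pow, h5, pow_three',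
        h'.fr.zz, one_mul, h'.fr.zz]
    · exact rt2_invinv e3'
    · rw [h'.fr.y_inv]
      calc y i j * z * a * (y i j * z)⁻¹ = y i j * (z * a) * z⁻¹ * (y i j)⁻¹ := by group
        _ = y i j * a * (y i j)⁻¹ := by rw [← ha.1]; group
        _ = _ := by rw [h'.fr.y_inv]

theorem Op0.blk0 [Finite G] (hv : Op0 z P v) (h : CF z y P) :
    ∃ a n : Fin 4 → G, Blk z v a n ∧ (∀ i, Rt z P i (a i)) ∧ (∀ i, ∃ j, n i = y i j ∨ n i = (y i j)⁻¹) ∧
      ∀ i r, Rt z P i r → v * r * v⁻¹ = r⁻¹ → InB (a i) (n i) r := by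
  have h' := h.toCe.toCz
  choose a n ha h1 h2 h3 h4 h5 h6 using fun i => hv.rt2_blk h i
  have hn : ∀ i, n i ∈ QQ y ∧ ∃ j, pi z y (n i) = ev i j := fun i => by
    obtain ⟨j, e | e⟩ := h5 i
    · rw [e]; exact ⟨y_mem y i j, j, h'.fr.pi_y i j⟩
    · rw [e]; exact ⟨inv_mem (y_mem y i j), j, by rw [h'.fr.pi_inv (y_mem y i j), h'.fr.pi_y]⟩
  refine ⟨a, n, ⟨h1, h2, h3, h4, fun i k => ?_, fun i k hik => ?_, fun i k => ?_⟩, ha, h5, h6⟩
  · by_cases hik : i = k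
    · rw [hik]
    · exact (ha i).comm h' (ha k) hik
  · obtain ⟨hq, j, e⟩ := hn k
    exact ((ha i).comm_Q h' hq).2 (by rw [e, ev_ne hik])
  · by_cases hik : i = k
    · rw [hik]
    · obtain ⟨hq, j, e⟩ := hn i
      obtain ⟨hq', l, e'⟩ := hn k
      rw [h'.fr.comm_iff hq hq', e, e', bf_ev, if_neg fun c => hik c.1]

theorem Op0.conj_z (hv : Op0 z P v) (h : Cz z y P) : ∃ q ∈ QQ y, q * v * q⁻¹ = z * v := by
  refine ⟨_, y_mem y 0 (-(P v).x 0), ?_⟩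
  have e := hv.rt2_inv h 0
  rw [← h.fr.sq 0 (-(P v).x 0)]
  generalize y 0 (-(P v).x 0) = q at e
  calc q * v * q⁻¹ = q * (v * q * v⁻¹)⁻¹ * v := by group
    _ = q * q * v := by rw [e, inv_inv]

theorem rt2_comm {g g' : G} (e : g' * z * g'⁻¹ = g * z * g⁻¹) :
    g⁻¹ * g' * z = z * (g⁻¹ * g') := by
  calc g⁻¹ * g' * z = g⁻¹ * (g' * z * g'⁻¹) * g' := by group
    _ = _ := by rw [e]; group

theorem Cz.rt2_isRt (h : Cz z y P) (g : G) :
    IsRt z P (g * z * g⁻¹) r ↔ ∃ i, Rt z P i (g⁻¹ * r * g) := by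
  constructor
  · rintro ⟨g', i, e, hr⟩
    refine ⟨(P (g⁻¹ * g')).s i, ?_⟩
    have := hr.conj h (rt2_comm e)
    convert this using 1
    group
  · rintro ⟨i, hr⟩
    exact ⟨g, i, rfl, hr⟩

theorem Cz.isRt_iff (h : Cz z y P) : IsRt z P z r ↔ ∃ i, Rt z P i r := by
  have := h.rt2_isRt (r := r) 1
  simpa using this

theorem Cz.isRt_iff' (h : Cz z y P) (g : G) : IsRt z P (g * z * g⁻¹) r ↔ ∃ i, Rt z P i (g⁻¹ * r * g) := by
  exact h.rt2_isRt g

theorem Cz.opp_iff (h : Cz z y P) : Opp z P z v ↔ IsConj z v ∧ Op0 z P v := by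
  refine and_congr_right fun _ => ⟨?_, fun hv => ⟨1, by simp, by simpa using hv⟩⟩
  rintro ⟨g, e, hv⟩
  have := hv.conj h (m := g) (by rw [← mul_inv_eq_iff_eq_mul, e])
  convert this using 1
  group

theorem Blk.conj {u v : G} {a n : Fin 4 → G} (h : Blk u v a n) (g : G) :
    Blk (g * u * g⁻¹) (g * v * g⁻¹) (fun i => g * a i * g⁻¹) fun i => g * n i * g⁻¹ := by
  have hf : ∀ x : G, g * x * g⁻¹ = MulAut.conj g x := fun _ => rfl
  simp only [hf]
  refine ⟨fun i => ?_, fun i => ?_, fun i => ?_, fun i => ?_, fun i k => ?_, fun i k hik => ?_,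
    fun i k => ?_⟩
  · rw [← map_inv, ← map_inv, ← map_mul, ← map_mul, h.inv]
  · rw [← map_mul, h.nn]
  · rw [← map_mul, ← map_pow, h.an, map_one]
  · rw [← map_inv, ← map_inv, ← map_mul, ← map_mul, h.vn]
  · rw [← map_mul, ← map_mul, h.aa]
  · rw [← map_mul, ← map_mul, h.na i k hik]
  · rw [← map_mul, ← map_mul, h.nc]

theorem InB.conj {a n r : G} (h : InB a n r) (g : G) : InB (g * a * g⁻¹) (g * n * g⁻¹) (g * r * g⁻¹) := by
  rcases h with rfl | rfl | rfl | rfl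
  · exact .inl rfl
  · exact .inr (.inl (by group))
  · exact .inr (.inr (.inl (by group)))
  · exact .inr (.inr (.inr (by group)))

end CfsgLib.O83
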