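import Cfsg.Agent.Lib.O83.Key1
import Cfsg.Agent.Lib.O83.Rt2

/-! Package KEY2: the two halves of the odd core.  See `plans/O83.md`. -/

set_option autoImplicit false
set_option linter.unusedSectionVars false
set_option linter.unusedVariables false

namespace CfsgLib.O83

open Subgroup CfsgLib.ExtraTwo CfsgLib.LargeExtra

variable {G : Type*} [Group G] {K : Subgroup G} {z n : G} {y : Fin 4 → F3 → G} {P : G → W}

variable {i : Fin 4} {r v c d o g : G}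

/-- the fixed points of `c` in the odd core -/
def DD (r c : G) : Subgroup G := OO r ⊓ centralizer ({c} : Set G)

theorem mem_DD : d ∈ DD r c ↔ d ∈ OO r ∧ d * c = c * d := by
  rw [DD, mem_inf, mem_centralizer_singleton_iff]

theorem k2_inv {ρ : G} (hc : c * r * c⁻¹ = r⁻¹) (hρ : ρ ∈ zpowers r) : c * ρ * c⁻¹ = ρ⁻¹ := by
  obtain ⟨k, rfl⟩ := hρ
  simp only
  rw [← conj_zpow, hc, inv_zpow]

theorem k2_cube {ρ : G} (h3 : r ^ 3 = 1) (hρ : ρ ∈ zpowers r) : ρ ^ 3 = 1 := by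
  obtain ⟨k, rfl⟩ := hρ
  simp only
  rw [← zpow_natCast, ← zpow_mul, mul_comm, zpow_mul, zpow_natCast, h3, one_zpow]

theorem k2_one {Q : Subgroup G} (h : ES Q z) {x : G} (hx : x ∈ Q) {N : ℕ} (hN : Odd N) (e : x ^ N = 1) : x = 1 := by
  have := Nat.dvd_gcd (orderOf_dvd_of_pow_eq_one (h.pow_four hx)) (orderOf_dvd_of_pow_eq_one e)
  rw [Nat.Coprime.gcd_eq_one ((Nat.coprime_two_left.2 hN).pow_left 2), Nat.dvd_one] at this
  exact orderOf_eq_one_iff.1 this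

theorem k2_pow (ho : o ∈ OO r) (g : G) : (g⁻¹ * o * g) ^ Nat.card (OO r) = 1 := by
  have : o ^ Nat.card (OO r) = 1 := congrArg Subtype.val (pow_card_eq_one' (x := (⟨o, ho⟩ : OO r)))
  have e := conj_pow (a := g⁻¹) (b := o) (i := Nat.card (OO r))
  rw [inv_inv] at e
  rw [e, this, mul_one, inv_mul_cancel]

theorem k2_comm (hg : g * z * g⁻¹ = c) (hd : d * c = c * d) : g⁻¹ * d * g * z = z * (g⁻¹ * d * g) := by
  calc g⁻¹ * d * g * z = g⁻¹ * (d * (g * z * g⁻¹)) * g := by group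
    _ = g⁻¹ * (g * z * g⁻¹ * d) * g := by rw [hg, hd]
    _ = _ := by group

theorem k2_perm : ∀ s t : Equiv.Perm (Fin 4), s ^ 3 = 1 → V4 t → t * s * t⁻¹ = s⁻¹ → s = 1 := by decide +kernel

theorem k2_tr_pow (a : Fin 4 → F3) (m : ℕ) : tr a ^ m = tr (m • a) := by
  induction m with
  | zero => rw [pow_zero, zero_smul, tr_zero]
  | succ m ih => rw [pow_succ, ih, succ_nsmul, tr_add]

/-- an element of odd order inverted by an element over the four-group is a translation -/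
theorem k2_tr {w u : W} {N : ℕ} (hN : Odd N) (h1 : w ^ N = 1) (h2 : V4 u.s) (h3 : u * w * u⁻¹ = w⁻¹) :
    ∃ a, w = tr a := by
  have a1 : w.s ^ N = 1 := by
    have := congrArg W.sHom h1
    rwa [map_pow, map_one] at this
  have a2 : orderOf w.s ∣ 8 * 3 := by
    have := orderOf_dvd_card (x := w.s)
    rwa [Fintype.card_perm, Fintype.card_fin] at this
  have a3 := k2_perm w.s u.s (orderOf_dvd_iff_pow_eq_one.1 (Nat.Coprime.dvd_of_dvd_mul_left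
    ((Nat.coprime_two_right.2 (hN.of_dvd_nat (orderOf_dvd_of_pow_eq_one a1))).pow_right 3) a2)) h2 (congrArg W.s h3)
  have a4 := eq_tr (w := w * w) (by rw [W.mul_s, a3, mul_one]) fun k => by
    rw [W.mul_e, a3]; exact CharTwo.add_self_eq_zero _
  obtain ⟨k, rfl⟩ := hN
  refine ⟨(k + 1) • (w * w).x, ?_⟩
  rw [← k2_tr_pow, ← a4, ← pow_two, ← pow_mul, show 2 * (k + 1) = 2 * k + 1 + 1 by ring, pow_succ, h1, one_mul]

namespace Rt

variable [Finite G] (hr : Rt z P i r)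
include hr

theorem DD_inv (h : Ce z y P) (hz : c * z = z * c) (hc : c * r * c⁻¹ = r⁻¹) (hd : d ∈ DD r c) :
    z * d * z⁻¹ = d⁻¹ := by
  obtain ⟨h1, h2⟩ := mem_DD.1 hd
  have a := hr.inv_mod h h1
  have b := k2_inv hc a
  have k : Commute c (z * d * z⁻¹ * d) :=
    Commute.mul_right (Commute.mul_right (Commute.mul_right hz h2.symm) (Commute.inv_right hz)) h2.symm
  rw [k.eq, mul_inv_cancel_right] at b
  have c := k2_cube hr.2.1 a
  rw [pow_three', mul_eq_one_iff_eq_inv.2 b, one_mul] at c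
  exact mul_eq_one_iff_eq_inv.1 c

theorem DD_comm (h : Ce z y P) (hz : c * z = z * c) (hc : c * r * c⁻¹ = r⁻¹) {d' : G} (hd : d ∈ DD r c)
    (hd' : d' ∈ DD r c) : d * d' = d' * d := by
  have := hr.DD_inv h hz hc (mul_mem hd hd')
  rw [← conj_mul, hr.DD_inv h hz hc hd, hr.DD_inv h hz hc hd', ← mul_inv_rev, inv_inj] at this
  exact this.symm

theorem dec (h : Ce z y P) (h2 : v * v = 1) (hz : v * z = z * v) (hv : v * r * v⁻¹ = r⁻¹) (ho : o ∈ OO r) :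
    ∃ k ∈ DD r (z * v), ∃ ρ ∈ zpowers r, ∃ e ∈ DD r v, o = k * ρ * e := by
  obtain ⟨k, hk, e, he, h3, h4, rfl⟩ := G23.exists_dec (OO_odd r) h2 (OO_norm (.inr hv)) ho
  have a := hr.inv_mod h hk
  refine ⟨k * (z * k * z⁻¹ * k), mem_DD.2 ⟨mul_mem hk (zpowers_le.2 (self_mem_OO hr.2.1) a), ?_⟩, _, inv_mem a, e,
    mem_DD.2 ⟨he, (mul_inv_eq_iff_eq_mul.1 h4).symm⟩, by group⟩
  have b := k2_inv hv a
  have c := k1_zc hr.1.symm (inv_mem a)
  have c3 := k2_cube hr.2.1 a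
  have e1 : z * k⁻¹ * z⁻¹ = k * (z * k * z⁻¹ * k)⁻¹ := by group
  generalize z * k * z⁻¹ * k = ρ at b c c3 e1
  refine (mul_inv_eq_iff_eq_mul.1 ?_).symm
  calc z * v * (k * ρ) * (z * v)⁻¹ = z * (v * k * v⁻¹) * z⁻¹ * (z * (v * ρ * v⁻¹) * z⁻¹) := by group
    _ = k * ρ * (ρ ^ 3)⁻¹ := by rw [h3, b, e1, c]; group
    _ = k * ρ := by rw [c3, inv_one, mul_one]

theorem DD_trans (h : Ce z y P) (hg : g * z * g⁻¹ = c) (hz : c * z = z * c) (hc : c * r * c⁻¹ = r⁻¹)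
    (hd : d ∈ DD r c) : d ^ 3 = 1 ∧ ∃ a, P (g⁻¹ * d * g) = tr a := by
  obtain ⟨h1, h2⟩ := mem_DD.1 hd
  have a1 := k2_comm hg h2
  have a2 := k2_comm hg hz.symm
  have a3 := k2_pow h1 g
  obtain ⟨a, ha⟩ := k2_tr (w := P (g⁻¹ * d * g)) (u := P (g⁻¹ * z * g)) (OO_odd r)
    (by rw [← h.P_pow a1, a3, h.P_one])
    ⟨by rw [← W.mul_s, ← h.P_mul a2 a2, show g⁻¹ * z * g * (g⁻¹ * z * g) = g⁻¹ * (z * z) * g by group, h.fr.zz,
      mul_one, inv_mul_cancel, h.P_one, W.one_s], h.even _ a2⟩ (by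
      rw [← h.P_conj a2 a1, ← h.P_inv a1]
      congr 1
      calc _ = g⁻¹ * (z * d * z⁻¹) * g := by group
        _ = _ := by rw [hr.DD_inv h hz hc hd]; group)
  refine ⟨?_, a, ha⟩
  have := k2_one h.fr.es ((h.P_eq_one (Commute.pow_left a1 3)).1 (by rw [h.P_pow a1, ha, tr_cube])) (OO_odd r)
    (by rw [← pow_mul, mul_comm, pow_mul, a3, one_pow])
  calc d ^ 3 = g * (g⁻¹ * d * g) ^ 3 * g⁻¹ := by rw [← conj_pow]; group
    _ = 1 := by rw [this]; group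

theorem DD_inj (h : Ce z y P) (hg : g * z * g⁻¹ = c) {d' : G} (hd : d ∈ DD r c) (hd' : d' ∈ DD r c)
    (e : P (g⁻¹ * d * g) = P (g⁻¹ * d' * g)) : d = d' := by
  have a := h.mem_of_eq (k2_comm hg (mem_DD.1 hd).2) (k2_comm hg (mem_DD.1 hd').2) e
  rw [show (g⁻¹ * d * g)⁻¹ * (g⁻¹ * d' * g) = g⁻¹ * (d⁻¹ * d') * g by group] at a
  have := k2_one h.fr.es a (OO_odd r) (k2_pow (mul_mem (inv_mem hd.1) hd'.1) g)
  calc d = d * (g * (g⁻¹ * (d⁻¹ * d') * g) * g⁻¹) := by rw [this]; group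
    _ = d' := by group

theorem DD_inj' (h : Ce z y P) (hg : g * z * g⁻¹ = c) (hz : c * z = z * c) (hc : c * r * c⁻¹ = r⁻¹) :
    Function.Injective fun d : DD r c => (P (g⁻¹ * d * g)).x := fun d d' e => by
  obtain ⟨-, a, ha⟩ := hr.DD_trans h hg hz hc d.2
  obtain ⟨-, b, hb⟩ := hr.DD_trans h hg hz hc d'.2
  simp only [ha, hb, tr_x] at e
  exact Subtype.ext (hr.DD_inj h hg d.2 d'.2 (by rw [ha, hb, e]))

theorem DD_card_le (h : Ce z y P) (hg : IsConj z c) (hz : c * z = z * c) (hc : c * r * c⁻¹ = r⁻¹) :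
    Nat.card (DD r c) ≤ 81 := by
  obtain ⟨g, hg⟩ := isConj_iff.1 hg
  simpa using Nat.card_le_card_of_injective _ (hr.DD_inj' h hg hz hc)

theorem cube_mul (h : Ce z y P) {a b : G} (ha : a ∈ OO r) (hb : b ∈ OO r) (a3 : a ^ 3 ∈ zpowers r)
    (b3 : b ^ 3 ∈ zpowers r) : (a * b) ^ 3 ∈ zpowers r := by
  have k := hr.comm_mod h hb ha
  have e : b * a = b * a * b⁻¹ * a⁻¹ * (a * b) := by group
  generalize b * a * b⁻¹ * a⁻¹ = γ at k e
  have k1 := k1_zc (OO_comm ha) k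
  have k2 := k1_zc (OO_comm (mul_mem (mul_mem ha ha) hb)) k
  have k3 := k1_zc (OO_comm (mul_mem ha ha)) k
  have : (a * b) ^ 3 = γ * γ * γ * a ^ 3 * b ^ 3 := by
    calc (a * b) ^ 3 = a * (b * a) * (b * a) * b := by simp only [pow_three', mul_assoc]
      _ = a * γ * (a * b) * (γ * (a * b)) * b := by rw [e]; simp only [mul_assoc]
      _ = γ * (a * a * b * γ) * (a * b) * b := by rw [k1]; simp only [mul_assoc]
      _ = γ * γ * (a * a * (b * a)) * b * b := by rw [k2]; simp only [mul_assoc]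
      _ = γ * γ * (a * a * γ) * (a * b) * b * b := by rw [e]; simp only [mul_assoc]
      _ = _ := by rw [k3]; simp only [pow_three', mul_assoc]
  exact this ▸ mul_mem (mul_mem (mul_mem (mul_mem k k) k) a3) b3

variable (h : CB z y P) (hv : Op0 z P v) (hrv : v * r * v⁻¹ = r⁻¹)
include h hv hrv

theorem zv (hg : IsConj z v) : IsConj z (z * v) ∧ z * v * z = z * (z * v) ∧ z * v * r * (z * v)⁻¹ = r⁻¹ := by
  obtain ⟨q, -, e⟩ := hv.conj_z h.toCz
  refine ⟨hg.trans (isConj_iff.2 ⟨q, e⟩), by rw [mul_assoc, hv.2.1], ?_⟩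
  calc z * v * r * (z * v)⁻¹ = z * (v * r * v⁻¹) * z⁻¹ := by group
    _ = (z * r * z⁻¹)⁻¹ := by rw [hrv]; group
    _ = r⁻¹ := by rw [← hr.1, mul_inv_cancel_right]

theorem cube (hg : IsConj z v) (ho : o ∈ OO r) : o ^ 3 ∈ zpowers r := by
  obtain ⟨k, hk, ρ, hρ, e, he, rfl⟩ := hr.dec h.toCe hv.1 hv.2.1 hrv ho
  obtain ⟨a1, a2, a3⟩ := hr.zv h hv hrv hg
  obtain ⟨g, hg⟩ := isConj_iff.1 hg
  obtain ⟨g', hg'⟩ := isConj_iff.1 a1
  have b := zpowers_le.2 (self_mem_OO hr.2.1) hρ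
  refine hr.cube_mul h.toCe (mul_mem hk.1 b) he.1 (hr.cube_mul h.toCe hk.1 b ?_ (pow_mem hρ 3)) ?_
  · rw [(hr.DD_trans h.toCe hg' a2 a3 hk).1]; exact one_mem _
  · rw [(hr.DD_trans h.toCe hg hv.2.1 hrv he).1]; exact one_mem _

theorem card_OO_le' (hg : IsConj z v) : Nat.card (OO r) ≤ 81 * (3 * Nat.card (DD r v)) := by
  obtain ⟨a1, a2, a3⟩ := hr.zv h hv hrv hg
  have b := zpowers_le.2 (self_mem_OO hr.2.1)
  have := Nat.card_le_card_of_surjective (fun x : DD r (z * v) × zpowers r × DD r v =>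
    (⟨x.1 * x.2.1 * x.2.2, mul_mem (mul_mem x.1.2.1 (b x.2.1.2)) x.2.2.2.1⟩ : OO r)) fun o => by
      obtain ⟨k, hk, ρ, hρ, e, he, eq⟩ := hr.dec h.toCe hv.1 hv.2.1 hrv o.2
      exact ⟨(⟨k, hk⟩, ⟨ρ, hρ⟩, ⟨e, he⟩), Subtype.ext eq.symm⟩
  rw [Nat.card_prod, Nat.card_prod, Nat.card_zpowers,
    have := Fact.mk Nat.prime_three; orderOf_eq_prime hr.2.1 (hr.ne_one h.toCz)] at this
  exact this.trans (Nat.mul_le_mul_right _ (hr.DD_card_le h.toCe a1 a2 a3))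

theorem card_OO_le (hg : IsConj z v) : Nat.card (OO r) ≤ 3 ^ 9 := by
  have := hr.card_OO_le' h hv hrv hg
  have := hr.DD_card_le h.toCe hg hv.2.1 hrv
  omega

theorem DD_surj (hg : g * z * g⁻¹ = v) (a : Fin 4 → F3) : ∃ d ∈ DD r v, P (g⁻¹ * d * g) = tr a := by
  have cj : IsConj z v := isConj_iff.2 ⟨g, hg⟩
  obtain ⟨c, c1, c2⟩ := h.nc i r hr
  have a1 := hr.dim8 h.toCe le_rfl (self_mem_OO hr.2.1)
    (fun x _ e b hb => OO_conj (.inl (by rw [e, mul_inv_cancel_right])) hb) (hr.exists_not_mem h.toCe c1 c2)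
    fun b hb => hr.cube h hv hrv cj hb
  have a2 := hr.card_OO_le' h hv hrv cj
  obtain ⟨d, hd⟩ := ((hr.DD_inj' h.toCe hg hv.2.1 hrv).bijective_of_nat_card_le (by
    rw [show Nat.card (Fin 4 → F3) = 81 by simp]; omega)).2 a
  obtain ⟨-, b, hb⟩ := hr.DD_trans h.toCe hg hv.2.1 hrv d.2
  simp only [hb, tr_x] at hd
  exact ⟨d, d.2, hd ▸ hb⟩

/-- in every block at `v` there is a root element inverted by `z` and commuting with `r` -/
theorem exists_rt_DD (hg : g * z * g⁻¹ = v) (k : Fin 4) : ∃ p ∈ DD r v, Rt z P k (g⁻¹ * p * g) ∧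
    P (g⁻¹ * p * g) = tr (Pi.single k 1) := by
  obtain ⟨p, hp, e⟩ := hr.DD_surj h hv hrv hg (Pi.single k 1)
  refine ⟨p, hp, ⟨k2_comm hg (mem_DD.1 hp).2, ?_, .inl e⟩, e⟩
  have e := conj_pow (a := g⁻¹) (b := p) (i := 3)
  rw [inv_inv] at e
  rw [e, (hr.DD_trans h.toCe hg hv.2.1 hrv hp).1, mul_one, inv_mul_cancel]

/-- an element commuting with the root elements in `DD r v` centralizes `DD r v` -/
theorem comm_DD (hg : g * z * g⁻¹ = v) {x : G}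
    (hx : ∀ p ∈ DD r v, ∀ k, Rt z P k (g⁻¹ * p * g) → p * x = x * p) (hd : d ∈ DD r v) : d * x = x * d := by
  let S : (Fin 4 → F3) → Prop := fun a => ∃ p ∈ DD r v, p * x = x * p ∧ P (g⁻¹ * p * g) = tr a
  have s0 : S 0 := ⟨1, one_mem _, by simp, by rw [mul_one, inv_mul_cancel, h.P_one, tr_zero]⟩
  have sa : ∀ a b, S a → S b → S (a + b) := by
    rintro a b ⟨p, p1, p2, p3⟩ ⟨q, q1, q2, q3⟩
    refine ⟨p * q, mul_mem p1 q1, Commute.mul_left p2 q2, ?_⟩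
    rw [tr_add, ← p3, ← q3, ← h.P_mul (k2_comm hg (mem_DD.1 p1).2) (k2_comm hg (mem_DD.1 q1).2)]
    congr 1; group
  have s1 : ∀ k, S (Pi.single k 1) := fun k => by
    obtain ⟨p, p1, p2, p3⟩ := hr.exists_rt_DD h hv hrv hg k
    exact ⟨p, p1, hx p p1 k p2, p3⟩
  obtain ⟨-, a, ha⟩ := hr.DD_trans h.toCe hg hv.2.1 hrv hd
  obtain ⟨p, p1, p2, p3⟩ : S a := by
    rw [← Finset.univ_sum_single a]
    refine Finset.sum_induction _ S sa s0 fun k _ => ?_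
    rcases f3_cases (a k) with e | e | e <;> rw [e]
    · rw [Pi.single_zero]; exact s0
    · exact s1 k
    · rw [show (2 : F3) = 1 + 1 from rfl, Pi.single_add]; exact sa _ _ (s1 k) (s1 k)
  rwa [hr.DD_inj h.toCe hg hd p1 (ha.trans p3.symm)]

end Rt

theorem Op0.symm [Finite G] (hv : Op0 z P v) (h : CB z y P) (hg : g * z * g⁻¹ = v) : Op0 z P (g⁻¹ * z * g) := by
  obtain ⟨a, m, b, hr, -⟩ := hv.blk0 h.toCF
  have a2 := k2_comm hg hv.2.1.symm
  refine op0_of_inv (by rw [show g⁻¹ * z * g * (g⁻¹ * z * g) = g⁻¹ * (z * z) * g by group, h.fr.zz]; group) a2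
    fun c => ?_
  obtain ⟨d, hd, e⟩ := (hr 0).DD_surj h hv (b.inv 0) hg c
  have a1 := k2_comm hg (mem_DD.1 hd).2
  rw [tr_neg, ← e, ← h.P_conj a2 a1, ← h.P_inv a1]
  congr 1
  calc _ = g⁻¹ * (z * d * z⁻¹) * g := by group
    _ = _ := by rw [(hr 0).DD_inv h.toCe hv.2.1 (b.inv 0) hd]; group

end CfsgLib.O83
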