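import Cfsg.Agent.Lib.O83.Defs
import Cfsg.Agent.Lib.RepChk.D4
import Cfsg.Agent.Lib.ChevAut.RootCent
import Cfsg.Agent.Lib.FiLoc.O2

/-! Words in the root elements of `Ω₈⁺(2)`; the centralizer of the highest root element. -/

set_option autoImplicit false

namespace CfsgLib.O83.Mod

open Subgroup Matrix CfsgLib.RepChk CfsgLib.ClSys CfsgLib.Chev CfsgLib.ChevAut CfsgLib.Stein CfsgLib.RGD CfsgLib.Weyl Cfsg.Lie

/-- the position of a coordinate -/
def idx : II 4 → ℕ := Sum.elim (fun i => i.val) fun i => 4 + i.val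
/-- the vector with the given bits -/
def toV (k : ℕ) : II 4 → ZMod 2 := fun i => if k.testBit (idx i) then 1 else 0
/-- the roots as pairs of positions -/
def RL : List (ℕ × ℕ) := [(5,4),(6,4),(3,4),(7,4),(2,4),(1,4),(6,5),(3,5),(7,5),(2,5),(3,6),(7,6),(2,3),(2,7),
  (1,6),(1,3),(1,7),(1,2),(0,5),(0,6),(0,3),(0,7),(0,2),(0,1)]
/-- the action of a root element on bit vectors -/
def step (r v : ℕ) : ℕ :=
  v ^^^ (((v >>> (((RL.getD r (0, 0)).2 + 4) % 8)) &&& 1) <<< (RL.getD r (0, 0)).1) ^^^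
    (((v >>> (((RL.getD r (0, 0)).1 + 4) % 8)) &&& 1) <<< (RL.getD r (0, 0)).2)
/-- the action of a word -/
def run : List ℕ → ℕ → ℕ
  | [], k => k
  | r :: w, k => step r (run w k)

/-- the root elements -/
noncomputable def x (r : ℕ) : Om := om8 (ZMod 2) r 1
/-- the value of a word -/
noncomputable def wd (w : List ℕ) : Om := (w.map x).prod

theorem wd_nil : wd [] = 1 := rfl
theorem wd_cons (r : ℕ) (w : List ℕ) : wd (r :: w) = x r * wd w := by simp [wd]
theorem wd_one (r : ℕ) : wd [r] = x r := by simp [wd]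
theorem wd_append (a b : List ℕ) : wd (a ++ b) = wd a * wd b := by simp [wd]

/-- the action of a root element on vectors -/
def stepV (r : ℕ) (v : II 4 → ZMod 2) : II 4 → ZMod 2 := fun i =>
  v i + (if (d4R r).1.1 = i then v (d4R r).1.2.swap else 0) + if (d4R r).1.2 = i then v (d4R r).1.1.swap else 0

theorem d4e_two : ∀ r < 24, ((d4e r : ℤ) : ZMod 2) = 1 ∧ ((-d4e r : ℤ) : ZMod 2) = 1 := by decide +kernel

theorem mulVec_x {r : ℕ} (hr : r < 24) (v : II 4 → ZMod 2) : om8Mat (ZMod 2) (x r) *ᵥ v = stepV r v := by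
  rw [x, om8Mat_om8, d4X, ev1_cons, ev1_cons, ev1_nil, add_zero]
  simp only [(d4e_two r hr).1, (d4e_two r hr).2, one_pow, mul_one, add_mulVec, one_mulVec, single_mulVec, one_mul]
  funext i
  simp only [stepV, Pi.add_apply, Function.update_apply, Pi.zero_apply, add_assoc, eq_comm]

theorem step_ok : ∀ r < 24, ∀ k < 256, step r k < 256 ∧ ∀ i, stepV r (toV k) i = toV (step r k) i := by
  decide +kernel

theorem mulVec_wd {w : List ℕ} (hw : w.all (· < 24) = true) {k : ℕ} (hk : k < 256) :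
    run w k < 256 ∧ om8Mat (ZMod 2) (wd w) *ᵥ toV k = toV (run w k) := by
  induction w with
  | nil => exact ⟨hk, by rw [wd_nil, map_one, one_mulVec]; rfl⟩
  | cons r w ih =>
    simp only [List.all_cons, Bool.and_eq_true, decide_eq_true_eq] at hw
    obtain ⟨h1, h2⟩ := ih hw.2
    refine ⟨(step_ok r hw.1 _ h1).1, ?_⟩
    rw [wd_cons, map_mul, ← mulVec_mulVec, h2, mulVec_x hw.1]
    exact funext (step_ok r hw.1 _ h1).2

/-- equality test for words -/
def eqw (a b : List ℕ) : Bool :=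
  a.all (· < 24) && b.all (· < 24) && [1, 2, 4, 8, 16, 32, 64, 128].all fun k => run a k == run b k

theorem toV_pow : ∀ j : II 4, 2 ^ idx j ∈ [1, 2, 4, 8, 16, 32, 64, 128] ∧ 2 ^ idx j < 256 ∧
    toV (2 ^ idx j) = Pi.single j 1 := by decide +kernel

theorem wd_eq {a b : List ℕ} (h : eqw a b = true) : wd a = wd b := by
  simp only [eqw, Bool.and_eq_true, List.all_eq_true (l := [1, 2, 4, 8, 16, 32, 64, 128]), beq_iff_eq] at h
  refine om8Mat_injective _ (Matrix.ext fun i j => ?_)
  obtain ⟨h1, h2, h3⟩ := toV_pow j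
  have e1 := (mulVec_wd h.1.1 h2).2
  have e2 := (mulVec_wd h.1.2 h2).2
  rw [h.2 _ h1, ← e2, h3, mulVec_single_one, mulVec_single_one] at e1
  exact congrFun e1 i

/-- inequality test -/
def new (a : List ℕ) (k : ℕ) : Bool := a.all (· < 24) && decide (k < 256) && decide (toV (run a k) ≠ toV k)

theorem wd_ne {a : List ℕ} {k : ℕ} (h : new a k = true) : wd a ≠ 1 := fun e => by
  simp only [new, Bool.and_eq_true, decide_eq_true_eq] at h
  have := (mulVec_wd h.1.1 h.1.2).2
  rw [e, map_one, one_mulVec] at this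
  exact h.2 this.symm

theorem x_sq : ∀ r < 24, eqw [r, r] [] = true := by decide +kernel

theorem wd_inv {a : List ℕ} (h : a.all (· < 24) = true) : (wd a)⁻¹ = wd a.reverse := by
  induction a with
  | nil => rfl
  | cons r w ih =>
    simp only [List.all_cons, Bool.and_eq_true, decide_eq_true_eq] at h
    have := wd_eq (x_sq r h.1)
    rw [wd_cons, wd_one, wd_nil] at this
    rw [List.reverse_cons, wd_append, wd_cons, _root_.mul_inv_rev, ih h.2, wd_one, inv_eq_of_mul_eq_one_right this]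

theorem center_Om : center Om = ⊥ := eq_bot_iff.2 fun x hx => Subtype.ext
  (FiLoc.cent_omega (OrthE.qPlus_eq 4) (OrthE.nondeg_qPlus 4) (by simp) x fun t ht =>
    congrArg Subtype.val (mem_center_iff.1 hx ⟨t, ht⟩))

theorem z2 : ∀ t : ZMod 2, t = 0 ∨ t = 1 := by decide

theorem gen {M : Subgroup Om} (h : ∀ r < 24, x r ∈ M) : M = ⊤ := by
  rw [eq_top_iff, ← om8_gen (F := ZMod 2), UUx, closure_le]
  rintro _ ⟨r, -, t, rfl⟩
  rcases z2 t with rfl | rfl
  · have : om8 (ZMod 2) r 0 = 1 := by rw [om8, mul_zero, StSys.x_zero]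
    exact this ▸ M.one_mem
  · exact h r r.2

theorem cent {M : Subgroup Om} (h : ∀ r ∈ [12, 13, 14, 15, 16, 17, 18, 19, 20, 21, 22, 23, 5, 10, 11], x r ∈ M)
    {m : Om} (hm : m * x 23 = x 23 * m) : m ∈ M := by
  let φ : Om →* GL chevD4.Idx (ZMod 2) := (chevD4.group (ZMod 2)).subtype.comp
    ((d4Iso (ZMod 2)).symm.toMonoidHom.comp (QuotientGroup.mk' _))
  have hφ : Function.Injective φ := by
    refine Subtype.val_injective.comp ((d4Iso (ZMod 2)).symm.injective.comp ?_)
    rw [← MonoidHom.ker_eq_bot_iff, QuotientGroup.ker_mk', center_Om]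
  have hx : ∀ r < 24, φ (x r) = xU chevD4 (ZMod 2) r 1 := fun r hr => by
    have := d4Iso_xG (F := ZMod 2) (r := r) hr 1
    exact congrArg Subtype.val (((d4Iso (ZMod 2)).symm_apply_eq).2 this.symm)
  have hc := centralizer_xU (F := ZMod 2) rtOKD4 (r := 23) (by decide) (i₀ := 1) (by decide) (by decide +kernel)
    (commute_last rtOKD4 rfl) (L := [5, 10, 11]) (by decide +kernel) (by decide +kernel)
  have h1 : φ m ∈ chevD4.group (ZMod 2) ⊓ centralizer {xU chevD4 (ZMod 2) 23 1} :=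
    ⟨Subtype.prop _, mem_centralizer_singleton_iff.2 (by rw [← hx 23 (by decide), ← map_mul, hm, map_mul])⟩
  have key : ∀ r ∈ [12, 13, 14, 15, 16, 17, 18, 19, 20, 21, 22, 23, 5, 10, 11], ∀ t, ∀ g : GL chevD4.Idx (ZMod 2),
      (g : Matrix _ _ _) = chevD4.x (ZMod 2) r t → g ∈ M.map φ := fun r hr t g e => by
    rcases z2 t with rfl | rfl
    · rw [x_zero] at e; rw [show g = 1 from Units.ext e]; exact one_mem _
    · exact ⟨x r, h r hr, (hx r (by clear e; revert r; decide)).trans (Units.ext e.symm)⟩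
  rw [hc] at h1
  have h2 : φ m ∈ M.map φ := by
    refine (sup_le ((closure_le _).2 ?_) ((closure_le _).2 ?_) : _ ≤ M.map φ) h1
    · rintro g ⟨r, t, hr, e⟩
      have := isPosRoot_iff.1 hr
      refine key r ?_ t g e
      have h3 : chevD4.nroots = 24 := rfl
      rw [h3] at this
      obtain ⟨h4, h5⟩ := this
      interval_cases r <;> simp at h4 ⊢
    · rintro g ⟨r, t, hr, e⟩
      exact key r (by clear e; revert r; decide) t g e
  obtain ⟨m', h3, e⟩ := h2
  exact hφ e ▸ h3

end CfsgLib.O83.Mod
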