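import Cfsg.Agent.Lib.O83.Fr2
import Cfsg.Agent.Lib.O83.Mod0

/-! Package MOD: the data in `Ω₈⁺(2)`.  See `plans/O83.md`. -/

set_option autoImplicit false
set_option linter.unusedSectionVars false

namespace CfsgLib.O83

open Subgroup CfsgLib.ExtraTwo CfsgLib.LargeExtra

namespace Mod

/-- equality in `W`, decided on the components -/
@[reducible] def decW : DecidableEq W := fun a b =>
  decidable_of_iff ((∀ i, a.s i = b.s i) ∧ (∀ i, a.e i = b.e i) ∧ ∀ i, a.x i = b.x i)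
    ⟨fun h => W.ext (Equiv.ext h.1) (funext h.2.1) (funext h.2.2), by rintro rfl; simp⟩

attribute [local instance 2000] decW

/-- the words of the frame -/
def yw (i : Fin 4) (j : F3) : List ℕ :=
  (([[[15,16,19,21,22],[14,15,17,20,21],[14,16,17,19,20,22,23]],
    [[15,16,19,20,22],[14,16,17,20,21],[14,15,17,19,21,22,23]],
    [[15,16,17,19,22],[14,17,19,20,21],[14,15,16,20,21,22]],
    [[15,16,17,19,20,21],[14,15,16,19,22],[14,17,20,21,22]]] : List (List (List ℕ))).getD i.val []).getD j.val []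

/-- the frame -/
noncomputable def y (i : Fin 4) (j : F3) : Om := wd (yw i j)
/-- the central involution -/
noncomputable def z : Om := wd [23]
/-- the Weyl element -/
noncomputable def n : Om := wd [14, 9, 14]

theorem c_sq : ∀ i j, eqw (yw i j ++ yw i j) [23] = true := by decide +kernel
theorem c_mul : ∀ i j, eqw (yw i j ++ yw i (j + 1)) (yw i (j + 2)) = true := by decide +kernel
theorem c_cm : ∀ i k, i ≠ k → ∀ j l, eqw (yw i j ++ yw k l) (yw k l ++ yw i j) = true := by decide +kernel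

theorem fr : Fr z y where
  z1 := wd_ne (k := 16) (by decide +kernel)
  zz := by rw [z, ← wd_append]; exact wd_eq (b := []) (by decide +kernel)
  sq i j := by rw [y, ← wd_append]; exact wd_eq (c_sq i j)
  mul i j := by rw [y, y, ← wd_append]; exact wd_eq (c_mul i j)
  cm i k h j l := by rw [y, y, ← wd_append, ← wd_append]; exact wd_eq (c_cm i k h j l)

/-- test for the action on the frame -/
def actw (a : List ℕ) (w : W) : Prop := a.all (· < 24) = true ∧ ∀ i j,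
  eqw (a ++ yw i j ++ a.reverse) (yw (w.s i) (w.j i j)) = true ∨
    eqw (a ++ yw i j ++ a.reverse) (yw (w.s i) (w.j i j) ++ [23]) = true

instance (a : List ℕ) (w : W) : Decidable (actw a w) := by unfold actw; infer_instance

theorem act_wd {a : List ℕ} {w : W} (h : actw a w) : Act z y (wd a) w := fun i j => by
  rw [wd_inv h.1, y, ← wd_append, ← wd_append, y, z, ← wd_append]
  exact (h.2 i j).imp wd_eq wd_eq

/-- the product of one element of each block -/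
def pw (j : Fin 4 → F3) : List ℕ := yw 0 (j 0) ++ yw 1 (j 1) ++ yw 2 (j 2) ++ yw 3 (j 3)

theorem inQ {a : List ℕ} (j : Fin 4 → F3) (h : eqw a (pw j) = true ∨ eqw a (pw j ++ [23]) = true) :
    wd a ∈ QQ y ∧ pi z y (wd a) = full j := by
  have h1 : wd (pw j) = y 0 (j 0) * y 1 (j 1) * y 2 (j 2) * y 3 (j 3) := by simp only [pw, wd_append, y]
  have m := y_mem y
  have h2 : wd (pw j) ∈ QQ y := h1 ▸ mul_mem (mul_mem (mul_mem (m _ _) (m _ _)) (m _ _)) (m _ _)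
  have h3 : pi z y (wd (pw j)) = full j := by
    rw [h1, fr.pi_mul (mul_mem (mul_mem (m _ _) (m _ _)) (m _ _)) (m _ _), fr.pi_mul (mul_mem (m _ _) (m _ _)) (m _ _),
      fr.pi_mul (m _ _) (m _ _), fr.pi_y, fr.pi_y, fr.pi_y, fr.pi_y, full_eq_sum]
  rcases h with h | h
  · rw [wd_eq h]; exact ⟨h2, h3⟩
  · rw [wd_eq h, wd_append]; exact ⟨mul_mem h2 fr.z_mem, (fr.pi_mul_z h2).trans h3⟩

/-- the three double transpositions -/
def sv (k : Fin 3) : Equiv.Perm (Fin 4) :=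
  ![Equiv.swap 0 1 * Equiv.swap 2 3, Equiv.swap 0 2 * Equiv.swap 1 3, Equiv.swap 0 3 * Equiv.swap 1 2] k
/-- positive simple roots of the Levi factor -/
def ra (k : Fin 3) : ℕ := ![18, 13, 12] k
/-- negative simple roots of the Levi factor -/
def rb (k : Fin 3) : ℕ := ![5, 10, 11] k
/-- the images of the negative root elements -/
def wb (k : Fin 3) : W := ⟨sv k, fun _ => 1, ![![2, 2, 1, 1], ![2, 1, 2, 1], ![1, 2, 2, 1]] k⟩

/-- the six words of a dihedral group of order six -/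
def six {M : Type*} [Monoid M] (a b : M) (c : Fin 6) : M := ![1, a, b, a * b, b * a, a * b * a] c

theorem six_mul {M : Type*} [Group M] {a b : M} (ha : a * a = 1) (hb : b * b = 1) (h : a * b * a = b * a * b)
    (c : Fin 6) : (∃ c', six a b c * a = six a b c') ∧ ∃ c', six a b c * b = six a b c' := by
  have a2 : ∀ t, t * a * a = t := fun t => by rw [mul_assoc, ha, mul_one]
  have b2 : ∀ t, t * b * b = t := fun t => by rw [mul_assoc, hb, mul_one]
  fin_cases c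
  · exact ⟨⟨1, one_mul _⟩, 2, one_mul _⟩
  · exact ⟨⟨0, ha⟩, 3, rfl⟩
  · exact ⟨⟨4, rfl⟩, 0, hb⟩
  · exact ⟨⟨5, rfl⟩, 1, b2 _⟩
  · exact ⟨⟨2, a2 _⟩, 5, h.symm⟩
  · exact ⟨⟨3, a2 _⟩, 4, by change a * b * a * b = b * a; rw [h, b2]⟩

theorem six_comm {M : Type*} [Monoid M] {a b g : M} (ha : Commute a g) (hb : Commute b g) (c : Fin 6) :
    Commute (six a b c) g := by
  fin_cases c
  exacts [Commute.one_left _, ha, hb, ha.mul_left hb, hb.mul_left ha, (ha.mul_left hb).mul_left ha]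

/-- elements of the Levi factor -/
noncomputable def lv (k : Fin 3) (c : Fin 6) : Om := six (x (ra k)) (x (rb k)) c
/-- their images -/
def lw (k : Fin 3) (c : Fin 6) : W := six (mk0 (sv k) 1) (wb k) c

theorem c_act : ∀ k, actw [ra k] (mk0 (sv k) 1) ∧ actw [rb k] (wb k) := by decide +kernel

theorem act_a (k : Fin 3) : Act z y (x (ra k)) (mk0 (sv k) 1) := wd_one _ ▸ act_wd (c_act k).1
theorem act_b (k : Fin 3) : Act z y (x (rb k)) (wb k) := wd_one _ ▸ act_wd (c_act k).2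

theorem act_lv (k : Fin 3) (c : Fin 6) : Act z y (lv k c) (lw k c) := by
  have a := act_a k
  have b := act_b k
  fin_cases c
  exacts [fr.act_of_mem (one_mem _), a, b, fr.act_mul a b, fr.act_mul b a, fr.act_mul (fr.act_mul a b) a]

theorem c_lv : ∀ k, eqw [ra k, ra k] [] = true ∧ eqw [rb k, rb k] [] = true ∧
    eqw [ra k, rb k, ra k] [rb k, ra k, rb k] = true ∧ ∀ l, k ≠ l → eqw [ra k, ra l] [ra l, ra k] = true ∧
      eqw [rb k, ra l] [ra l, rb k] = true ∧ eqw [ra k, rb l] [rb l, ra k] = true ∧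
      eqw [rb k, rb l] [rb l, rb k] = true := by decide +kernel

theorem wd_two (a b : ℕ) : wd [a, b] = x a * x b := by simp [wd]
theorem wd_three (a b c : ℕ) : wd [a, b, c] = x a * x b * x c := by simp [wd, mul_assoc]

theorem lv_mul (k : Fin 3) (c : Fin 6) : (∃ c', lv k c * x (ra k) = lv k c') ∧ ∃ c', lv k c * x (rb k) = lv k c' :=
  six_mul (wd_two _ _ ▸ wd_eq (c_lv k).1) (wd_two _ _ ▸ wd_eq (c_lv k).2.1)
    (by have := wd_eq (c_lv k).2.2.1; rwa [wd_three, wd_three] at this) c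

theorem lv_comm {k l : Fin 3} (h : k ≠ l) (c : Fin 6) :
    lv k c * x (ra l) = x (ra l) * lv k c ∧ lv k c * x (rb l) = x (rb l) * lv k c := by
  obtain ⟨h1, h2, h3, h4⟩ := (c_lv k).2.2.2 l h
  have e : ∀ {a b}, eqw [a, b] [b, a] = true → Commute (x a) (x b) := fun h => by
    have := wd_eq h; rwa [wd_two, wd_two] at this
  exact ⟨(six_comm (e h1) (e h2) c).eq, (six_comm (e h3) (e h4) c).eq⟩

theorem c_lw : ∀ a b c, lw 0 a * lw 1 b * lw 2 c ∈ Yg ∧ (lw 0 a * lw 1 b * lw 2 c = 1 → a = 0 ∧ b = 0 ∧ c = 0) := by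
  decide +kernel

theorem root_mem : ∀ r ∈ [14, 15, 16, 17, 19, 20, 21, 22, 23], x r ∈ QQ y := by
  simp only [List.forall_mem_cons, List.not_mem_nil, IsEmpty.forall_iff, implies_true, and_true, ← wd_one]
  exact ⟨(inQ ![1, 1, 1, 0] (by decide +kernel)).1, (inQ ![2, 0, 0, 1] (by decide +kernel)).1,
    (inQ ![0, 2, 0, 1] (by decide +kernel)).1, (inQ ![1, 1, 2, 2] (by decide +kernel)).1,
    (inQ ![0, 0, 2, 1] (by decide +kernel)).1, (inQ ![1, 2, 1, 2] (by decide +kernel)).1,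
    (inQ ![2, 1, 1, 2] (by decide +kernel)).1, (inQ ![0, 0, 0, 0] (by decide +kernel)).1, fr.z_mem⟩

/-- normal form in the centralizer of `z` -/
def NF (m : Om) : Prop := ∃ q ∈ QQ y, ∃ a b c, m = q * (lv 0 a * lv 1 b * lv 2 c)

theorem act3 (a b c : Fin 6) : Act z y (lv 0 a * lv 1 b * lv 2 c) (lw 0 a * lw 1 b * lw 2 c) :=
  fr.act_mul (fr.act_mul (act_lv 0 a) (act_lv 1 b)) (act_lv 2 c)

theorem NF_mul {m g : Om} (h : NF m) (hg : g ∈ QQ y ∨ ∃ k, g = x (ra k) ∨ g = x (rb k)) : NF (m * g) := by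
  obtain ⟨q, hq, a, b, c, rfl⟩ := h
  rcases hg with hg | ⟨k, hk⟩
  · exact ⟨_, mul_mem hq (fr.act_conj_mem (act3 a b c) hg), a, b, c, by group⟩
  have h1 : ∀ c, ∃ c', lv k c * g = lv k c' := fun c => by
    rcases hk with rfl | rfl
    exacts [(lv_mul k c).1, (lv_mul k c).2]
  have h2 : ∀ l, l ≠ k → ∀ c, lv l c * g = g * lv l c := fun l hl c => by
    rcases hk with rfl | rfl
    exacts [(lv_comm hl c).1, (lv_comm hl c).2]
  fin_cases k
  · obtain ⟨c', e⟩ := h1 a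
    refine ⟨q, hq, c', b, c, ?_⟩
    rw [mul_assoc, mul_assoc, h2 2 (by decide), ← mul_assoc _ g, mul_assoc _ _ g, h2 1 (by decide), ← mul_assoc _ g]
    exact congrArg (fun t => q * (t * lv 1 b * lv 2 c)) e
  · obtain ⟨c', e⟩ := h1 b
    refine ⟨q, hq, a, c', c, ?_⟩
    rw [mul_assoc, mul_assoc, h2 2 (by decide), ← mul_assoc _ g, mul_assoc _ _ g]
    exact congrArg (fun t => q * (lv 0 a * t * lv 2 c)) e
  · obtain ⟨c', e⟩ := h1 c
    refine ⟨q, hq, a, b, c', ?_⟩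
    rw [mul_assoc, mul_assoc]
    exact congrArg (fun t => q * (lv 0 a * lv 1 b * t)) e

theorem NF_of_comm {m : Om} (hm : m * z = z * m) : NF m := by
  let S : Set Om := {g | ∃ r ∈ [12, 13, 14, 15, 16, 17, 18, 19, 20, 21, 22, 23, 5, 10, 11], g = x r}
  have h1 : m ∈ Subgroup.closure S := cent (fun r hr => Subgroup.subset_closure (show x r ∈ S from ⟨r, hr, rfl⟩)) (by rwa [z, wd_one] at hm)
  have h2 : ∀ g ∈ S, g⁻¹ = g ∧ (g ∈ QQ y ∨ ∃ k, g = x (ra k) ∨ g = x (rb k)) := by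
    rintro _ ⟨r, hr, rfl⟩
    have h3 : ∀ r ∈ [12, 13, 14, 15, 16, 17, 18, 19, 20, 21, 22, 23, 5, 10, 11], r < 24 ∧
      (r ∈ [14, 15, 16, 17, 19, 20, 21, 22, 23] ∨ ∃ k, r = ra k ∨ r = rb k) := by decide
    refine ⟨inv_eq_of_mul_eq_one_right (wd_two _ _ ▸ wd_eq (x_sq r (h3 r hr).1)), ?_⟩
    exact (h3 r hr).2.imp (root_mem r) fun ⟨k, hk⟩ => ⟨k, hk.imp (congrArg x) (congrArg x)⟩
  clear hm
  induction h1 using closure_induction_right with
  | one => exact ⟨1, one_mem _, 0, 0, 0, by simp [lv, six]⟩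
  | mul_right a _ g hg ih => exact NF_mul ih (h2 g hg).2
  | mul_inv_cancel a _ g hg ih => rw [(h2 g hg).1]; exact NF_mul ih (h2 g hg).2

theorem c_tr : ∀ a : Fin 4 → F3, ∑ i, a i = 0 → ∃ b c d, lw 0 b * lw 1 c * lw 2 d = tr a := by decide +kernel

theorem c_V4 : ∀ s, V4 s → s = 1 ∨ ∃ k, s = sv k := by decide +kernel

theorem nE_aux (a : List ℕ) (j : Fin 4 → F3) (h1 : eqw (a ++ a) [] = true)
    (h2 : eqw ([14, 9, 14] ++ a ++ [14, 9, 14]) (pw j) = true ∨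
      eqw ([14, 9, 14] ++ a ++ [14, 9, 14]) (pw j ++ [23]) = true) :
    wd a * wd a = 1 ∧ n * wd a * n⁻¹ ∈ QQ y ∧ pi z y (n * wd a * n⁻¹) = full j := by
  have e : n * wd a * n⁻¹ = wd ([14, 9, 14] ++ a ++ [14, 9, 14]) := by
    rw [n, wd_inv (by decide), wd_append, wd_append]; rfl
  rw [e, ← wd_append]
  exact ⟨wd_eq h1, inQ j h2⟩

/-- the images of the conjugates of the root elements of the Levi factor -/
def jv (k : Fin 3) : Fin 4 → F3 := ![![0, 0, 2, 1], ![0, 2, 0, 1], ![2, 0, 0, 1]] k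

theorem c_jv : ∀ k, eqw ([ra k] ++ [ra k]) [] = true ∧ (eqw ([14, 9, 14] ++ [ra k] ++ [14, 9, 14]) (pw (jv k)) = true ∨
    eqw ([14, 9, 14] ++ [ra k] ++ [14, 9, 14]) (pw (jv k) ++ [23]) = true) ∧ ∑ i, jv k i = 0 ∧
    wt (full (jv k) + tV) = 2 ∧ eqw ([ra (k + 1), ra (k + 2)] ++ [ra (k + 1), ra (k + 2)]) [] = true ∧
    mk0 (sv (k + 1)) 1 * mk0 (sv (k + 2)) 1 = mk0 (sv k) 0 := by decide +kernel

theorem comm_x : ∀ r ∈ [12, 13, 14, 15, 16, 17, 18, 19, 20, 21, 22, 23, 5, 10, 11], eqw [r, 23] [23, r] = true := by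
  decide +kernel

theorem k_lift : ∀ w ∈ Yg, ∃ m ∈ (⊤ : Subgroup Om), Act z y m w :=
  Yg_ind (fun a ha => let ⟨b, c, d, e⟩ := c_tr a ha; ⟨_, mem_top _, e ▸ act3 b c d⟩)
  (fun s hs h1 => let ⟨k, e⟩ := (c_V4 s hs).resolve_left h1; ⟨_, mem_top _, e ▸ act_a k⟩)
  fun _ _ _ _ ⟨_, _, h⟩ ⟨_, _, h'⟩ => ⟨_, mem_top _, fr.act_mul h h'⟩

theorem k_cen (m : Om) (hm : m * z = z * m) : ∃ w ∈ Yg, Act z y m w := by
  obtain ⟨q, hq, a, b, c, rfl⟩ := NF_of_comm hm
  exact ⟨_, (c_lw a b c).1, one_mul (lw 0 a * lw 1 b * lw 2 c) ▸ fr.act_mul (fr.act_of_mem hq) (act3 a b c)⟩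

theorem k_cQ (m : Om) (hm : ∀ q ∈ QQ y, q * m = m * q) : m = 1 ∨ m = z := by
  obtain ⟨q, hq, a, b, c, e⟩ := NF_of_comm (hm z fr.z_mem).symm
  have h1 : Act z y m 1 := fun i j => Or.inl (by rw [← hm _ (y_mem y i j), W.j_one]; simp)
  have h2 := fr.act_mul (fr.act_of_mem hq) (act3 a b c)
  rw [← e, one_mul] at h2
  obtain ⟨rfl, rfl, rfl⟩ := (c_lw a b c).2 (fr.act_unique h2 h1)
  exact fr.es.center m (by rw [e]; simpa [lv, six] using hq) hm

theorem k_n2 : n * n = 1 := by rw [n, ← wd_append]; exact wd_eq (b := []) (by decide +kernel)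

theorem k_nz : n * z * n⁻¹ = tt y := by
  rw [n, z, wd_inv (by decide), tt, y, y, y, y]; simp only [← wd_append]
  exact wd_eq (by decide +kernel)

theorem k_nE (s : Equiv.Perm (Fin 4)) (c : F2) (hs : V4 s) : ∃ a ∈ (⊤ : Subgroup Om), a * a = 1 ∧ Act z y a (mk0 s c) ∧
    n * a * n⁻¹ ∈ QQ y ∧ (c = 1 → ∃ j, pi z y (n * a * n⁻¹) = full j ∧
      (s ≠ 1 → ∑ i, j i = 0 ∧ wt (full j + tV) = 2)) := by
  rcases c_V4 s hs with rfl | ⟨k, rfl⟩ <;> rcases f2_cases c with rfl | rfl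
  · exact ⟨1, mem_top _, one_mul _, fr.act_of_mem (one_mem _), by simp, fun h => absurd h (by decide)⟩
  · obtain ⟨h1, h2, h3⟩ := nE_aux [18, 13, 12] ![2, 2, 2, 1] (by decide +kernel) (by decide +kernel)
    exact ⟨_, mem_top _, h1, act_wd (by decide +kernel), h2, fun _ => ⟨_, h3, fun h => absurd rfl h⟩⟩
  · obtain ⟨-, -, -, -, h1, h2⟩ := c_jv k
    have h3 := (nE_aux _ _ (c_jv (k + 1)).1 (c_jv (k + 1)).2.1).2.1
    have h4 := (nE_aux _ _ (c_jv (k + 2)).1 (c_jv (k + 2)).2.1).2.1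
    have h5 := wd_eq h1
    rw [wd_append, wd_two] at h5
    rw [wd_one] at h3 h4
    refine ⟨_, mem_top _, h5, h2 ▸ fr.act_mul (act_a _) (act_a _), ?_, fun h => absurd h (by decide)⟩
    convert mul_mem h3 h4 using 1; group
  · obtain ⟨h1, h2, h3⟩ := nE_aux _ _ (c_jv k).1 (c_jv k).2.1
    exact ⟨_, mem_top _, h1, act_wd (c_act k).1, h2, fun _ => ⟨_, h3, fun _ => ⟨(c_jv k).2.2.1, (c_jv k).2.2.2.1⟩⟩⟩

theorem mem_of_wd {M : Subgroup Om} {r : ℕ} (w : List ℕ) (hw : ∀ s ∈ w, x s ∈ M) (e : eqw [r] w = true) : x r ∈ M := by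
  rw [← wd_one, wd_eq e, wd]
  exact list_prod_mem fun g hg => by obtain ⟨s, hs, rfl⟩ := List.mem_map.1 hg; exact hw s hs

theorem mem_conj {M : Subgroup Om} {r a b s : ℕ} (ha : x a ∈ M) (hb : x b ∈ M) (hs : x s ∈ M)
    (e : eqw [r] [a, b, a, s, a, b, a] = true) : x r ∈ M :=
  mem_of_wd _ (by simp only [List.forall_mem_cons, ha, hb, hs, true_and]; simp) e

theorem k_gen (M : Subgroup Om) (h : ∀ m ∈ (⊤ : Subgroup Om), m * z = z * m → m ∈ M) (hn : n ∈ M) : ⊤ ≤ M := by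
  have h1 : ∀ r ∈ [12, 13, 14, 15, 16, 17, 18, 19, 20, 21, 22, 23, 5, 10, 11], x r ∈ M := fun r hr =>
    h _ (mem_top _) (by have := wd_eq (comm_x r hr); rwa [wd_two, wd_two, ← wd_one 23] at this)
  have x12 := h1 12 (by decide)
  have x13 := h1 13 (by decide)
  have x14 := h1 14 (by decide)
  have x5 := h1 5 (by decide)
  have x10 := h1 10 (by decide)
  have x11 := h1 11 (by decide)
  have x9 : x 9 ∈ M := by
    rw [n, wd_three] at hn
    exact (M.mul_mem_cancel_left x14).1 ((M.mul_mem_cancel_right x14).1 hn)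
  have x4 : x 4 ∈ M := mem_conj x14 x9 x5 (by decide +kernel)
  have x7 : x 7 ∈ M := mem_conj x13 x10 x9 (by decide +kernel)
  have x8 : x 8 ∈ M := mem_conj x12 x11 x9 (by decide +kernel)
  have x2 : x 2 ∈ M := mem_conj x13 x10 x4 (by decide +kernel)
  have x3 : x 3 ∈ M := mem_conj x12 x11 x4 (by decide +kernel)
  have x6 : x 6 ∈ M := mem_conj x12 x11 x7 (by decide +kernel)
  have x1 : x 1 ∈ M := mem_conj x12 x11 x2 (by decide +kernel)
  have x0 : x 0 ∈ M := mem_conj x14 x9 x1 (by decide +kernel)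
  have h2 : ∀ r < 24, r ∈ [12, 13, 14, 15, 16, 17, 18, 19, 20, 21, 22, 23, 5, 10, 11] ∨ r = 0 ∨ r = 1 ∨ r = 2 ∨
    r = 3 ∨ r = 4 ∨ r = 6 ∨ r = 7 ∨ r = 8 ∨ r = 9 := by decide
  refine (gen fun r hr => ?_).ge
  rcases h2 r hr with e | rfl | rfl | rfl | rfl | rfl | rfl | rfl | rfl | rfl
  exacts [h1 r e, x0, x1, x2, x3, x4, x6, x7, x8, x9]

theorem k_u9 : ∃ u ∈ (⊤ : Subgroup Om), ∃ g ∈ (⊤ : Subgroup Om), u ^ 3 = 1 ∧ Act z y u (tr ![1, -1, 0, 0]) ∧
    g * u = u * g ∧ g ^ 9 = 1 ∧ g ^ 3 ≠ 1 := by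
  have p : ∀ (w : List ℕ) (k : ℕ), wd w ^ k = wd (List.replicate k w).flatten := fun w k => by
    induction k with
    | zero => rfl
    | succ k ih => rw [pow_succ', ih, List.replicate_succ, List.flatten_cons, wd_append]
  refine ⟨wd [13, 10, 13, 10, 12, 11], mem_top _, wd [14, 17, 0, 5, 21, 22, 20], mem_top _, ?_,
    act_wd (by decide +kernel), ?_, ?_, ?_⟩
  · rw [p]; exact wd_eq (b := []) (by decide +kernel)
  · rw [← wd_append, ← wd_append]; exact wd_eq (by decide +kernel)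
  · rw [p]; exact wd_eq (b := []) (by decide +kernel)
  · rw [p]; exact wd_ne (k := 1) (by decide +kernel)

theorem k0 : K0 ⊤ z y n :=
  ⟨fr, fun _ _ => mem_top _, k_lift, fun m _ => k_cen m, fun m _ => k_cQ m, mem_top _, k_n2, k_nz, k_nE, k_gen, k_u9⟩

end Mod

theorem exists_K0 : ∃ (z : Om) (y : Fin 4 → F3 → Om) (n : Om), K0 ⊤ z y n := ⟨_, _, _, Mod.k0⟩

end CfsgLib.O83
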