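import Cfsg.Agent.Lib.O83.Rt1
import Cfsg.Agent.Lib.Tech.SylowIn

/-! Package NC: centralizers of root elements are not contained in `C(z)`.  See `plans/O83.md`. -/

set_option autoImplicit false
set_option linter.unusedSectionVars false

namespace CfsgLib.O83

open Subgroup CfsgLib.ExtraTwo CfsgLib.LargeExtra

variable {G : Type*} [Group G] {K : Subgroup G} {z n : G} {y : Fin 4 → F3 → G} {P : G → W}

theorem nc_perm : ∀ s : Equiv.Perm (Fin 4), (![1, -1, 0, 0] : Fin 4 → F3) (s⁻¹ 2) = 0 →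
    (![1, -1, 0, 0] : Fin 4 → F3) (s⁻¹ 3) = 0 → s * s = 1 := by decide +kernel

theorem nc_sg : ∀ (c : F2) (a : F3), (sg c * a = 0 → a = 0) ∧ (sg c * 1 = 1 → c = 0) := by decide

/-- a `3`-element centralizing a lift of `tr ![1, -1, 0, 0]` acts as a translation -/
theorem Cz.nc_tr (h : Cz z y P) {x u : G} (hx : x * z = z * x) (hu : u * z = z * u) (e : P u = tr ![1, -1, 0, 0])
    (c : x * u = u * x) {k : ℕ} (hk : x ^ 3 ^ k = 1) : P x = tr (P x).x := by
  have h1 := h.P_conj hx hu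
  rw [c, mul_inv_cancel_right, e, conj_tr] at h1
  have h2 := fun i => (congrFun (tr_inj h1) i).symm
  have h3 := nc_perm _ ((nc_sg _ _).1 (h2 2)) ((nc_sg _ _).1 (h2 3))
  have h4 : (P x).s ^ 3 ^ k = 1 := by
    have := congrArg W.sHom (h.P_pow hx (3 ^ k))
    rw [hk, h.P_one, map_one, map_pow] at this
    exact this.symm
  obtain ⟨m, hm⟩ := Odd.pow (n := k) (show Odd 3 by decide)
  rw [hm, pow_succ, pow_mul, pow_two, h3, one_pow, one_mul] at h4
  have h5 := h2 0
  rw [h4] at h5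
  exact eq_tr h4 fun i => (h.sgn x hx h4 i).trans ((nc_sg _ 0).2 h5)

theorem CF.nc_rho [Finite G] (h : CF z y P) {u : G} (h3 : u ^ 3 = 1) (hu : u * z = z * u)
    (e : P u = tr ![1, -1, 0, 0]) : ∃ ρ : Fin 4 → G,
      (∀ i, ρ i * z = z * ρ i ∧ ρ i ^ 3 = 1 ∧ P (ρ i) = tr (Pi.single i 1)) ∧ u = ρ 0 * (ρ 1)⁻¹ := by
  have hz := h.toCe.toCz
  choose ρ h1 h2 h4 using fun i => h.exists_three (Pi.single i 1)
  have c : Commute (ρ 0) (ρ 1) :=
    Rt.comm ⟨h1 0, h2 0, Or.inl (h4 0)⟩ hz ⟨h1 1, h2 1, Or.inl (h4 1)⟩ (by decide)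
  have z1 : Commute (ρ 1)⁻¹ z := Commute.inv_left (h1 1)
  obtain ⟨q, hq, k⟩ := hz.conj_three (Commute.mul_left (h1 0) z1) hu
    (by rw [c.inv_right.mul_pow, inv_pow, h2, h2, inv_one, mul_one]) h3 (by
      rw [hz.P_mul (h1 0) z1, hz.P_inv (h1 1), h4, h4, e, ← tr_neg, ← tr_add]
      congr 1
      decide)
  have qz : Commute q z := hz.fr.Q_comm_z hq
  refine ⟨fun i => q * ρ i * q⁻¹, fun i => ⟨(qz.mul_left (h1 i)).mul_left qz.inv_left, ?_, ?_⟩, ?_⟩
  · rw [conj_pow, h2, mul_one, mul_inv_cancel]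
  · rw [hz.P_conj qz (h1 i), hz.P_Q hq, h4, one_mul, inv_one, mul_one]
  · rw [← k]; group

theorem K0.cb [Finite G] (hK : K0 K z y n) (h : CF z y P) : CB z y P := by
  have hz := h.toCe.toCz
  refine ⟨h, fun i r hr => ?_⟩
  by_contra! H
  have H' : ∀ k r', Rt z P k r' → ∀ g, Commute g r' → g * z = z * g := fun k r' hr' g c => by
    obtain ⟨m, hm, e⟩ := hr.exists_conj hz hr'
    have c1 : Commute g (m * r * m⁻¹) := by
      rcases e with e | e <;> rw [e]
      exacts [c, c.inv_right]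
    have := H (m⁻¹ * g * m) (by simpa [mul_assoc] using (c1.conj m⁻¹).eq)
    calc g * z = m * (m⁻¹ * g * m * z) * m⁻¹ := by rw [mul_assoc _ m, hm]; group
      _ = _ := by rw [this, ← mul_assoc, hm]; group
  obtain ⟨u, -, g, -, u3, hu, gu, g9, g3⟩ := hK.u9
  have uz := hz.fr.act_comm_z hu
  obtain ⟨ρ, hρ, eu⟩ := h.nc_rho u3 uz (hz.eq_of_act hu)
  have rt : ∀ i, Rt z P i (ρ i) := fun i => ⟨(hρ i).1, (hρ i).2.1, Or.inl (hρ i).2.2⟩
  have le : ∀ {x}, (∀ i, Commute (ρ i) x) → ∀ e ∈ closure (Set.range ρ), Commute e x := fun c e he =>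
    mem_centralizer_singleton_iff.1 ((closure_le (centralizer {_})).2
      (by rintro _ ⟨i, rfl⟩; exact mem_centralizer_singleton_iff.2 (c i)) he)
  have e1 : ∀ e ∈ closure (Set.range ρ), ∀ e' ∈ closure (Set.range ρ), Commute e e' := fun e he e' he' =>
    le (fun i => (le (fun k => by
      by_cases hk : k = i
      exacts [hk ▸ Commute.refl _, (rt k).comm hz (rt i) hk]) e' he').symm) e he
  have e2 : ∀ e ∈ closure (Set.range ρ), e ^ 3 = 1 := fun e he => by
    induction he using closure_induction with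
    | mem x hx => obtain ⟨i, rfl⟩ := hx; exact (hρ i).2.1
    | one => exact one_pow _
    | mul a b ha hb h1 h2 => rw [(e1 a ha b hb).mul_pow, h1, h2, mul_one]
    | inv a _ h1 => rw [inv_pow, h1, inv_one]
  have e3 : ∀ e ∈ closure (Set.range ρ), e * z = z * e := le fun i => (hρ i).1
  have m0 : ∀ i, ρ i ∈ closure (Set.range ρ) := fun i => subset_closure ⟨i, rfl⟩
  have e4 : ∀ a, ∃ e ∈ closure (Set.range ρ), P e = tr a := fun a => by
    have add : ∀ {a b}, (∃ e ∈ closure (Set.range ρ), P e = tr a) → (∃ e ∈ closure (Set.range ρ), P e = tr b) →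
        ∃ e ∈ closure (Set.range ρ), P e = tr (a + b) := fun ⟨e, he, k⟩ ⟨e', he', k'⟩ =>
      ⟨e * e', mul_mem he he', by rw [hz.P_mul (e3 e he) (e3 e' he'), k, k', tr_add]⟩
    have one : ∀ i c, ∃ e ∈ closure (Set.range ρ), P e = tr (Pi.single i c) := fun i c => by
      have k : ∃ e ∈ closure (Set.range ρ), P e = tr (Pi.single i 1) := ⟨_, m0 i, (hρ i).2.2⟩
      rcases f3_cases c with rfl | rfl | rfl
      · exact ⟨1, one_mem _, by rw [hz.P_one, Pi.single_zero, tr_zero]⟩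
      · exact k
      · have := add k k
        rwa [← Pi.single_add, one_add_one_eq_two] at this
    have := add (add (add (one 0 (a 0)) (one 1 (a 1))) (one 2 (a 2))) (one 3 (a 3))
    rwa [← Fin.sum_univ_four fun i => Pi.single (M := fun _ => F3) i (a i), Finset.univ_sum_single] at this
  have um : u ∈ closure (Set.range ρ) := eu ▸ mul_mem (m0 0) (inv_mem (m0 1))
  generalize closure (Set.range ρ) = E at e1 e2 e3 e4 m0 um
  have : Fact (Nat.Prime 3) := ⟨Nat.prime_three⟩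
  obtain ⟨S, hS, hE⟩ := Tech.exists_isSylowIn_ge (p := 3) (Q := E) (H := centralizer {u})
    (Tech.isPGroup_iff_mem.2 fun x hx => ⟨1, e2 x hx⟩) fun x hx => mem_centralizer_singleton_iff.2 (e1 x hx u um)
  have hSE : E = S := by
    by_contra hne
    obtain ⟨x, hx, hxE, hn⟩ := Tech.exists_mem_normalizer_of_lt hS.pgroup (lt_of_le_of_ne hE hne)
    have c : ∀ e ∈ E, Commute (x * z * x⁻¹) e := fun e he => by
      simpa [mul_assoc] using (Commute.symm (e3 _ (Tech.conj_mem_of_mem_normalizer' hn he))).conj x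
    have tz := H' 0 _ (rt 0) _ (c _ (m0 0))
    have t1 := cent_A (w := P (x * z * x⁻¹)) fun a _ => by
      obtain ⟨e, he, k⟩ := e4 a
      rw [← k, ← hz.P_mul tz (e3 e he), ← hz.P_mul (e3 e he) tz, (c e he).eq]
    have t2 : (P (x * z * x⁻¹)).x = 0 := tr_two (k := 1) (by
      rw [← t1, ← hz.P_pow tz, conj_pow, pow_one, pow_two, hz.fr.zz, mul_one, mul_inv_cancel, hz.P_one])
    rw [t2, tr_zero, hz.P_eq_one tz] at t1
    have xz : x * z = z * x := by
      rcases (hz.fr.pi_eq_zero t1).1 (funext fun i => ((rt i).comm_Q hz t1).1 (c _ (m0 i)).symm) with k | k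
      · exact absurd (conj_eq_one_iff.1 k) hz.fr.z1
      · exact mul_inv_eq_iff_eq_mul.1 k
    obtain ⟨k, hk⟩ := Tech.isPGroup_iff_mem.1 hS.pgroup x hx
    have t3 := hz.nc_tr xz uz (hz.eq_of_act hu) (mem_centralizer_singleton_iff.1 (hS.le hx)) hk
    obtain ⟨e, he, k1⟩ := e4 (P x).x
    obtain ⟨l, hl⟩ := Tech.isPGroup_iff_mem.1 hS.pgroup _ (mul_mem (inv_mem (hE he)) hx)
    have := pow_gcd_eq_one.2 ⟨hz.fr.es.pow_four (hz.mem_of_eq (e3 e he) xz (k1.trans t3.symm)), hl⟩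
    rw [Nat.Coprime.pow_right l (show Nat.Coprime 4 3 by decide), pow_one, inv_mul_eq_one] at this
    exact hxE (this ▸ he)
  obtain ⟨c, -, hc⟩ := hS.exists_conj_mem (mem_centralizer_singleton_iff.2 gu)
    (Tech.isPGroup_zpowers_of_pow (k := 2) g9)
  have := e2 _ (hSE ▸ hc)
  rw [conj_pow, conj_eq_one_iff] at this
  exact g3 this

end CfsgLib.O83
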