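import Cfsg.Agent.Lib.O83.Sy

/-! Package RED: `Q` is a large subgroup.  See `plans/O83.md`. -/

set_option autoImplicit false
set_option linter.unusedSectionVars false

namespace CfsgLib.O83

open Subgroup CfsgLib.ExtraTwo CfsgLib.LargeExtra CfsgLib.Tech

variable {G : Type*} [Group G] {K : Subgroup G} {z n : G} {y : Fin 4 → F3 → G} {P : G → W}

namespace RedX

theorem act_two (h : Fr z y) {m : G} {b : Fin 4 → F3} (hm : Act z y m (tr b)) {k : ℕ} (e : m ^ 2 ^ k = 1) : b = 0 := by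
  have h1 := h.act_pow hm (2 ^ k)
  rw [e] at h1
  exact tr_two (h.act_unique h1 (h.act_of_mem (one_mem _)))

variable (hK : K0 K z y n) {R : Subgroup G} (hp : IsPGroup 2 R) (hz : ∀ m ∈ R, m * z = z * m)
  (hc : ∀ g, g * z = z * g → ∀ x ∈ R, g * x * g⁻¹ ∈ R)
include hK hp hz hc

theorem inf_le {m : G} (hm : m ∈ R) (hmK : m ∈ K) : m ∈ QQ y := by
  obtain ⟨w, -, hw⟩ := hK.cen m hmK (hz m hm)
  have h1 : w = tr w.x := cent_A fun a ha => by
    obtain ⟨d, -, hd⟩ := hK.lift _ (tr_mem_Yg ha)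
    have h2 := hK.fr.act_mul (hK.fr.act_mul (hK.fr.act_mul hd hw) (hK.fr.act_inv hd)) (hK.fr.act_inv hw)
    obtain ⟨b, hb⟩ : ∃ b, tr a * w * (tr a)⁻¹ * w⁻¹ = tr b :=
      ⟨_, by rw [mul_assoc, mul_assoc, ← mul_assoc w, ← tr_neg, conj_tr, ← tr_add]⟩
    obtain ⟨k, hk⟩ := isPGroup_iff_mem.1 hp _ (mul_mem (hc d (hK.fr.act_comm_z hd) m hm) (inv_mem hm))
    rw [hb] at h2
    rw [act_two hK.fr h2 hk, tr_zero, mul_inv_eq_one, mul_inv_eq_iff_eq_mul] at hb
    exact hb.symm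
  obtain ⟨k, hk⟩ := isPGroup_iff_mem.1 hp _ hm
  rw [h1] at hw
  rw [act_two hK.fr hw hk, tr_zero] at hw
  exact hK.mem_Q_of_act hmK hw

theorem Q_le (hN : R ≤ normalizer (K : Set G)) (hzR : z ∈ R)
    (hcent : ∀ g, g * z = z * g → (∀ x ∈ R, x * g = g * x) → g ∈ R) : QQ y ≤ R := by
  by_cases h : ∃ x ∈ QQ y, x ∈ R ∧ pi z y x ≠ 0
  · obtain ⟨x₀, h1, h2, h3⟩ := h
    intro x hx
    obtain ⟨x', k1, k2, k3⟩ := irr (U := fun v => ∃ x ∈ QQ y, x ∈ R ∧ pi z y x = v)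
      (by
        rintro _ _ ⟨a, a1, a2, rfl⟩ ⟨b, b1, b2, rfl⟩
        exact ⟨a * b, mul_mem a1 b1, mul_mem a2 b2, hK.fr.pi_mul a1 b1⟩)
      (by
        rintro w hw _ ⟨a, a1, a2, rfl⟩
        obtain ⟨d, -, hd⟩ := hK.lift w hw
        exact ⟨_, hK.fr.act_conj_mem hd a1, hc d (hK.fr.act_comm_z hd) a a2, hK.fr.act_pi_conj hd a1⟩)
      ⟨x₀, h1, h2, rfl⟩ h3 (pi z y x)
    rcases (hK.fr.pi_eq_iff hx k1).1 k3.symm with rfl | rfl
    exacts [k2, mul_mem k2 hzR]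
  · exfalso
    push Not at h
    obtain ⟨u, hu, -, -, h3, ha, -⟩ := hK.u9
    have huz := hK.fr.act_comm_z ha
    have h1 : u ∈ R := hcent u huz fun x hx => by
      have k1 : u * x * u⁻¹ * x⁻¹ ∈ R := mul_mem (hc u huz x hx) (inv_mem hx)
      have k2 : u * x * u⁻¹ * x⁻¹ ∈ QQ y := inf_le hK hp hz hc k1 (by
        rw [mul_assoc, mul_assoc, ← mul_assoc x]
        exact mul_mem hu (conj_mem_of_mem_normalizer (hN hx) (inv_mem hu)))
      rcases (hK.fr.pi_eq_zero k2).1 (h _ k2 k1) with e | e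
      · rw [mul_inv_eq_one, mul_inv_eq_iff_eq_mul] at e; exact e.symm
      · rw [mul_inv_eq_iff_eq_mul, mul_inv_eq_iff_eq_mul] at e
        refine absurd ?_ hK.fr.z1
        have e2 : u * u * x = x * (u * u) := by
          calc u * u * x = u * z * x * u := by rw [mul_assoc, e]; group
            _ = z * (u * x) * u := by rw [huz]; group
            _ = z * z * (x * (u * u)) := by rw [e]; group
            _ = _ := by rw [hK.fr.zz, one_mul]
        have e3 : u * x = x * u := by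
          have : u = (u * u)⁻¹ := by rw [eq_inv_iff_mul_eq_one, ← h3, pow_three]
          rw [this]; exact (show Commute (u * u) x from e2).inv_left
        rw [e3, mul_assoc] at e
        exact right_eq_mul.1 e
    obtain ⟨k, hk⟩ := isPGroup_iff_mem.1 hp _ h1
    exact absurd (congrFun (act_two hK.fr ha hk) 0) (by decide)

theorem act_one [Finite G] (hN : R ≤ normalizer (K : Set G)) (hQ : QQ y ≤ R) {m : G} (hm : m ∈ R) : Act z y m 1 := by
  have hn : ∀ m ∈ R, ∀ x ∈ QQ y, m * x * m⁻¹ ∈ QQ y := fun m hm x hx =>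
    inf_le hK hp hz hc (mul_mem (mul_mem hm (hQ hx)) (inv_mem hm)) (conj_mem_of_mem_normalizer (hN hm) (hK.Q_le hx))
  have hπ : ∀ m ∈ R, ∀ x ∈ QQ y, ∀ x' ∈ QQ y, pi z y x = pi z y x' →
      pi z y (m * x * m⁻¹) = pi z y (m * x' * m⁻¹) := fun m hm x hx x' hx' e => by
    rcases (hK.fr.pi_eq_iff hx hx').1 e with rfl | rfl
    · rfl
    · rw [← hK.fr.pi_mul_z (hn m hm x' hx')]
      congr 1
      rw [mul_assoc (m * x'), (show Commute m z from hz m hm).inv_left.eq]; group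
  let _ : MulAction R V :=
    { smul := fun m v => pi z y (m * sec y v * (m : G)⁻¹)
      one_smul := fun v => by
        show pi z y (1 * sec y v * 1⁻¹) = v
        rw [inv_one, one_mul, mul_one, hK.fr.pi_sec]
      mul_smul := fun a b v => by
        show pi z y (a * b * sec y v * ((a : G) * b)⁻¹) = pi z y (a * sec y (pi z y (b * sec y v * (b : G)⁻¹)) * (a : G)⁻¹)
        rw [hπ a a.2 _ (sec_mem y _) _ (hn b b.2 _ (sec_mem y v)) (hK.fr.pi_sec _)]
        congr 1; group }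
  obtain ⟨v, hv, h0⟩ := hp.exists_fixed_point_of_prime_dvd_card_of_fixed_point V
    (by simp [Nat.card_eq_fintype_card]) (a := 0) fun a => by
      show pi z y (a * sec y 0 * (a : G)⁻¹) = 0
      rw [hπ a a.2 _ (sec_mem y _) 1 (one_mem _) (by rw [hK.fr.pi_sec, hK.fr.pi_one]), mul_one, mul_inv_cancel,
        hK.fr.pi_one]
  refine hK.fr.act_of_pi (fun i j => hn m hm _ (y_mem y i j)) fun i j => ?_
  obtain ⟨x, k1, k2, k3⟩ := irr (U := fun v => ∃ x ∈ QQ y, pi z y x = v ∧ ∀ m ∈ R, pi z y (m * x * m⁻¹) = pi z y x)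
    (by
      rintro _ _ ⟨a, a1, rfl, a2⟩ ⟨b, b1, rfl, b2⟩
      refine ⟨a * b, mul_mem a1 b1, hK.fr.pi_mul a1 b1, fun m hm => ?_⟩
      rw [hK.fr.pi_mul a1 b1, ← a2 m hm, ← b2 m hm, ← hK.fr.pi_mul (hn m hm a a1) (hn m hm b b1)]
      congr 1; group)
    (by
      rintro w hw _ ⟨a, a1, rfl, a2⟩
      obtain ⟨d, -, hd⟩ := hK.lift w hw
      refine ⟨_, hK.fr.act_conj_mem hd a1, hK.fr.act_pi_conj hd a1, fun m hm => ?_⟩
      have k := hc _ (hK.fr.act_comm_z (hK.fr.act_inv hd)) m hm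
      rw [hK.fr.act_pi_conj hd a1, ← a2 _ k, ← hK.fr.act_pi_conj hd (hn _ k a a1)]
      congr 1; group)
    ⟨sec y v, sec_mem y v, hK.fr.pi_sec v, fun m hm => (hv ⟨m, hm⟩).trans (hK.fr.pi_sec v).symm⟩ h0.symm (ev i j)
  rw [W.j_one, ← hπ m hm x k1 _ (y_mem y i j) (k2.trans (hK.fr.pi_y i j).symm), k3 m hm, k2]
  rfl

end RedX

theorem KS.pre [Finite G] (hK : KS K z y n) (hodd : ¬ 2 ∣ (normalizer (K : Set G)).index)
    (hG : Cfsg.IsOfParabolicCharacteristic 2 G) (hC : ∀ c : G, (∀ k ∈ K, c * k = k * c) → c = 1) :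
    Pre (QQ y) z := by
  obtain ⟨T, hTN, hQT, hTz⟩ := hK.toK0.exists_T hodd
  have hN : ∀ g, g ∈ normalizer (zpowers z : Set G) ↔ g * z = z * g := fun g => by
    refine ⟨fun h => ?_, fun h => mem_normalizer_of_forall fun x hx => ?_⟩
    · rcases hK.fr.es.mem_zpowers.1 (conj_mem_of_mem_normalizer h (mem_zpowers z)) with e | e
      · exact absurd (by simpa using e) hK.fr.z1
      · exact comm_of_conj_eq e
    · rcases hK.fr.es.mem_zpowers.1 hx with rfl | rfl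
      · simp
      · rw [h, mul_inv_cancel_right]; exact mem_zpowers _
  have hTN' : (T : Subgroup G) ≤ normalizer (zpowers z : Set G) := fun g hg => (hN g).2 (hTz g hg)
  have h1 := hG (zpowers z) (isPGroup_two_zpowers hK.fr.zz) (by simpa using hK.fr.z1) ⟨T, hTN'⟩
  set N := normalizer (zpowers z : Set G)
  set R : Subgroup G := (Cfsg.pCore 2 N).map N.subtype
  have hp : IsPGroup 2 R := (Core.isPGroup_pCore 2 N).map _
  have hz : ∀ m ∈ R, m * z = z * m := fun m hm => (hN m).1 (map_subtype_le _ hm)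
  have hc : ∀ g, g * z = z * g → ∀ x ∈ R, g * x * g⁻¹ ∈ R := by
    rintro g hg _ ⟨x, hx, rfl⟩
    exact ⟨_, (Cfsg.pCore_normal 2 N).conj_mem x hx ⟨g, (hN g).2 hg⟩, rfl⟩
  have hcent : ∀ g, g * z = z * g → (∀ x ∈ R, x * g = g * x) → g ∈ R := fun g hg h =>
    ⟨⟨g, (hN g).2 hg⟩, h1 fun x hx => Subtype.ext (h x ⟨x, hx, rfl⟩), rfl⟩
  have hRN : R ≤ normalizer (K : Set G) := ((IsSylowIn.of_sylow T hTN').le_of_le_normalizer hp (map_subtype_le _)
    fun g hg => mem_normalizer_of_forall (hc g ((hN g).1 hg))).trans hTN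
  have hQ := RedX.Q_le hK.toK0 hp hz hc hRN (hcent z rfl hz) hcent
  have hR : R ≤ QQ y := fun m hm => by
    obtain ⟨q, hq, e⟩ := hK.fr.exists_inner (RedX.act_one hK.toK0 hp hz hc hRN hQ hm)
    rcases hK.aut (q⁻¹ * m) (mul_mem (inv_mem (le_normalizer (hK.toK0.Q_le hq))) (hRN hm)) fun x hx => by
        calc x * (q⁻¹ * m) = q⁻¹ * (q * x * q⁻¹) * m := by group
          _ = _ := by rw [← e x hx]; group with h | h
    · rw [← inv_mul_eq_one.1 (hC _ h)]; exact hq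
    · have := hC _ h
      rw [mul_eq_one_iff_eq_inv, inv_mul_eq_iff_eq_mul] at this
      rw [this]; exact mul_mem hq (inv_mem hK.fr.z_mem)
  refine ⟨hK.fr.es, fun g hg => hK.cQ g (hK.toK0.Q_le (hR (hcent g (hg z hK.fr.z_mem).symm fun x hx => hg x (hR hx)))) hg,
    fun g hg x hx => hR (hc g hg x (hQ hx))⟩

end CfsgLib.O83
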