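import Cfsg.Agent.Lib.O83.Fr2
import Cfsg.Agent.Lib.FsU.Base

/-! Package RT1: root elements.  See `plans/O83.md`. -/

set_option autoImplicit false
set_option linter.unusedSectionVars false

namespace CfsgLib.O83

open Subgroup CfsgLib.ExtraTwo CfsgLib.LargeExtra

variable {G : Type*} [Group G] {K : Subgroup G} {z n : G} {y : Fin 4 → F3 → G} {P : G → W}

variable {i k : Fin 4} {r r' m x : G}

theorem rt1_mul {a b : G} (ha : a * z = z * a) (hb : b * z = z * b) : a * b * z = z * (a * b) :=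
  ((show Commute a z from ha).mul_left hb).eq

theorem rt1_inv {a : G} (ha : a * z = z * a) : a⁻¹ * z = z * a⁻¹ :=
  (show Commute a z from ha).inv_left.eq

theorem rt1_conj {a b : G} (ha : a * z = z * a) (hb : b * z = z * b) :
    a * b * a⁻¹ * z = z * (a * b * a⁻¹) := rt1_mul (rt1_mul ha hb) (rt1_inv ha)

theorem rt1_cube (a : G) {b : G} (hb : b ^ 3 = 1) : (a * b * a⁻¹) ^ 3 = 1 := by
  rw [conj_pow, hb, mul_one, mul_inv_cancel]

theorem CF.exists_three (h : CF z y P) (a : Fin 4 → F3) : ∃ r, r * z = z * r ∧ r ^ 3 = 1 ∧ P r = tr a := by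
  obtain ⟨m, hm, e⟩ := h.full a
  obtain ⟨h1, h2⟩ := h.toCe.toCz.exists_three hm e
  exact ⟨m ^ 4, ((show Commute m z from hm).pow_left 4).eq, h2, h1⟩

theorem Cz.eq_of_conj (h : Cz z y P) (hz' : r' * z = z * r') (h3 : r ^ 3 = 1) (h3' : r' ^ 3 = 1)
    (e : ∀ x ∈ QQ y, r * x * r⁻¹ = r' * x * r'⁻¹) : r = r' := by
  rcases h.cent (r'⁻¹ * r) (fun q hq => by
    calc q * (r'⁻¹ * r) = r'⁻¹ * (r' * q * r'⁻¹) * r := by group
      _ = r'⁻¹ * r * q := by rw [← e q hq]; group) with h1 | h1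
  · exact (inv_mul_eq_one.1 h1).symm
  · rw [inv_mul_eq_iff_eq_mul] at h1
    rw [h1, (show Commute r' z from hz').mul_pow, h3', one_mul, pow_three', h.fr.zz, one_mul] at h3
    exact (h.fr.z1 h3).elim

theorem Cz.conj_three [Finite G] (h : Cz z y P) (hz : r * z = z * r) (hz' : r' * z = z * r') (h3 : r ^ 3 = 1)
    (h3' : r' ^ 3 = 1) (e : P r = P r') : ∃ q ∈ QQ y, q * r * q⁻¹ = r' := by
  have : Fact (Nat.Prime 3) := ⟨Nat.prime_three⟩
  have hR := h.fr.es.isPGroup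
  have hn : r ∈ FsU.NN (QQ y) := Tech.mem_normalizer_of_forall fun w hw =>
    h.fr.act_conj_mem (h.act r hz) hw
  have hx1 : r ^ 3 ^ 1 = 1 := h3
  have hy1 : r' ^ 3 ^ 1 = 1 := h3'
  have hS : Tech.IsSylowIn 3 (zpowers r) (QQ y ⊔ zpowers r) := by
    refine Tech.isSylowIn_of_maximal (Tech.isPGroup_zpowers_of_pow hx1) le_sup_right
      fun T hT h1 h2 g hg => ?_
    obtain ⟨n, hn', k, e⟩ := FsU.ba_mem_sup hn (h2 hg)
    have h3 : n ∈ T := by
      have := T.mul_mem hg (T.inv_mem (T.pow_mem (h1 (mem_zpowers r)) k))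
      rwa [e, mul_inv_cancel_right] at this
    obtain ⟨a, ha⟩ := Tech.isPGroup_iff_mem.1 hT n h3
    obtain ⟨b, hb⟩ := Tech.isPGroup_iff_mem.1 hR n hn'
    rw [e, FsU.ba_eq_one Nat.prime_three Nat.prime_two (by decide) ha hb, one_mul]
    exact pow_mem (mem_zpowers r) k
  have hyE : r' ∈ QQ y ⊔ zpowers r := by
    have := mul_mem (mem_sup_right (mem_zpowers r) : r ∈ QQ y ⊔ zpowers r)
      (mem_sup_left (h.mem_of_eq hz hz' e))
    rwa [mul_inv_cancel_left] at this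
  obtain ⟨g, hg, e1⟩ := hS.exists_conj_mem hyE (Tech.isPGroup_zpowers_of_pow hy1)
  obtain ⟨j, hj⟩ := mem_powers_iff_mem_zpowers.2 e1
  obtain ⟨q, hq, k, e'⟩ := FsU.ba_mem_sup hn (inv_mem hg)
  have h4 : r' = q * r ^ j * q⁻¹ := by
    calc r' = g⁻¹ * (g * r' * g⁻¹) * g⁻¹⁻¹ := by group
      _ = _ := by rw [← hj, e']; group
  have hqz := h.fr.es.comm_z q hq
  have hjz : r ^ j * z = z * r ^ j := ((show Commute r z from hz).pow_left j).eq
  have h5 : P r = P (r ^ j) := by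
    rw [e, h4, h.P_conj hqz hjz, h.P_Q hq]; group
  obtain ⟨a, ha⟩ := Tech.isPGroup_iff_mem.1 hS.pgroup _
    (mul_mem (inv_mem (mem_zpowers r)) (pow_mem (mem_zpowers r) j))
  obtain ⟨b, hb⟩ := Tech.isPGroup_iff_mem.1 hR _ (h.mem_of_eq hz hjz h5)
  have h6 := FsU.ba_eq_one Nat.prime_three Nat.prime_two (by decide) ha hb
  rw [inv_mul_eq_one] at h6
  exact ⟨q, hq, by rw [h4, ← h6]⟩

namespace Rt

variable (hr : Rt z P i r) (h : Cz z y P)
include hr h

omit h in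
theorem ex : ∃ c : F3, c ≠ 0 ∧ P r = tr (Pi.single i c) := by
  rcases hr.2.2 with e | e
  · exact ⟨1, by decide, e⟩
  · exact ⟨-1, by decide, e⟩

omit hr h in
theorem of_ex (hz : r * z = z * r) (h3 : r ^ 3 = 1) {c : F3} (hc : c ≠ 0)
    (e : P r = tr (Pi.single i c)) : Rt z P i r := by
  refine ⟨hz, h3, ?_⟩
  rcases (by decide : ∀ c : F3, c ≠ 0 → c = 1 ∨ c = -1) c hc with rfl | rfl
  · exact .inl e
  · exact .inr e

omit h in
theorem P_s : (P r).s = 1 := by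
  obtain ⟨c, -, e⟩ := hr.ex
  rw [e, tr_s]

theorem inv : Rt z P i r⁻¹ := by
  refine ⟨rt1_inv hr.1, by rw [inv_pow, hr.2.1, inv_one], ?_⟩
  rw [h.P_inv hr.1]
  rcases hr.2.2 with e | e
  · right; rw [e, ← tr_neg, ← Pi.single_neg]
  · left; rw [e, ← tr_neg, ← Pi.single_neg, neg_neg]

theorem ne_one : r ≠ 1 := by
  rintro rfl
  obtain ⟨c, hc, e⟩ := hr.ex
  rw [h.P_one, ← tr_zero] at e
  have := congrFun (tr_inj e) i
  simp only [Pi.zero_apply, Pi.single_eq_same] at this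
  exact hc this.symm

theorem conj (hm : m * z = z * m) : Rt z P ((P m).s i) (m * r * m⁻¹) := by
  obtain ⟨c, hc, e⟩ := hr.ex
  refine of_ex (rt1_conj hm hr.1) (rt1_cube m hr.2.1) (c := sg ((P m).e i) * c)
    ((by decide : ∀ (a : F2) (c : F3), c ≠ 0 → sg a * c ≠ 0) _ c hc) ?_
  rw [h.P_conj hm hr.1, e, conj_tr]
  congr 1
  funext k
  obtain ⟨l, rfl⟩ := (P m).s.surjective k
  rw [show (P m).s⁻¹ ((P m).s l) = l from (P m).s.symm_apply_apply l]
  by_cases hl : l = i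
  · rw [hl, Pi.single_eq_same, Pi.single_eq_same]
  · rw [Pi.single_eq_of_ne hl, Pi.single_eq_of_ne ((P m).s.injective.ne hl), mul_zero]

theorem comm_Q (hx : x ∈ QQ y) : r * x = x * r ↔ pi z y x i = 0 := by
  obtain ⟨c, hc, e⟩ := hr.ex
  constructor
  · intro e1
    have h1 := h.pi_conj hr.1 hx
    rw [e1, mul_inv_cancel_right, e] at h1
    rcases (fix_tr _ _).1 h1.symm i with h2 | h2
    · rw [Pi.single_eq_same] at h2
      exact (hc h2).elim
    · exact h2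
  · intro e1
    refine h.fr.comm_of_odd (h.act r hr.1) (by decide : Odd 3) hr.2.1 hx ?_
    rw [e, fix_tr]
    intro k
    by_cases hk : k = i
    · right; rw [hk, e1]
    · left; exact Pi.single_eq_of_ne hk _

theorem comm (hr' : Rt z P k r') (hik : i ≠ k) : r * r' = r' * r := by
  have h1 := hr.conj h hr'.1
  rw [hr'.P_s, Equiv.Perm.one_apply] at h1
  have h2 := h.eq_of_conj hr.1 h1.2.1 hr.2.1 (h.fr.Q_ind (fun l j => ?_) fun a _ b _ ha hb => by
    calc r' * r * r'⁻¹ * (a * b) * (r' * r * r'⁻¹)⁻¹ = r' * r * r'⁻¹ * a * (r' * r * r'⁻¹)⁻¹ *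
          (r' * r * r'⁻¹ * b * (r' * r * r'⁻¹)⁻¹) := by group
      _ = r * (a * b) * r⁻¹ := by rw [ha, hb]; group)
  · calc r * r' = r' * r * r'⁻¹ * r' := by rw [h2]
      _ = r' * r := by group
  · by_cases hl : l = i
    · subst hl
      have h3 := (hr'.comm_Q h (y_mem y l j)).2 (by rw [h.fr.pi_y, ev_ne hik.symm])
      have h4 := (hr'.comm_Q h (h.fr.act_conj_mem (h.act r hr.1) (y_mem y l j))).2 (by
        rw [h.pi_conj hr.1 (y_mem y l j), h.fr.pi_y, rW_ev, hr.P_s, Equiv.Perm.one_apply,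
          ev_ne hik.symm])
      calc r' * r * r'⁻¹ * y l j * (r' * r * r'⁻¹)⁻¹
          = r' * r * r'⁻¹ * (y l j * r') * r⁻¹ * r'⁻¹ := by group
        _ = r' * (r * y l j * r⁻¹) * r'⁻¹ := by rw [← h3]; group
        _ = r * y l j * r⁻¹ := by rw [h4]; group
    · have h5 : pi z y (y l j) i = 0 := by rw [h.fr.pi_y, ev_ne (Ne.symm hl)]
      rw [(h1.comm_Q h (y_mem y l j)).2 h5, (hr.comm_Q h (y_mem y l j)).2 h5]
      group

theorem conj_Q [Finite G] (hr' : Rt z P i r') (e : P r = P r') : r' = r ∨ ∃ j, r' = y i j * r * (y i j)⁻¹ := by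
  obtain ⟨q, hq, e1⟩ := h.conj_three hr.1 hr'.1 hr.2.1 hr'.2.1 e
  rcases e3_cases (pi z y q i) with h1 | ⟨j, h1⟩
  · left
    rw [← e1, ← (hr.comm_Q h hq).2 h1, mul_inv_cancel_right]
  · right
    refine ⟨j, ?_⟩
    have h2 := (hr.comm_Q h (mul_mem (inv_mem (y_mem y i j)) hq)).2 (by
      rw [h.fr.pi_mul (inv_mem (y_mem y i j)) hq, h.fr.pi_inv (y_mem y i j), h.fr.pi_y,
        Pi.add_apply, ev_self, h1]
      generalize e3 j = p
      revert p; decide)
    calc r' = y i j * ((y i j)⁻¹ * q * r) * q⁻¹ := by rw [← e1]; group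
      _ = _ := by rw [← h2]; group

theorem P_cases (hr' : Rt z P i r') : P r' = P r ∨ P r'⁻¹ = P r := by
  have h1 := h.P_inv hr'.1
  rcases hr.2.2 with e | e <;> rcases hr'.2.2 with e' | e'
  · left; rw [e, e']
  · right; rw [h1, e, e', ← tr_neg, ← Pi.single_neg, neg_neg]
  · right; rw [h1, e, e', ← tr_neg, ← Pi.single_neg]
  · left; rw [e, e']

end Rt

/-- all root elements are conjugate, up to inversion, in the centralizer of `z` -/
theorem Rt.exists_conj [Finite G] (hr : Rt z P i r) (h : Cz z y P) (hr' : Rt z P k r') :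
    ∃ m, m * z = z * m ∧ (m * r * m⁻¹ = r' ∨ m * r * m⁻¹ = r'⁻¹) := by
  obtain ⟨s, hs, e⟩ := (by decide +kernel : ∀ i k : Fin 4, ∃ s, V4 s ∧ s i = k) i k
  obtain ⟨m, hm, e1⟩ := h.ysub _ (mk0_mem_Yg hs 0)
  have h1 := hr.conj h hm
  rw [e1, mk0_s, e] at h1
  rcases h1.P_cases h hr' with e2 | e2
  · obtain ⟨q, hq, e3⟩ := h.conj_three h1.1 hr'.1 h1.2.1 hr'.2.1 e2.symm
    exact ⟨q * m, rt1_mul (h.fr.es.comm_z q hq) hm, .inl (by rw [← e3]; group)⟩
  · have h2 := hr'.inv h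
    obtain ⟨q, hq, e3⟩ := h.conj_three h1.1 h2.1 h1.2.1 h2.2.1 e2.symm
    exact ⟨q * m, rt1_mul (h.fr.es.comm_z q hq) hm, .inr (by rw [← e3]; group)⟩

end CfsgLib.O83
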