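import Cfsg.Agent.Lib.O83.Fr2
import Cfsg.Agent.Lib.Tech.Invol

/-! Package SK: Sylow subgroups and involutions of `K`.  See `plans/O83.md`. -/

set_option autoImplicit false
set_option linter.unusedSectionVars false

namespace CfsgLib.O83

open Subgroup CfsgLib.ExtraTwo CfsgLib.LargeExtra CfsgLib.Tech

variable {G : Type*} [Group G] {K : Subgroup G} {z n : G} {y : Fin 4 → F3 → G} {P : G → W}

theorem SkX.v4_or : ∀ s : Equiv.Perm (Fin 4), Equiv.Perm.sign s = 1 → V4 s ∨ s ^ 3 = 1 := by decide +kernel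

theorem SkX.card_v4 : Nat.card ({s // V4 s} × F2) = 8 := by
  rw [Nat.card_eq_fintype_card]; decide +kernel

theorem Ce.two_le [Finite G] (h : Ce z y P) {R : Subgroup G} (hR : IsPGroup 2 R) (hz : ∀ m ∈ R, m * z = z * m) :
    Nat.card R ≤ 8 * Nat.card (R ⊓ QQ y : Subgroup G) := by
  have hP : ∀ m ∈ R, ∃ k, P m ^ 2 ^ k = 1 := fun m hm => by
    obtain ⟨k, hk⟩ := isPGroup_iff_mem.1 hR m hm
    exact ⟨k, by rw [← h.toCz.P_pow (hz m hm), hk, h.toCz.P_one]⟩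
  have hV : ∀ m ∈ R, V4 (P m).s := fun m hm => (SkX.v4_or _ (h.even m (hz m hm))).elim id fun h3 => by
    obtain ⟨k, hk⟩ := hP m hm
    have h2 : (P m).s ^ 2 ^ k = 1 := (map_pow W.sHom _ _).symm.trans (congrArg W.s hk)
    rw [orderOf_eq_one_iff.1 (Nat.eq_one_of_dvd_coprimes (Nat.Coprime.pow_left k (by norm_num : Nat.Coprime 2 3))
      (orderOf_dvd_of_pow_eq_one h2) (orderOf_dvd_of_pow_eq_one h3))]
    decide +kernel
  rw [card_eq_card_quotient_mul_card_subgroup ((R ⊓ QQ y).subgroupOf R),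
    Nat.card_congr (subgroupOfEquivOfLe inf_le_left).toEquiv, ← SkX.card_v4]
  refine Nat.mul_le_mul_right _ (Nat.card_le_card_of_injective
    (fun q => (⟨(P q.out).s, hV _ q.out.2⟩, (P q.out).e 0)) fun q q' e => ?_)
  rw [← q.out_eq, ← q'.out_eq]
  have e1 : (P q.out).s = (P q'.out).s := congrArg Subtype.val (Prod.mk.inj e).1
  have e2 : (P q.out).e 0 = (P q'.out).e 0 := (Prod.mk.inj e).2
  clear e
  generalize q.out = r at e1 e2
  generalize q'.out = r' at e1 e2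
  have hc : (r : G)⁻¹ * r' ∈ R := mul_mem (inv_mem r.2) r'.2
  refine QuotientGroup.eq.2 (mem_subgroupOf.2 ⟨hc, (h.toCz.P_eq_one (hz _ hc)).1 ?_⟩)
  have h1 : P ((r : G)⁻¹ * r') = (P r)⁻¹ * P r' := by
    rw [h.toCz.P_mul (hz _ (inv_mem r.2)) (hz _ r'.2), h.toCz.P_inv (hz _ r.2)]
  have h2 : (P ((r : G)⁻¹ * r')).s = 1 := by rw [h1, W.mul_s, W.inv_s, e1, inv_mul_cancel]
  have h3 := eq_tr h2 fun i => by
    rw [h.sgn _ (hz _ hc) h2, h1, W.mul_e, W.inv_e, ← e1, ← e2]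
    simp [CharTwo.add_self_eq_zero]
  obtain ⟨k, hk⟩ := hP _ hc
  rw [h3] at hk
  show P ((r : G)⁻¹ * r') = 1
  rw [h3, tr_two hk, tr_zero]

theorem Ce.index_odd [Finite G] (h : Ce z y P) (hK : 4096 ∣ Nat.card K) : ¬ 2 ∣ K.index := by
  intro h2
  obtain ⟨T, -, hT⟩ := h.toCz.pre.exists_sylow
  have h1 := h.two_le T.isPGroup' fun m hm => mem_cent.1 (hT hm)
  have h3 := card_le_of_le (inf_le_right : (T : Subgroup G) ⊓ QQ y ≤ QQ y)
  rw [h.fr.card] at h3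
  have h4 : 2 ^ 13 ∣ Nat.card G := by
    rw [← K.card_mul_index]; exact Nat.mul_dvd_mul hK h2
  have h5 := Nat.le_of_dvd Nat.card_pos (T.pow_dvd_card_of_pow_dvd_card h4)
  omega

/-- an involution normalizing a subgroup of odd index lies in it -/
theorem mem_of_index_odd [Finite G] {M : Subgroup G} (hM : ¬ 2 ∣ M.index) {x : G} (h2 : x * x = 1)
    (hx : x ∈ normalizer (M : Set G)) : x ∈ M := by
  obtain ⟨S, hS⟩ := exists_isSylowIn 2 M
  obtain ⟨g, hg, h⟩ := ((hS.trans le_top (by rwa [relIndex_top_right])).of_le (hS.le.trans le_normalizer)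
    le_top).exists_conj_mem hx (isPGroup_two_zpowers h2)
  simpa [mul_assoc] using conj_mem_of_mem_normalizer' hg (hS.le h)

/-- an involution of an overgroup of a subgroup of odd index is conjugate into it -/
theorem conj_into_of_index_odd [Finite G] {M : Subgroup G} (hK : ¬ 2 ∣ K.index) (hKM : K ≤ M) {x : G}
    (h2 : x * x = 1) (hx : x ∈ M) : ∃ g ∈ M, g * x * g⁻¹ ∈ K := by
  obtain ⟨S, hS⟩ := exists_isSylowIn 2 K
  obtain ⟨g, hg, h⟩ := ((hS.trans le_top (by rwa [relIndex_top_right])).of_le (hS.le.trans hKM)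
    le_top).exists_conj_mem hx (isPGroup_two_zpowers h2)
  exact ⟨g, hg, hS.le h⟩

theorem K0.into [Finite G] (hK : K0 K z y n) {x : G} (hx : x ∈ K) (h2 : x * x = 1) :
    ∃ k ∈ K, k * x * k⁻¹ ∈ QQ y := by
  obtain ⟨S, hS, hQ⟩ := exists_isSylowIn_ge hK.fr.es.isPGroup hK.Q_le
  obtain ⟨c, hc, c2, c3⟩ := exists_mem_center_of_normalized hS.pgroup le_rfl le_normalizer
    (fun e => hK.fr.z1 (mem_bot.1 (e ▸ hQ hK.fr.z_mem)))
  have hz : ∀ t ∈ S, t * z = z * t := by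
    rcases hK.cQ c (hS.le hc) fun q hq => c3 q (hQ hq) with rfl | rfl
    · simp at c2
    · exact c3
  obtain ⟨g, hg, h1⟩ := hS.exists_conj_mem hx (isPGroup_two_zpowers h2)
  obtain ⟨w, hw, h3⟩ := hK.cen _ (hS.le h1) (hz _ h1)
  have h4 : ∀ k : G, k * x * k⁻¹ * (k * x * k⁻¹) = 1 := fun k => by rw [conj_mul, h2]; simp
  obtain ⟨b, hb, h5⟩ := invol_Yg hw (hK.fr.act_unique (hK.fr.act_mul h3 h3) (h4 g ▸ hK.fr.act_of_mem (one_mem _)))
  obtain ⟨d, hd, h6⟩ := hK.lift _ (tr_mem_Yg hb)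
  have h7 := hK.fr.act_mul (hK.fr.act_mul h6 h3) (hK.fr.act_inv h6)
  rw [h5, show d * (g * x * g⁻¹) * d⁻¹ = d * g * x * (d * g)⁻¹ by group] at h7
  have h8 : d * g * x * (d * g)⁻¹ ∈ K := mul_mem (mul_mem (mul_mem hd hg) hx) (inv_mem (mul_mem hd hg))
  by_cases h0 : mk0 w.s (w.e 0) = 1
  · exact ⟨d * g, mul_mem hd hg, hK.mem_Q_of_act h8 (h0 ▸ h7)⟩
  obtain ⟨a, ha, a2, a3, a4, -⟩ := hK.nE w.s (w.e 0) hw.1
  have h9 := hK.fr.act_mul (hK.fr.act_inv a3) h7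
  rw [inv_mul_cancel] at h9
  obtain ⟨p, hp, e⟩ := hK.fr.invol_coset (fun u hu => free_mk0 hw.1 h0 hu) a3 a2
    (hK.mem_Q_of_act (mul_mem (inv_mem ha) h8) h9) (by rw [mul_inv_cancel_left, h4])
  rw [mul_inv_cancel_left] at e
  refine ⟨n * p * (d * g), mul_mem (mul_mem hK.nK (hK.Q_le hp)) (mul_mem hd hg), ?_⟩
  rw [show n * p * (d * g) * x * (n * p * (d * g))⁻¹ = n * (p * (d * g * x * (d * g)⁻¹) * p⁻¹) * n⁻¹ by group]
  rcases e with e | e <;> rw [e]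
  · exact a4
  · rw [← conj_mul, hK.nz]; exact mul_mem a4 (tt_mem y)

end CfsgLib.O83
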