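import Cfsg.Agent.Lib.O83.Aut
import Cfsg.Agent.Lib.FiLoc.O8
import Cfsg.Agent.S0293
import Cfsg.Agent.Lib.Tech.Invol
import Cfsg.Agent.Lib.Core.Cores

/-! Package SY: Sylow subgroup, odd core, transport along an embedding.  See `plans/O83.md`. -/

set_option autoImplicit false
set_option linter.unusedSectionVars false

namespace CfsgLib.O83

open Subgroup CfsgLib.ExtraTwo CfsgLib.LargeExtra CfsgLib.Tech

variable {G : Type*} [Group G] {K : Subgroup G} {z n : G} {y : Fin 4 → F3 → G} {P : G → W}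

theorem K0.exists_T [Finite G] (hK : K0 K z y n) (hodd : ¬ 2 ∣ (normalizer (K : Set G)).index) :
    ∃ T : Sylow 2 G, (T : Subgroup G) ≤ normalizer (K : Set G) ∧ QQ y ≤ T ∧ ∀ m ∈ (T : Subgroup G), m * z = z * m := by
  obtain ⟨T, hT, hQ⟩ := exists_isSylowIn_ge hK.fr.es.isPGroup (hK.Q_le.trans le_normalizer)
  have hT' : IsSylowIn 2 T ⊤ := hT.trans le_top (by rwa [relIndex_top_right])
  refine ⟨hT'.toSylowTop, ?_⟩
  rw [hT'.coe_toSylowTop]
  refine ⟨hT.le, hQ, ?_⟩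
  obtain ⟨c, hc, h2, h3⟩ := exists_mem_center_of_normalized hT.pgroup (N := T ⊓ K) inf_le_left
    (fun g hg => mem_normalizer_of_forall fun x hx => mem_inf.2 ⟨mul_mem (mul_mem hg hx.1) (inv_mem hg),
      conj_mem_of_mem_normalizer (hT.le hg) hx.2⟩)
    (fun e => hK.fr.z1 (mem_bot.1 (e ▸ (⟨hQ hK.fr.z_mem, hK.z_mem⟩ : z ∈ T ⊓ K))))
  rcases hK.cQ c hc.2 fun q hq => h3 q (hQ hq) with rfl | rfl
  · simp at h2
  · exact h3

theorem K0.odd_bot [Finite G] (hK : K0 K z y n) (h : Pre (QQ y) z) : Cfsg.pPrimeCore 2 G = ⊥ := by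
  have := Cfsg.pPrimeCore_normal 2 G
  refine h.noOdd_of_conj_mem (by rw [hK.fr.card]; norm_num) (g := n) (hK.nz ▸ tt_mem y) (hK.nz ▸ hK.fr.tt_ne_z) _ ?_
    le_normalizer_of_normal
  exact Nat.coprime_two_right.1 (Core.coprime_card_pPrimeCore 2 G)

theorem K0.map {H : Type*} [Group H] (hK : K0 ⊤ z y n) {ι : G →* H} (hι : Function.Injective ι) :
    K0 ι.range (ι z) (fun i j => ι (y i j)) (ι n) := by
  have hQ : ∀ {x : G}, x ∈ QQ y → ι x ∈ QQ fun i j => ι (y i j) := fun hx => by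
    rw [QQ_map]; exact mem_map_of_mem _ hx
  refine ⟨hK.fr.map hι, fun i j => ⟨_, rfl⟩, fun w hw => ?_, ?_, ?_, ⟨_, rfl⟩, ?_, ?_, fun s c hs => ?_, fun M hM hn => ?_, ?_⟩
  · obtain ⟨m, -, h⟩ := hK.lift w hw
    exact ⟨ι m, ⟨_, rfl⟩, h.map ι⟩
  · rintro _ ⟨m, rfl⟩ h
    obtain ⟨w, hw, h1⟩ := hK.cen m trivial (hι (by simpa using h))
    exact ⟨w, hw, h1.map ι⟩
  · rintro _ ⟨m, rfl⟩ h
    rcases hK.cQ m trivial fun q hq => hι (by simpa using h _ (hQ hq)) with rfl | rfl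
    exacts [.inl (map_one ι), .inr rfl]
  · rw [← map_mul, hK.n2, map_one]
  · rw [tt_map, ← hK.nz]; simp
  · obtain ⟨a, -, h1, h2, h3, h4⟩ := hK.nE s c hs
    have e : ι n * ι a * (ι n)⁻¹ = ι (n * a * n⁻¹) := by simp
    refine ⟨ι a, ⟨_, rfl⟩, by rw [← map_mul, h1, map_one], h2.map ι, e ▸ hQ h3, fun hc => ?_⟩
    rw [e, hK.fr.pi_map hι h3]
    exact h4 hc
  · rintro _ ⟨m, rfl⟩
    exact hK.gen (M.comap ι) (fun m _ h => hM _ ⟨_, rfl⟩ (by rw [← map_mul, h, map_mul])) hn trivial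
  · obtain ⟨u, -, g, -, h1, h2, h3, h4, h5⟩ := hK.u9
    exact ⟨ι u, ⟨_, rfl⟩, ι g, ⟨_, rfl⟩, by rw [← map_pow, h1, map_one], h2.map ι, by rw [← map_mul, h3, map_mul],
      by rw [← map_pow, h4, map_one], fun e => h5 (hι (by rw [map_pow, e, map_one]))⟩

theorem center_Om : center Om = ⊥ := by
  exact eq_bot_iff.2 fun x hx => Subtype.ext
    (FiLoc.cent_omega (OrthE.qPlus_eq 4) (OrthE.nondeg_qPlus 4) (by simp) x fun t ht =>
      congrArg Subtype.val (mem_center_iff.1 hx ⟨t, ht⟩))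

theorem card_Om : Nat.card Om = 174182400 := by
  have := Cfsg.Agent.S0293.result (F := ZMod 2) (q := 2) (ZMod.card 2) 4 le_rfl
  simp only [Finset.prod_range_succ, Finset.prod_range_zero] at this
  norm_num at this
  rw [card_eq_card_quotient_mul_card_subgroup (center Om), center_Om, card_bot, mul_one, ← this, ← center_Om]

theorem simple_Om : IsSimpleGroup Om := by
  exact FiLoc.simple_omega8

theorem ks_map {z n : Om} {y : Fin 4 → F3 → Om} (hK : K0 ⊤ z y n) {ι : Om →* G} (hι : Function.Injective ι) :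
    KS ι.range (ι z) (fun i j => ι (y i j)) (ι n) := by
  have : Finite Om := Nat.finite_of_card_ne_zero (by rw [card_Om]; norm_num)
  let e : Om ≃* ι.range := MonoidHom.ofInjective hι
  have := simple_Om
  refine ⟨hK.map hι, fun c hc h => ?_, e.symm.isSimpleGroup, by rw [← card_Om]; exact (Nat.card_congr e.toEquiv).symm⟩
  let α : MulAut Om := (e.trans (ι.range.normalizerMonoidHom ⟨c, hc⟩)).trans e.symm
  have hα : ∀ k, ι (α k) = c * ι k * c⁻¹ := fun k =>
    congrArg Subtype.val (e.apply_symm_apply (ι.range.normalizerMonoidHom ⟨c, hc⟩ (e k)))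
  have hq : ∀ q ∈ QQ y, ι q * c = c * ι q := fun q hq => h _ (by rw [QQ_map]; exact mem_map_of_mem _ hq)
  rcases hK.aut_top α fun q hq' => hι (by rw [hα, ← hq q hq', mul_inv_cancel_right]) with e1 | e1
  · left
    rintro _ ⟨k, rfl⟩
    have := hα k
    rw [e1, MulAut.one_apply] at this
    rw [← mul_inv_eq_iff_eq_mul, ← this]
  · right
    rintro _ ⟨k, rfl⟩
    have h1 := hα k
    rw [e1, MulAut.conj_apply, map_mul, map_mul, map_inv] at h1
    have h2 : ι z * ι z = 1 := by rw [← map_mul, hK.fr.zz, map_one]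
    have h3 := hq z hK.fr.z_mem
    calc c * ι z * ι k = ι z * (c * ι k * c⁻¹) * c := by rw [← h3]; group
      _ = ι z * ι z * ι k * ((ι z)⁻¹ * c) := by rw [← h1]; group
      _ = _ := by rw [h2, one_mul, inv_eq_of_mul_eq_one_right h2, h3]

end CfsgLib.O83
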