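import Cfsg.Agent.Lib.O83.Defs

/-! Package TRI: abstract root data; the relations of type `A₂`.  See `plans/O83.md`. -/

set_option autoImplicit false
set_option linter.unusedSectionVars false
set_option linter.unusedVariables false

namespace CfsgLib.O83

open Subgroup CfsgLib.ExtraTwo CfsgLib.LargeExtra

variable {G : Type*} [Group G] {R Op : G → G → Prop} {u v a n c m r p w g : G}

/-- the relations between two standard pairs which generate an `SL₃(3)` -/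
structure A2 (a n c m : G) : Prop where
  a3 : a ^ 3 = 1
  c3 : c ^ 3 = 1
  na : n * n * a = a * (n * n)
  nc : n * n * c * (n * n)⁻¹ = c⁻¹
  mc : m * m * c = c * (m * m)
  ma : m * m * a * (m * m)⁻¹ = a⁻¹
  nm : n * n * m * (n * n)⁻¹ = m⁻¹
  mn : m * m * n * (m * m)⁻¹ = n⁻¹
  br : n * m * n = m * n * m
  ac : a * c * a⁻¹ * c⁻¹ = n * c * n⁻¹
  aw : a * (n * c * n⁻¹) = n * c * n⁻¹ * a
  cw : c * (n * c * n⁻¹) = n * c * n⁻¹ * c
  mw : m * a * m⁻¹ = (n * c * n⁻¹)⁻¹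

/-- the Weyl element is a word in the two root elements -/
theorem n_eq (h2 : u * u = 1) (hn : n * n = u) (ha : a * u = u * a) (h3 : (a * n) ^ 3 = 1) :
    n = a * (n * a * n⁻¹) * a := by
  have e : n⁻¹ = n * u := inv_eq_of_mul_eq_one_right (by rw [← mul_assoc, hn, h2])
  calc n = (a * n) ^ 3 * n⁻¹ * (n * n) := by rw [h3]; group
    _ = a * n * a * n * (a * u) := by rw [hn]; simp only [pow_three']; group
    _ = a * (n * a * n⁻¹) * a := by rw [ha, e]; group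

theorem comm_of_both (h2 : u * u = 1) (hn : n * n = u) (ha : a * u = u * a) (h3 : (a * n) ^ 3 = 1)
    (h1 : p * a = a * p) (h1' : p * (n * a * n⁻¹) = n * a * n⁻¹ * p) : p * u = u * p := by
  have k : Commute p n := by
    rw [n_eq h2 hn ha h3]
    exact Commute.mul_right (Commute.mul_right h1 h1') h1
  exact hn ▸ k.mul_right k

theorem eq_one_of_inv (h3 : p ^ 3 = 1) (hi : u * p * u⁻¹ = p⁻¹) (hc : p * u = u * p) : p = 1 := by
  rw [← hc, mul_inv_cancel_right] at hi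
  rwa [pow_three', mul_eq_one_iff_eq_inv.2 hi, one_mul] at h3

theorem tri_cj (g x y : G) : g * x * g⁻¹ * (g * y * g⁻¹) * (g * x * g⁻¹)⁻¹ = g * (x * y * x⁻¹) * g⁻¹ := by group

theorem tri_inv {x y : G} (h : g * x * g⁻¹ = y) : g * x⁻¹ * g⁻¹ = y⁻¹ := by rw [← h]; group

theorem tri_mul (g k x : G) : g * k * x * (g * k)⁻¹ = g * (k * x * k⁻¹) * g⁻¹ := by group

theorem tri_zp {x : G} (h3 : g ^ 3 = 1) (hx : x ∈ zpowers g) : x = 1 ∨ x = g ∨ x = g⁻¹ := by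
  obtain ⟨k, rfl⟩ := hx
  have e : g ^ k = g ^ (k % 3) := zpow_eq_zpow_emod k (by exact_mod_cast h3)
  simp only
  rw [e]
  rcases (by omega : k % 3 = 0 ∨ k % 3 = 1 ∨ k % 3 = 2) with h | h | h <;> rw [h]
  · exact .inl (zpow_zero g)
  · exact .inr (.inl (zpow_one g))
  · exact .inr (.inr (eq_inv_of_mul_eq_one_left (by rw [zpow_two, ← pow_three', h3])))

namespace Sys

variable (S : Sys R Op)
include S

theorem op_third (h : Op u v) : Op (u * v) u := S.Osymm (S.Omul h)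

theorem op_third' (h : Op u v) : Op (u * v) v := (S.Ou h).2.2 ▸ S.Osymm (S.Omul (S.Osymm h))

theorem inv_third (h : Op u v) (hr : R (u * v) r) : u * r * u⁻¹ = r⁻¹ ↔ v * r * v⁻¹ = r⁻¹ := by
  have e : v * r * v⁻¹ = u * r * u⁻¹ := by
    calc v * r * v⁻¹ = (u * u) * v * r * v⁻¹ * (u * u)⁻¹ := by rw [(S.Ou h).1]; group
      _ = u * (u * v * r * (u * v)⁻¹) * u⁻¹ := by group
      _ = _ := by rw [← S.Rc hr, mul_inv_cancel_right]
  rw [e]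

theorem inv_mul (hr : R u r) : u * v * r * (u * v)⁻¹ = r⁻¹ ↔ v * r * v⁻¹ = r⁻¹ := by
  have e : u * r⁻¹ * u⁻¹ = r⁻¹ := by rw [show u * r⁻¹ * u⁻¹ = (u * r * u⁻¹)⁻¹ by group, ← S.Rc hr]; group
  rw [show u * v * r * (u * v)⁻¹ = u * (v * r * v⁻¹) * u⁻¹ by group]
  exact ⟨fun k => mul_left_cancel (mul_right_cancel (k.trans e.symm)), fun k => by rw [k, e]⟩

theorem sp_n' (h : Op u v) (s : SP R u v a n) :
    n * u * n⁻¹ = u ∧ n * v * n⁻¹ = u * v ∧ n * (u * v) * n⁻¹ = v ∧ n⁻¹ * a * n = n * a * n⁻¹ := by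
  have h1 : n * u * n⁻¹ = u := by rw [← s.nn]; group
  have h2 : n * v * n⁻¹ = u * v := by
    calc n * v * n⁻¹ = n * (v * n * v⁻¹)⁻¹ * v := by group
      _ = u * v := by rw [s.vn, inv_inv, s.nn]
  refine ⟨h1, h2, by rw [← conj_mul, h1, h2, ← mul_assoc, (S.Ou h).1, one_mul], ?_⟩
  calc n⁻¹ * a * n = n * ((n * n)⁻¹ * (a * (n * n))) * n⁻¹ := by group
    _ = _ := by rw [s.nn, S.Rc s.rt, inv_mul_cancel_left]

theorem sp_opp (h : Op u v) (s : SP R u v a n) : SP R u (u * v) a n :=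
  ⟨s.rt, (S.inv_mul s.rt).2 s.inv, s.nn, s.an, by
    rw [show u * v * n * (u * v)⁻¹ = u * (v * n * v⁻¹) * u⁻¹ by group, s.vn, ← s.nn]; group⟩

theorem sp_other (h : Op u v) (s : SP R u v a n) : SP R u v (n * a * n⁻¹) n := by
  obtain ⟨h1, -, -, h4⟩ := S.sp_n' h s
  refine ⟨h1 ▸ S.Rconj s.rt n, ?_, s.nn, ?_, s.vn⟩
  · calc v * (n * a * n⁻¹) * v⁻¹ = v * n * v⁻¹ * (v * a * v⁻¹) * (v * n * v⁻¹)⁻¹ := by group
      _ = (n⁻¹ * a * n)⁻¹ := by rw [s.vn, s.inv]; group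
      _ = _ := by rw [h4]
  · rw [show n * a * n⁻¹ * n = n * (a * n) * n⁻¹ by group, conj_pow, s.an]; group

theorem sp_inv (h : Op u v) (s : SP R u v a n) : SP R u v a⁻¹ n⁻¹ := by
  refine ⟨S.Rinv s.rt, tri_inv s.inv, ?_, ?_, tri_inv s.vn⟩
  · rw [← mul_inv_rev, s.nn]; exact inv_eq_of_mul_eq_one_right (S.Ou h).1
  · rw [show a⁻¹ * n⁻¹ = (n * (a * n) * n⁻¹)⁻¹ by group, inv_pow, conj_pow, s.an]; group

theorem sp_conj (s : SP R u v a n) (g : G) :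
    SP R (g * u * g⁻¹) (g * v * g⁻¹) (g * a * g⁻¹) (g * n * g⁻¹) :=
  ⟨S.Rconj s.rt g, by rw [tri_cj, s.inv]; group, by rw [conj_mul, s.nn], by rw [conj_mul, conj_pow, s.an]; group,
    by rw [tri_cj, s.vn]; group⟩

theorem sp_n (h : Op u v) (s : SP R u v a n) :
    n * u * n⁻¹ = u ∧ n * v * n⁻¹ = u * v ∧ n * (u * v) * n⁻¹ = v ∧ n⁻¹ * a * n = n * a * n⁻¹ := S.sp_n' h s

theorem sp_blk {a n : Fin 4 → G} (b : Blk u v a n) (hR : ∀ i, R u (a i)) (i : Fin 4) : SP R u v (a i) (n i) :=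
  ⟨hR i, b.inv i, b.nn i, b.an i, b.vn i⟩

theorem exists_sp (h : Op u v) (hr : R u r) (hi : v * r * v⁻¹ = r⁻¹) : ∃ n, SP R u v r n := by
  obtain ⟨a, n, b, hR, k⟩ := S.blk h
  obtain ⟨i, k⟩ := k r hr hi
  have s := S.sp_blk b hR i
  rcases k with rfl | rfl | rfl | rfl
  exacts [⟨_, s⟩, ⟨_, S.sp_inv h s⟩, ⟨_, S.sp_other h s⟩,
    ⟨_, by rw [show n i * (a i)⁻¹ * (n i)⁻¹ = (n i * a i * (n i)⁻¹)⁻¹ by group]; exact S.sp_inv h (S.sp_other h s)⟩]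

theorem excl (h : Op u v) (s : SP R u v a n) (hr : R v r) (hi : u * r * u⁻¹ = r⁻¹) (h1 : r * a = a * r)
    (h2 : r * (n * a * n⁻¹) = n * a * n⁻¹ * r) : False :=
  S.R1 hr (eq_one_of_inv (S.R3 hr) hi (comm_of_both (S.Ou h).1 s.nn (S.Rc s.rt) s.an h1 h2))

theorem sp_third (h : Op u v) (t : SP R (u * v) u c m) : SP R (u * v) v c m := by
  have := S.sp_opp (S.op_third h) t
  rwa [mul_assoc, ← (S.Ou h).2.2, ← mul_assoc, (S.Ou h).1, one_mul] at this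

/-- the root element in a block commuting with a root element at the opposite involution -/
theorem choose (h : Op u v) {a n : Fin 4 → G} (b : Blk u v a n) (hR : ∀ i, R u (a i)) (hr : R v r)
    (hi : u * r * u⁻¹ = r⁻¹) (i : Fin 4) : ∃ p, SP R u v p (n i) ∧ p * r = r * p ∧
      (∀ k, i ≠ k → p * n k = n k * p) ∧ ∀ x, InB (a i) (n i) x → InB p (n i) x := by
  have s := S.sp_blk b hR i
  rcases S.s2 h s hr hi with e | e
  · exact ⟨_, s, e.symm, b.na i, fun _ k => k⟩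
  · refine ⟨_, S.sp_other h s, e.symm, fun k hk => Commute.mul_left (Commute.mul_left (b.nc i k) (b.na i k hk))
      (Commute.inv_left (b.nc i k)), fun x k => ?_⟩
    have e1 : n i * (n i * a i * (n i)⁻¹) * (n i)⁻¹ = a i := by
      rw [← tri_mul, s.nn, ← S.Rc s.rt, mul_inv_cancel_right]
    rcases k with k | k | k | k
    · exact .inr (.inr (.inl (k.trans e1.symm)))
    · exact .inr (.inr (.inr (k.trans (tri_inv e1).symm)))
    · exact .inl k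
    · exact .inr (.inl (by rw [k]; group))

theorem S3 (h : Op u v) (hr : R u r) (hi : v * r * v⁻¹ = r⁻¹) (hp : R v p) (hp' : u * p * u⁻¹ = p⁻¹)
    (hc : p * r = r * p) : ∃ g, R (u * v) g ∧ u * g * u⁻¹ = g⁻¹ ∧ g * r = r * g ∧ g * p ≠ p * g := by
  by_contra hn
  have H := S.s3 h hr hi hp hp' hc fun g a1 a2 a3 => by_contra fun a4 => hn ⟨g, a1, a2, a3, a4⟩
  have uv := (S.Ou h).2.2
  obtain ⟨b, m, B, hb, -⟩ := S.blk (S.Osymm h)
  obtain ⟨c, l, C, hc, cc⟩ := S.blk (S.op_third h)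
  obtain ⟨p0, s0, a0, b0, -⟩ := S.choose (S.Osymm h) B hb hr hi 0
  obtain ⟨p2, s2, a2, b2, -⟩ := S.choose (S.Osymm h) B hb hr hi 2
  have G := S.choose (S.op_third h) C hc hr ((S.inv_mul hr).2 hi)
  obtain ⟨g0, t0, c0, -⟩ := G 0
  obtain ⟨m1, m2, m3, -⟩ := S.sp_n' (S.Osymm h) s0
  obtain ⟨n1, n2, -⟩ := S.sp_n' (S.Osymm h) (S.sp_blk B hb 1)
  have mu : m 0 * m 1 * u * (m 0 * m 1)⁻¹ = u := by rw [tri_mul, n2, m3]
  have mv : m 0 * m 1 * v * (m 0 * m 1)⁻¹ = v := by rw [tri_mul, n1, m1]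
  have t1 := S.sp_conj t0 (m 0 * m 1)
  rw [← conj_mul, mu, mv] at t1
  have e0 := Commute.conj (H p0 g0 s0.rt s0.inv a0 t0.rt t0.inv c0) (m 0 * m 1)
  have e2 := Commute.conj (H p2 g0 s2.rt s2.inv a2 t0.rt t0.inv c0) (m 0 * m 1)
  rw [tri_mul _ _ p0, ← b0 1 (by decide), mul_inv_cancel_right] at e0
  rw [tri_mul _ _ p2, ← b2 1 (by decide), mul_inv_cancel_right, ← b2 0 (by decide), mul_inv_cancel_right] at e2
  obtain ⟨k, i⟩ := cc _ t1.rt t1.inv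
  obtain ⟨g, t, c1, -, c2⟩ := G k
  have x1 : ¬ Commute g (m 0 * p0 * (m 0)⁻¹) :=
    S.excl (S.Omul (S.Osymm h)) (S.sp_opp (S.Osymm h) s0) (uv ▸ t.rt) ((S.inv_third h t.rt).1 t.inv)
      (H p0 g s0.rt s0.inv a0 t.rt t.inv c1)
  have x2 : ¬ Commute (l k * g * (l k)⁻¹) p2 := fun e =>
    S.excl (S.op_third' h) (S.sp_third h t) s2.rt (uv ▸ (S.inv_mul s2.rt).2 s2.inv)
      (H p2 g s2.rt s2.inv a2 t.rt t.inv c1).symm e.symm
  rcases c2 _ i with e | e | e | e <;> rw [e] at e0 e2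
  exacts [x1 e0, x1 (Commute.inv_left_iff.1 e0), x2 e2, x2 (Commute.inv_left_iff.1 (by
    rwa [show l k * g⁻¹ * (l k)⁻¹ = (l k * g * (l k)⁻¹)⁻¹ by group] at e2))]

theorem tri' (h : Op u v) (s : SP R u v a n) (hw : R v w) (hw' : u * w * u⁻¹ = w⁻¹) (ha : w * a = a * w)
    (hg : R (u * v) g) (hg' : u * g * u⁻¹ = g⁻¹) (hc : g * w = w * g) (e : a * g * a⁻¹ * g⁻¹ = w) :
    n * g * n⁻¹ = w := by
  have uv := (S.Ou h).2.2
  have a1 : g * (n * a * n⁻¹) = n * a * n⁻¹ * g :=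
    (S.s2 (S.Omul h) (S.sp_opp h s) hg hg').resolve_left fun k => S.R1 hw (by rw [← e, ← k]; group)
  have s' := S.sp_other h s
  have a2 := S.s1 (S.op_third h) hg hg' (S.R3 s'.rt) (S.sp_opp h s').inv a1.symm (S.R3 hw)
    (uv ▸ (S.inv_mul hw).2 hw') hc.symm
  have a3 : n * g * n⁻¹ = a * (n * a * n⁻¹ * w * (n * a * n⁻¹)⁻¹ * w⁻¹ * w * g) * a⁻¹ := by
    have k := n_eq (S.Ou h).1 s.nn (S.Rc s.rt) s.an
    generalize n * a * n⁻¹ = a' at k a1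
    calc n * g * n⁻¹ = a * a' * (a * g * a⁻¹ * g⁻¹) * (g * a'⁻¹) * a⁻¹ := by rw [k]; group
      _ = _ := by rw [e, (Commute.inv_right a1).eq]; group
  have a4 : a * g * a⁻¹ = w * g := by rw [← e]; group
  have a5 : a * w * a⁻¹ = w := by rw [← ha]; group
  rcases tri_zp (S.R3 hg) a2 with k | k | k
  · exact (S.excl h s hw hw' ha (by rw [← mul_inv_eq_one, ← inv_eq_one, ← k]; group)).elim
  · rw [k, ← conj_mul, ← conj_mul, a4, a5] at a3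
    have a6 : n * g * n⁻¹ = g⁻¹ := by
      calc n * g * n⁻¹ = w * (g * w) * w * g := by rw [a3]; group
        _ = w * w * (g * w) * g := by nth_rewrite 1 [hc]; simp only [mul_assoc]
        _ = w ^ 3 * g ^ 3 * g⁻¹ := by rw [hc]; simp only [pow_three']; group
        _ = g⁻¹ := by rw [S.R3 hw, S.R3 hg]; group
    refine (S.R1 hg (eq_one_of_inv (S.R3 hg) hg' (mul_inv_eq_iff_eq_mul.1 ?_).symm)).elim
    rw [← s.nn, tri_mul, a6, show n * g⁻¹ * n⁻¹ = (n * g * n⁻¹)⁻¹ by group, a6, inv_inv]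
  · rw [a3, k, mul_assoc g⁻¹, ← hc, inv_mul_cancel_left, a5]

theorem tri (h : Op u v) (s : SP R u v a n) (hw : R v w) (hw' : u * w * u⁻¹ = w⁻¹) (ha : w * a = a * w) :
    a * (n⁻¹ * w * n) * a⁻¹ * (n⁻¹ * w * n)⁻¹ = w ∧ n⁻¹ * w * n * w = w * (n⁻¹ * w * n) := by
  have uv := (S.Ou h).2.2
  obtain ⟨g, g1, g2, g3, g4⟩ := S.S3 (S.Osymm h) hw hw' s.rt s.inv ha.symm
  rw [← uv] at g1
  have g5 := (S.inv_third h g1).2 g2
  have key : ∀ g, R (u * v) g → u * g * u⁻¹ = g⁻¹ → g * w = w * g → a * g * a⁻¹ * g⁻¹ = w →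
      a * (n⁻¹ * w * n) * a⁻¹ * (n⁻¹ * w * n)⁻¹ = w ∧ n⁻¹ * w * n * w = w * (n⁻¹ * w * n) := fun g a1 a2 a3 a4 => by
    have : n⁻¹ * w * n = g := by rw [← S.tri' h s hw hw' ha a1 a2 a3 a4]; group
    rw [this]
    exact ⟨a4, a3⟩
  rcases tri_zp (S.R3 hw) (S.s1 (S.Osymm h) hw hw' (S.R3 s.rt) s.inv ha.symm (S.R3 g1) g2 g3) with k | k | k
  · exact (g4 (by rw [← mul_inv_eq_one, ← inv_eq_one, ← k]; group)).elim
  · exact key g g1 g5 g3 k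
  · refine key g⁻¹ (S.Rinv g1) (tri_inv g5) (Commute.inv_left g3) ?_
    calc a * g⁻¹ * a⁻¹ * g⁻¹⁻¹ = g⁻¹ * (a * g * a⁻¹ * g⁻¹)⁻¹ * g := by group
      _ = w := by rw [k, inv_inv, mul_assoc, ← g3, inv_mul_cancel_left]

theorem sp_not_comm (h : Op u v) (s : SP R u v a n) : a * (n * a * n⁻¹) ≠ n * a * n⁻¹ * a := fun e => by
  have k := n_eq (S.Ou h).1 s.nn (S.Rc s.rt) s.an
  have k1 : Commute a n := by
    rw [k]
    exact Commute.mul_right (Commute.mul_right (Commute.refl a) e) (Commute.refl a)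
  rw [← k1.eq, mul_inv_cancel_right, ← pow_three', S.R3 s.rt] at k
  exact (S.Ou h).2.1 (by rw [← s.nn, k, one_mul])

theorem half (h : Op u v) (s : SP R u v a n) (t : SP R (u * v) u c m)
    (hc : c * (n * a * n⁻¹) = n * a * n⁻¹ * c) : a * c * a⁻¹ * c⁻¹ = n * c * n⁻¹ ∧
      a * (n * c * n⁻¹) = n * c * n⁻¹ * a ∧ c * (n * c * n⁻¹) = n * c * n⁻¹ * c ∧
      m * a * m⁻¹ = (n * c * n⁻¹)⁻¹ := by
  obtain ⟨h1, -, h3, -⟩ := S.sp_n' h s
  have t1 := S.sp_conj t n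
  rw [h1, h3] at t1
  have a1 := Commute.conj hc n
  rw [← tri_mul n n a, s.nn, ← S.Rc s.rt, mul_inv_cancel_right] at a1
  obtain ⟨b1, b2⟩ := S.tri h s t1.rt t1.inv a1
  rw [show n⁻¹ * (n * c * n⁻¹) * n = c by group] at b1 b2
  refine ⟨b1, a1.symm, b2, S.tri' (S.op_third' h) (S.sp_third h t) (S.Rinv t1.rt)
    ((S.Ou h).2.2 ▸ (S.inv_mul (S.Rinv t1.rt)).2 (tri_inv t1.inv)) (Commute.inv_left b2.symm) ?_
    (S.sp_opp h s).inv (Commute.inv_right a1.symm) (by rw [← b1]; group)⟩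
  rw [mul_assoc, (S.Ou (S.Osymm h)).1, mul_one]
  exact s.rt

theorem a2 (h : Op u v) (s : SP R u v a n) (t : SP R (u * v) u c m) (hc : a * c ≠ c * a) : A2 a n c m := by
  have a1 := (S.s2 (S.Omul h) (S.sp_opp h s) t.rt t.inv).resolve_left fun k => hc k.symm
  have a2 := (S.s2 (S.op_third h) t s.rt (S.sp_opp h s).inv).resolve_left hc
  have t' := S.sp_other (S.op_third h) t
  obtain ⟨b1, b2, b3, b4⟩ := S.half h s t a1
  obtain ⟨-, -, -, b5⟩ := S.half h (S.sp_other h s) t' (by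
    rw [← tri_mul, s.nn, ← S.Rc s.rt, mul_inv_cancel_right]; exact a2.symm)
  have ni : ∀ x, u * x * u⁻¹ = x⁻¹ → n⁻¹ * x * n = (n * x * n⁻¹)⁻¹ := fun x e => by
    calc n⁻¹ * x * n = n⁻¹ * (n * n * x * (n * n)⁻¹)⁻¹ * n := by rw [s.nn, e, inv_inv]
      _ = _ := by group
  refine ⟨S.R3 s.rt, S.R3 t.rt, s.nn ▸ (S.Rc s.rt).symm, s.nn ▸ t.inv, t.nn ▸ (S.Rc t.rt).symm,
    t.nn ▸ (S.sp_opp h s).inv, s.nn ▸ t.vn, t.nn ▸ (S.sp_opp h s).vn, ?_, b1, b2, b3, b4⟩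
  have e1 : m * n * m⁻¹ = (n * c * n⁻¹)⁻¹ * (n * (m * c * m⁻¹) * n⁻¹)⁻¹ * (n * c * n⁻¹)⁻¹ := by
    rw [← b4, ← b5, conj_mul, conj_mul, ← n_eq (S.Ou h).1 s.nn (S.Rc s.rt) s.an]
  rw [← ni c t.inv, ← ni _ t'.inv, show n⁻¹ * c * n * (n⁻¹ * (m * c * m⁻¹) * n) * (n⁻¹ * c * n) =
    n⁻¹ * (c * (m * c * m⁻¹) * c) * n by group, ← n_eq (S.Ou (S.op_third h)).1 t.nn (S.Rc t.rt) t.an] at e1
  calc n * m * n = n * (m * n * m⁻¹) * m * (m⁻¹ * m) := by group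
    _ = m * n * m := by rw [e1]; group

end Sys

end CfsgLib.O83
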