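import Cfsg.Agent.Lib.O83.Key2
import Cfsg.Agent.Lib.O83.Tri

/-! Package SYS: the root data of `G`.  See `plans/O83.md`. -/

set_option autoImplicit false
set_option linter.unusedSectionVars false

namespace CfsgLib.O83

open Subgroup CfsgLib.ExtraTwo CfsgLib.LargeExtra

variable {G : Type*} [Group G] {K : Subgroup G} {z n : G} {y : Fin 4 → F3 → G} {P : G → W}

theorem isRt_conj {u r : G} (h : IsRt z P u r) (g : G) : IsRt z P (g * u * g⁻¹) (g * r * g⁻¹) := by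
  obtain ⟨k, i, rfl, h⟩ := h
  exact ⟨g * k, i, by group, by convert h using 1; group⟩

theorem isRt_of_conj {u r g : G} (h : IsRt z P (MulAut.conj g u) (MulAut.conj g r)) : IsRt z P u r := by
  simpa [mul_assoc] using isRt_conj h g⁻¹

theorem isRt_three {u r : G} (h : IsRt z P u r) : r ^ 3 = 1 := by
  obtain ⟨k, i, -, h⟩ := h
  have := h.2.1
  rwa [show k⁻¹ * r * k = k⁻¹ * r * k⁻¹⁻¹ by rw [inv_inv], conj_pow, conj_eq_one_iff] at this

theorem isRt_comm {u r : G} (h : IsRt z P u r) : r * u = u * r := by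
  obtain ⟨k, i, rfl, h⟩ := h
  calc _ = k * (k⁻¹ * r * k * z) * k⁻¹ := by group
    _ = _ := by rw [h.1]; group

theorem opp_red {u v : G} (h : Opp z P u v) :
    ∃ g v₀, u = MulAut.conj g z ∧ v = MulAut.conj g v₀ ∧ IsConj z v₀ ∧ Op0 z P v₀ := by
  obtain ⟨h1, g, rfl, h2⟩ := h
  exact ⟨g, _, rfl, by simp [mul_assoc], h1.trans (isConj_iff.2 ⟨g⁻¹, by rw [inv_inv]⟩), h2⟩

theorem InB.pig {a m p q r : G} (h1 : InB a m p) (h2 : InB a m q) (h3 : InB a m r) :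
    (p = q ∨ p = q⁻¹) ∨ (p = r ∨ p = r⁻¹) ∨ (q = r ∨ q = r⁻¹) := by
  have k : ∀ {x}, InB a m x → (x = a ∨ x = a⁻¹) ∨ (x = m * a * m⁻¹ ∨ x = (m * a * m⁻¹)⁻¹) := fun h => by
    rwa [conj_inv, or_assoc]
  have t : ∀ {x x' b : G}, (x = b ∨ x = b⁻¹) → (x' = b ∨ x' = b⁻¹) → x = x' ∨ x = x'⁻¹ := by
    rintro _ _ b (rfl | rfl) (rfl | rfl) <;> simp
  rcases k h1 with k1 | k1 <;> rcases k h2 with k2 | k2 <;> rcases k h3 with k3 | k3 <;>
    first | exact Or.inl (t k1 k2) | exact Or.inr (Or.inl (t k1 k3)) | exact Or.inr (Or.inr (t k2 k3))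

theorem CB.sys_s2 [Finite G] (h : CB z y P) {v a n r : G} (hc : IsConj z v) (hv : Op0 z P v)
    (s : SP (IsRt z P) z v a n) (hr : IsRt z P v r) (hi : z * r * z⁻¹ = r⁻¹) :
    r * a = a * r ∨ r * (n * a * n⁻¹) = n * a * n⁻¹ * r := by
  have hz := h.toCF.toCe.toCz
  obtain ⟨g, hg⟩ := isConj_iff.1 hc
  obtain ⟨i, ha⟩ := hz.isRt_iff.1 s.rt
  have nz : n * z = z * n := by rw [← s.nn, mul_assoc]
  have ha' := ha.conj hz nz
  have hi' : v * (n * a * n⁻¹) * v⁻¹ = (n * a * n⁻¹)⁻¹ := by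
    calc _ = n⁻¹ * a⁻¹ * n := by rw [← conj_mul, ← conj_mul, ← conj_inv, s.vn, s.inv, inv_inv]
      _ = n⁻¹ * (z * a * z⁻¹)⁻¹ * n := by rw [← ha.1, mul_inv_cancel_right]
      _ = _ := by rw [← s.nn]; group
  obtain ⟨k, hk⟩ := (hz.isRt_iff' g).1 (hg ▸ hr)
  obtain ⟨p, hp, rp, -⟩ := ha.exists_rt_DD h hv s.inv hg k
  obtain ⟨p', hp', rp', -⟩ := ha'.exists_rt_DD h hv hi' hg k
  have ip := ha.DD_inv h.toCF.toCe hv.2.1 s.inv hp
  have ip' := ha'.DD_inv h.toCF.toCe hv.2.1 hi' hp'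
  obtain ⟨b, m, -, -, -, hb⟩ := (hv.symm h hg).blk0 h.toCF
  have hb' : ∀ x, Rt z P k (g⁻¹ * x * g) → z * x * z⁻¹ = x⁻¹ → InB (b k) (m k) (g⁻¹ * x * g) := fun x h1 h2 =>
    hb k _ h1 (by
      calc _ = g⁻¹ * (z * x * z⁻¹) * g := by group
        _ = _ := by rw [h2]; group)
  have t : ∀ {x x' c : G}, (g⁻¹ * x * g = g⁻¹ * x' * g ∨ g⁻¹ * x * g = (g⁻¹ * x' * g)⁻¹) → Commute x' c →
      Commute x c := by
    rintro x x' c (e | e) k
    · rwa [mul_left_cancel (mul_right_cancel e)]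
    · rw [show (g⁻¹ * x' * g)⁻¹ = g⁻¹ * x'⁻¹ * g by group] at e
      rw [mul_left_cancel (mul_right_cancel e)]
      exact k.inv_left
  have c1 := OO_comm (mem_DD.1 hp).1
  have c2 := OO_comm (mem_DD.1 hp').1
  rcases (hb' r hk hi).pig (hb' p rp ip) (hb' p' rp' ip') with e | e | e
  · exact Or.inl (t e c1)
  · exact Or.inr (t e c2)
  · have := eq_one_of_inv (isRt_three ⟨g, k, rfl, rp⟩) ip (comm_of_both hz.fr.zz s.nn ha.1 s.an c1 (t e c2))
    exact absurd (by rw [this, mul_one, inv_mul_cancel]) (rp.ne_one hz)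

theorem CB.sys_s3 [Finite G] (h : CB z y P) {v r p : G} (hc : IsConj z v) (hv : Op0 z P v) (hr : IsRt z P z r)
    (hi : v * r * v⁻¹ = r⁻¹) (hp : IsRt z P v p) (ip : z * p * z⁻¹ = p⁻¹) (cp : p * r = r * p)
    (H : ∀ g, IsRt z P (z * v) g → z * g * z⁻¹ = g⁻¹ → g * r = r * g → g * p = p * g) {a b : G}
    (ha : a ∈ OO r) (hb : b ∈ OO r) : a * b = b * a := by
  have he := h.toCF.toCe
  have hz := he.toCz
  obtain ⟨i, hr⟩ := hz.isRt_iff.1 hr
  have p3 := isRt_three hp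
  have hp1 := hr.mem_OO he cp p3 ip
  have hv' := hv.mul_z hz
  have hi' : z * v * r * (z * v)⁻¹ = r⁻¹ := by
    calc _ = z * (v * r * v⁻¹) * z⁻¹ := by group
      _ = _ := by rw [hi, ← conj_inv, ← hr.1, mul_inv_cancel_right]
  obtain ⟨q, -, hq⟩ := hv.conj_z hz
  obtain ⟨g, hg⟩ := isConj_iff.1 (hc.trans (isConj_iff.2 ⟨q, hq⟩))
  have : OO r ⊓ centralizer (OO r : Set G) = OO r := by
    refine eq_of_le_of_card_ge inf_le_left ((hr.card_OO_le h hv hi hc).trans (hr.dim8 he inf_le_left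
      ⟨self_mem_OO hr.2.1, fun o ho => OO_comm ho⟩ (fun x _ hx b hb => ⟨OO_conj (Or.inl ?_) hb.1, fun o ho => ?_⟩)
      ⟨p, ⟨hp1, fun o ho => ?_⟩, fun hm => ?_⟩ fun b hb => hr.cube h hv hi hc hb.1))
    · rw [hx, mul_inv_cancel_right]
    · have := hb.2 _ (OO_conj (g := x⁻¹) (Or.inl (by rw [inv_inv, mul_assoc, ← hx, inv_mul_cancel_left])) ho)
      calc _ = x * (x⁻¹ * o * x⁻¹⁻¹ * b) * x⁻¹ := by group
        _ = _ := by rw [this]; group
    · obtain ⟨k, hk, _, ⟨j, rfl⟩, e, he', rfl⟩ := hr.dec he hv.1 hv.2.1 hi ho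
      exact ((show Commute k p from hr.comm_DD h hv' hi' hg (fun d hd l hl => H d ⟨g, l, hg, hl⟩
        (hr.DD_inv he hv'.2.1 hi' hd) (OO_comm (mem_DD.1 hd).1)) hk).mul_left
        ((show Commute r p from cp.symm).zpow_left j)).mul_left
        (hr.DD_comm he hv.2.1 hi he' (mem_DD.2 ⟨hp1, isRt_comm hp⟩))
    · obtain ⟨j, rfl⟩ := hm
      obtain ⟨k, l, -, hl⟩ := hp
      have := eq_one_of_inv p3 ip ((show Commute r z from hr.1).zpow_left j)
      exact hl.ne_one hz (by rw [this, mul_one, inv_mul_cancel])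
  exact (this.ge hb).2 a ha

theorem CB.sys [Finite G] (h : CB z y P) : Sys (IsRt z P) (Opp z P) := by
  have he := h.toCF.toCe
  have hz := he.toCz
  refine ⟨isRt_conj, ?_, isRt_three, ?_, isRt_comm, ?_, ?_, ?_, ?_, ?_, ?_, ?_, ?_⟩
  · rintro u r ⟨g, i, e, hr⟩
    exact ⟨g, i, e, by convert hr.inv hz using 1; group⟩
  · rintro u r ⟨g, i, -, hr⟩ rfl
    exact hr.ne_one hz (by group)
  · rintro u v ⟨h1, k, rfl, h2⟩ g
    exact ⟨h1.trans (isConj_iff.2 ⟨g, rfl⟩), g * k, by group, by convert h2 using 1; group⟩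
  · rintro u v ⟨h1, g, rfl, h2⟩
    obtain ⟨c, rfl⟩ := isConj_iff.1 h1
    exact ⟨isConj_iff.2 ⟨g, rfl⟩, c, rfl, by convert h2.symm h (g := g⁻¹ * c) (by group) using 1; group⟩
  · rintro u v ⟨h1, g, rfl, h2⟩
    obtain ⟨q, -, hq⟩ := h2.conj_z hz
    refine ⟨h1.trans (isConj_iff.2 ⟨g * q * g⁻¹, ?_⟩), g, rfl, by convert h2.mul_z hz using 1; group⟩
    calc _ = g * (q * (g⁻¹ * v * g) * q⁻¹) * g⁻¹ := by group
      _ = _ := by rw [hq]; group
  · intro u v ho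
    obtain ⟨g, v, rfl, rfl, -, hv⟩ := opp_red ho
    exact ⟨by rw [← map_mul, hz.fr.zz, map_one], by simpa using hz.fr.z1, by rw [← map_mul, ← hv.2.1, map_mul]⟩
  · intro u v ho
    obtain ⟨g, v, rfl, rfl, -, hv⟩ := opp_red ho
    obtain ⟨a, m, h1, h2, -, h3⟩ := hv.blk0 h.toCF
    refine ⟨_, _, h1.conj g, fun i => isRt_conj (hz.isRt_iff.2 ⟨i, h2 i⟩) g, fun r hr hi => ?_⟩
    obtain ⟨r, rfl⟩ := (MulAut.conj g).surjective r
    simp only [← map_mul, ← map_inv, EmbeddingLike.apply_eq_iff_eq] at hi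
    obtain ⟨i, hr⟩ := hz.isRt_iff.1 (isRt_of_conj hr)
    exact ⟨i, (h3 i r hr hi).conj g⟩
  · intro u v r p q ho hr _ p3 ip cp q3 iq cq
    obtain ⟨g, v, rfl, rfl, -, -⟩ := opp_red ho
    obtain ⟨r, rfl⟩ := (MulAut.conj g).surjective r
    obtain ⟨p, rfl⟩ := (MulAut.conj g).surjective p
    obtain ⟨q, rfl⟩ := (MulAut.conj g).surjective q
    simp only [← map_mul, ← map_inv, ← map_pow, EmbeddingLike.apply_eq_iff_eq, map_eq_one_iff _
      (MulAut.conj g).injective] at p3 ip cp q3 iq cq ⊢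
    obtain ⟨i, hr⟩ := hz.isRt_iff.1 (isRt_of_conj hr)
    obtain ⟨k, hk⟩ := hr.comm_mod he (hr.mem_OO he cp p3 ip) (hr.mem_OO he cq q3 iq)
    exact ⟨k, by rw [← hk, map_zpow]⟩
  · intro u v a n r ho s hr hi
    obtain ⟨g, v, rfl, rfl, hc, hv⟩ := opp_red ho
    obtain ⟨r, rfl⟩ := (MulAut.conj g).surjective r
    obtain ⟨a, rfl⟩ := (MulAut.conj g).surjective a
    obtain ⟨n, rfl⟩ := (MulAut.conj g).surjective n
    obtain ⟨s1, s2, s3, s4, s5⟩ := s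
    simp only [← map_mul, ← map_inv, ← map_pow, EmbeddingLike.apply_eq_iff_eq, map_eq_one_iff _
      (MulAut.conj g).injective] at hi s2 s3 s4 s5 ⊢
    exact h.sys_s2 hc hv ⟨isRt_of_conj s1, s2, s3, s4, s5⟩ (isRt_of_conj hr) hi
  · intro u v r p ho hr hi hp ip cp H p' k hp' ip' cp' hk ik ck
    obtain ⟨g, v, rfl, rfl, hc, hv⟩ := opp_red ho
    obtain ⟨r, rfl⟩ := (MulAut.conj g).surjective r
    obtain ⟨p, rfl⟩ := (MulAut.conj g).surjective p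
    obtain ⟨p', rfl⟩ := (MulAut.conj g).surjective p'
    obtain ⟨k, rfl⟩ := (MulAut.conj g).surjective k
    replace H := fun x (hx : IsRt z P (z * v) x) => H (MulAut.conj g x) (map_mul (MulAut.conj g) z v ▸ isRt_conj hx g)
    simp only [← map_mul, ← map_inv, EmbeddingLike.apply_eq_iff_eq] at hi ip cp ip' cp' hk ik ck H ⊢
    obtain ⟨i, hr'⟩ := hz.isRt_iff.1 (isRt_of_conj hr)
    exact h.sys_s3 hc hv (isRt_of_conj hr) hi (isRt_of_conj hp) ip cp H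
      (hr'.mem_OO he ck (isRt_three (isRt_of_conj hk)) ik) (hr'.mem_OO he cp' (isRt_three (isRt_of_conj hp')) ip')

end CfsgLib.O83
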