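import Cfsg.Agent.Lib.O83.Wt2
import Cfsg.Agent.Lib.LargeExtra.Trans

/-! Package TR: transfer; only even permutations of the blocks.  See `plans/O83.md`. -/

set_option autoImplicit false
set_option linter.unusedSectionVars false

namespace CfsgLib.O83

open Subgroup CfsgLib.ExtraTwo CfsgLib.LargeExtra

variable {G : Type*} [Group G] {K : Subgroup G} {z n : G} {y : Fin 4 → F3 → G} {P : G → W}

/-- the sign, with values in `ZMod 2` -/
def trSg : Equiv.Perm (Fin 4) →* Multiplicative (ZMod 2) :=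
  MonoidHom.mk' (fun s => if Equiv.Perm.sign s = 1 then 1 else Multiplicative.ofAdd 1) fun a b => by
    rw [Equiv.Perm.sign_mul]
    generalize Equiv.Perm.sign a = u
    generalize Equiv.Perm.sign b = v
    revert u v; decide

theorem trSg_eq {s : Equiv.Perm (Fin 4)} : trSg s = 1 ↔ Equiv.Perm.sign s = 1 := by
  show (if Equiv.Perm.sign s = 1 then 1 else Multiplicative.ofAdd 1) = (1 : Multiplicative (ZMod 2)) ↔ _
  generalize Equiv.Perm.sign s = u
  revert u; decide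

theorem tr_odd : ∀ s : Equiv.Perm (Fin 4), s * s = 1 → Equiv.Perm.sign s ≠ 1 →
    (∃ k i, s k ≠ k ∧ s k ≠ i ∧ s i = i ∧ k ≠ i) ∧ (Finset.univ.filter fun σ => σ * s = s * σ).card ≤ 4 := by
  decide +kernel

theorem tr_blk1 : ∀ x a : F3, sg 1 * a + x = a → blk 1 x (e3 (a + 1)) + e3 (a + 1) ≠ 0 := by decide

theorem tr_blk2 : ∀ (c : F2) (x x' a : F3), sg c * a + x = a → sg 1 * a + x' = a →
    blk 1 x' (e3 (sg c * (a + 1) + x) + e3 (a + 1)) + (e3 (sg c * (a + 1) + x) + e3 (a + 1)) = 0 := by decide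

theorem tr_fix {w : W} {j : Fin 4 → F3} (h : rW w (full j) = full j) {i : Fin 4} (hi : w.s i = i) :
    sg (w.e i) * j i + w.x i = j i := by
  have := rW_apply w (full j) i
  rw [h, hi] at this
  exact (e3_inj _ _ (this.trans (blk_e3 _ _ _))).symm

theorem tr_W {r d : W} {j : Fin 4 → F3} {k i : Fin 4} (h1 : r.s k ≠ k) (h2 : r.s k ≠ i) (h3 : r.s i = i) (h4 : k ≠ i)
    (ds : d.s = 1) (de : ∀ m, d.e m = 1) (hr : rW r (full j) = full j) (hd : rW d (full j) = full j) {u : V}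
    (hu : u = rW r (ev k (j k + 1) + ev i (j i + 1)) + (ev k (j k + 1) + ev i (j i + 1)))
    (h : rW d u + u = 0 ∨ rW d u + u = full j) : False := by
  have a : ∀ m, (rW d u + u) m = blk 1 (d.x m) (u m) + u m := fun m => by
    have := rW_apply d u m
    rw [ds, de, Equiv.Perm.one_apply] at this
    rw [Pi.add_apply, this]
  have b : ∀ m, sg 1 * j m + d.x m = j m := fun m => by
    have := tr_fix hd (i := m) (by rw [ds]; rfl)
    rwa [de] at this
  rw [rW_add, rW_ev, rW_ev, h3] at hu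
  rcases h with h | h
  · have := a k
    rw [h, hu] at this
    simp only [Pi.add_apply, ev_ne h1.symm, ev_ne h4, ev_self, add_zero, zero_add] at this
    exact tr_blk1 _ _ (b k) this.symm
  · have := a i
    rw [h, hu] at this
    simp only [Pi.add_apply, ev_ne h2.symm, ev_ne h4.symm, ev_self, zero_add, W.j] at this
    exact full_apply_ne j i (this.trans (tr_blk2 _ _ _ _ (tr_fix hr h3) (b i)))

theorem Cz.tr_even [Finite G] (h : Cz z y P) {g : G} (hx : g * z * g⁻¹ ∈ QQ y) (hne : g * z * g⁻¹ ≠ z) {ρ : G}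
    (hρ : ρ ∈ (QQ y).map (MulAut.conj g).toMonoidHom) (ρz : ρ * z = z * ρ) : Equiv.Perm.sign (P ρ).s = 1 := by
  by_contra hs
  obtain ⟨p, L, h8, hsq, hL, hfix, -⟩ := h.pair_L hx hne
  obtain ⟨j, hj⟩ := (h.full_of_conj hx (isConj_iff.2 ⟨g, rfl⟩)).resolve_left hne
  have hr : P ρ ∈ L := (hL _).2 ⟨ρ, hρ, ρz, rfl⟩
  obtain ⟨⟨k, i, h1, h2, h3, h4⟩, hc⟩ := tr_odd _ (congrArg W.s (hsq _ hr)) hs
  have cm : ∀ a ∈ L, ∀ b ∈ L, a * b = b * a := fun a ha b hb => by
    rw [← inv_eq_of_mul_eq_one_right (hsq _ (mul_mem ha hb)), mul_inv_rev, inv_eq_of_mul_eq_one_right (hsq a ha),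
      inv_eq_of_mul_eq_one_right (hsq b hb)]
  obtain ⟨d, hd, ds, d1⟩ : ∃ d ∈ L, d.s = 1 ∧ d ≠ 1 := by
    by_contra hcon
    push Not at hcon
    have := Nat.card_le_card_of_injective (fun a : L => (⟨a.1.s, Finset.mem_filter.2
      ⟨Finset.mem_univ _, congrArg W.s (cm _ a.2 _ hr)⟩⟩ : (Finset.univ.filter fun σ => σ * (P ρ).s = (P ρ).s * σ)))
      fun a b e => Subtype.ext (inv_mul_eq_one.1 (hcon _ (mul_mem (inv_mem a.2) b.2)
        (inv_mul_eq_one.2 (congrArg Subtype.val e))))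
    rw [Nat.card_eq_fintype_card (α := (Finset.univ.filter _ : Finset _)), Fintype.card_coe] at this
    omega
  obtain ⟨δ, hδ, δz, rfl⟩ := (hL d).1 hd
  have de : ∀ m, (P δ).e m = 1 := fun m => (f2_cases _).resolve_left fun e => d1 (by
    have e5 : P δ = tr (P δ).x := eq_tr ds fun i => by rw [h.sgn δ δz ds, ← h.sgn δ δz ds m, e]
    rw [e5, wt2_tr_sq (a := (P δ).x) (by rw [← e5]; exact hsq _ hd), tr_zero])
  obtain ⟨a, ha, πa⟩ := h.fr.pi_surj (ev k (j k + 1) + ev i (j i + 1))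
  have hu := p.commutator_mem_E ha ((h.fr.comm_iff ha hx).2 (by
    rw [πa, hj, bf_add_left, bf_ev_full, bf_ev_full, if_neg (by simp), if_neg (by simp)]; rfl)) hρ ρz
  have hv := p.mem_V.1 (p.commutator_X_E (mem_sup_right hδ) hu)
  have c1 : ∀ {m x : G}, m * z = z * m → x ∈ QQ y → pi z y (m * x * m⁻¹ * x⁻¹) = rW (P m) (pi z y x) + pi z y x :=
    fun hm hx => by rw [h.fr.pi_mul (h.pre.norm _ hm _ hx) (inv_mem hx), h.pi_conj hm hx, h.fr.pi_inv hx]
  refine tr_W h1 h2 h3 h4 ds de (hj ▸ hfix _ hr) (hj ▸ hfix _ hd) (πa ▸ c1 ρz ha) ?_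
  rw [← c1 δz hu.1]
  rcases hv with e | e | e | e <;> rw [e]
  exacts [.inl h.fr.pi_one, .inl h.fr.pi_z, .inr hj, .inr ((h.fr.pi_mul_z hx).trans hj)]

theorem Cz.ce [Finite G] (h : Cz z y P) (hG : ∀ M : Subgroup G, M.index ≠ 2) : Ce z y P := by
  have key := h.pre.hom_eq_one hG ((trSg.comp W.sHom).comp h.hom) fun g hg hg' => by
    have ψ : ∀ m : centralizer ({z} : Set G), ((trSg.comp W.sHom).comp h.hom) m = 1 ↔ Equiv.Perm.sign (P m).s = 1 :=
      fun m => by rw [← trSg_eq, ← h.hom_apply]; rfl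
    rcases h.pre.relIndex_fixE hg hg' with ⟨h2, h3⟩ | h4
    · have ht : g⁻¹ * z * g⁻¹⁻¹ ∈ QQ y := by
        obtain ⟨q, hq, e⟩ := h.pre.mem_conj (by rw [h.fr.card]; norm_num) h3
        rw [← e]
        simpa [mul_assoc] using hq
      have hne : g⁻¹ * z * g⁻¹⁻¹ ≠ z := fun e => hg' (by
        rw [← inv_mem_iff, mem_cent]; exact comm_of_conj_eq e)
      refine ⟨2, le_rfl, by rw [h2]; norm_num, fun _ => (ψ _).2 ?_, fun _ e he hc => (ψ _).2 ?_⟩
      · rw [inv_inv] at ht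
        rw [h.P_Q ht]; rfl
      · exact h.tr_even ht hne ⟨e, he, by simp⟩ (mem_cent.1 hc)
    · by_cases h8 : 8 ≤ (fixE (QQ y) z g).relIndex (QQ y)
      · exact ⟨0, by norm_num, by simpa using h8, fun a => absurd a (by norm_num), fun a => absurd a (by norm_num)⟩
      refine ⟨1, by norm_num, by omega, fun _ => ?_, fun a => absurd a (by norm_num)⟩
      rcases h.pre.fixE_cases hg with h5 | h5
      · have h6 := ((fixE (QQ y) z g).subgroupOf (QQ y)).card_mul_index
        rw [h.fr.card, Nat.card_congr (subgroupOfEquivOfLe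
          (show fixE (QQ y) z g ≤ QQ y from fun e he => (mem_fixE.1 he).1)).toEquiv] at h6
        change _ * (fixE (QQ y) z g).relIndex (QQ y) = _ at h6
        nlinarith
      · exact Abelianization.commutator_subset_ker _ h5
  exact ⟨h, fun m hm => by
    have := congrArg (fun ψ : centralizer ({z} : Set G) →* Multiplicative (ZMod 2) => ψ ⟨m, mem_cent.2 hm⟩) key
    rw [← trSg_eq, ← h.hom_apply ⟨m, mem_cent.2 hm⟩]
    exact this⟩

end CfsgLib.O83
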