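import Cfsg.Agent.Lib.O83.Sy
import Cfsg.Agent.Lib.Tech.SylowIn

/-! Package XW: the centralizer of `z` preserves the frame.  See `plans/O83.md`. -/

set_option autoImplicit false
set_option linter.unusedSectionVars false

namespace CfsgLib.O83

open Subgroup CfsgLib.ExtraTwo CfsgLib.LargeExtra

variable {G : Type*} [Group G] {K : Subgroup G} {z n : G} {y : Fin 4 → F3 → G} {P : G → W}

theorem xw_dvd_card {H X : Type*} [Group H] [MulAction H X] [Finite X] {k : ℕ}
    (h : ∀ x : X, k ∣ (MulAction.stabilizer H x).index) : k ∣ Nat.card X := by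
  classical
  have := Fintype.ofFinite (MulAction.orbitRel.Quotient H X)
  rw [Nat.card_congr (MulAction.selfEquivSigmaOrbits H X), Nat.card_sigma]
  refine Finset.dvd_sum fun ω _ => ?_
  rw [Nat.card_coe_set_eq, ← MulAction.index_stabilizer]
  exact h _

theorem xw_card_q : (Finset.univ.filter fun v : V => qf v = 1).card = 120 := by decide +kernel

theorem xw_count {H : Type*} [Group H] [Finite H] [MulAction H V] (T : Subgroup H) (hT : ¬ 2 ∣ T.index)
    (hD : ∀ t ∈ T, ∀ i j, ∃ k l, t • ev i j = ev k l) (hq : ∀ (m : H) v, qf (m • v) = qf v)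
    (hY : ∀ w ∈ Yg, ∃ m : H, ∀ v, m • v = rW w v) (m : H) (i : Fin 4) (j : F3) :
    ∃ k l, m • ev i j = ev k l := by
  rcases nonsing_cases (v := m • ev i j) (by rw [hq, qf_ev]) with h1 | h3
  · exact h1
  exfalso
  have horb : ∀ a b, MulAction.orbit H (ev a b) = ↑(Finset.univ.filter fun v : V => qf v = 1) := by
    intro a b
    ext v
    simp only [Finset.coe_filter, Finset.mem_univ, true_and, Set.mem_ofPred_eq]
    constructor
    · rintro ⟨g, rfl⟩
      exact (hq g _).trans (qf_ev a b)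
    · intro hv
      rcases nonsing_cases hv with ⟨k, l, rfl⟩ | hv3
      · obtain ⟨w, hw, e⟩ := trans_one a k b l
        obtain ⟨g, hg⟩ := hY w hw
        exact ⟨g, (hg _).trans e⟩
      · obtain ⟨w, hw, e⟩ := trans_one a i b j
        obtain ⟨g, hg⟩ := hY w hw
        obtain ⟨w', hw', e'⟩ := trans_three h3 hv3
        obtain ⟨g', hg'⟩ := hY w' hw'
        refine ⟨g' * m * g, ?_⟩
        show (g' * m * g) • ev a b = v
        rw [mul_smul, mul_smul, hg, e, hg', e']
  let D : SubMulAction T V := ⟨{v | ∃ k l, v = ev k l}, by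
    rintro t _ ⟨k, l, rfl⟩
    exact hD t t.2 k l⟩
  have hc : Nat.card D = 12 := by
    have : Nat.card (Fin 4 × F3) = Nat.card D := Nat.card_eq_of_bijective
      (fun p => ⟨ev p.1 p.2, p.1, p.2, rfl⟩)
      ⟨fun p p' e => Prod.ext (ev_inj (congrArg Subtype.val e)).1 (ev_inj (congrArg Subtype.val e)).2, by
        rintro ⟨_, k, l, rfl⟩
        exact ⟨(k, l), rfl⟩⟩
    rw [← this, Nat.card_prod, Nat.card_zmod, Nat.card_eq_fintype_card, Fintype.card_fin]
  have h8 : 8 ∣ Nat.card D := by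
    refine xw_dvd_card (H := T) ?_
    rintro ⟨_, k, l, rfl⟩
    rw [SubMulAction.stabilizer_of_subMul]
    have e1 : (MulAction.stabilizer H (ev k l)).index = 120 := by
      rw [MulAction.index_stabilizer, horb, Set.ncard_coe_finset, xw_card_q]
    have e2 : MulAction.stabilizer T (ev k l) = (MulAction.stabilizer H (ev k l)).subgroupOf T := by
      ext t; rfl
    have e3 := index_dvd_of_le (inf_le_left : MulAction.stabilizer H (ev k l) ⊓ T ≤ _)
    rw [← relIndex_mul_index (inf_le_right : MulAction.stabilizer H (ev k l) ⊓ T ≤ T), inf_relIndex_right, e1] at e3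
    show 8 ∣ (MulAction.stabilizer T (ev k l)).index
    rw [e2]
    have h2 : Nat.Coprime (2 ^ 3) T.index := ((Nat.Prime.coprime_iff_not_dvd Nat.prime_two).2 hT).pow_left 3
    exact h2.dvd_of_dvd_mul_right (Dvd.dvd.trans (by norm_num) e3)
  rw [hc] at h8
  omega

theorem xw_aff : ∀ τ : F3 → F3, (∀ j l, j ≠ l → τ j ≠ τ l) →
    (∃ e x, ∀ j, τ j = sg e * j + x) ∧ ∀ l, ∃ j, τ j = l := by decide +kernel

theorem xw_exists_w {φ : V → V} (hi : Function.Injective φ) (hb : ∀ u v, bf (φ u) (φ v) = bf u v)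
    (hD : ∀ i j, ∃ k l, φ (ev i j) = ev k l) : ∃ w : W, ∀ i j, φ (ev i j) = ev (w.s i) (w.j i j) := by
  choose σ τ hστ using hD
  have key : ∀ i j l, j ≠ l → σ i j = σ i l ∧ τ i j ≠ τ i l := by
    intro i j l hjl
    have h1 := hb (ev i j) (ev i l)
    rw [hστ, hστ, bf_ev, bf_ev, if_pos (⟨rfl, hjl⟩ : i = i ∧ j ≠ l)] at h1
    by_contra h2
    rw [if_neg h2] at h1
    exact zero_ne_one h1
  have hσ : ∀ i j, σ i j = σ i 0 := fun i j => by
    by_cases hj : j = 0
    · rw [hj]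
    · exact (key i j 0 hj).1
  have haff := fun i => xw_aff (τ i) fun j l hjl => (key i j l hjl).2
  choose e x hex using fun i => (haff i).1
  have hs : Function.Injective fun i => σ i 0 := by
    intro i k hik
    obtain ⟨j, hj⟩ := (haff i).2 (τ k 0)
    have : φ (ev i j) = φ (ev k 0) := by rw [hστ, hστ, hj, hσ i j]; exact congrArg (ev · _) hik
    exact (ev_inj (hi this)).1
  refine ⟨⟨Equiv.ofBijective _ (Finite.injective_iff_bijective.1 hs), e, x⟩, fun i j => ?_⟩
  rw [hστ, hσ, hex]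
  rfl

theorem xw_three : ∀ (S : Finset (Fin 4)) (c : Fin 4 → F3), S.card = 3 → (∀ i ∈ S, c i = 0) → ∑ i, c i = 0 → c = 0 := by
  decide +kernel

theorem xw_exists_a : ∀ i : Fin 4, ∃ a : Fin 4 → F3, a i = 0 ∧ ∑ k, a k = 0 ∧ a ≠ 0 := by decide +kernel

theorem xw_V4_cube : ∀ s : Equiv.Perm (Fin 4), V4 s → s * s * s = 1 → s = 1 := by decide +kernel

theorem xw_cube_e {w : W} (hs : w.s = 1) (i : Fin 4) : (w ^ 3).e i = w.e i := by
  rw [pow_three']
  simp only [W.mul_e, hs, Equiv.Perm.one_apply]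
  generalize w.e i = t
  revert t; decide

theorem xw_cube {w : W} (hw : w ∈ Yg) (h3 : w ^ 3 = 1) : w = tr w.x := by
  have hs : w.s = 1 := xw_V4_cube _ hw.1 (by
    have := congrArg W.s h3
    rwa [pow_three'] at this)
  exact eq_tr hs fun i => by rw [← xw_cube_e hs, h3, W.one_e]

theorem xw_six {w : W} (hs : w.s = 1) : w ^ 6 = 1 := by
  have h1 : w * w = tr (w * w).x := eq_tr (by rw [W.mul_s, hs, one_mul]) fun i => by
    rw [W.mul_e, hs, Equiv.Perm.one_apply, CharTwo.add_self_eq_zero]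
  rw [show 6 = 2 * 3 from rfl, pow_mul, pow_two, h1, tr_cube]

theorem xw_conj_comm {a b : G} (ha : a * z = z * a) (hb : b * z = z * b) : a * b * a⁻¹ * z = z * (a * b * a⁻¹) :=
  ((show Commute a z from ha).mul_left hb).mul_left (show Commute a z from ha).inv_left

theorem Hyp.xw_act [Finite G] (h : Hyp K z y n) {m : G} (hm : m * z = z * m) : ∃ w, Act z y m w := by
  have hK := h.toKS.toK0
  have fr := hK.fr
  obtain ⟨ρ, h1, h2, -⟩ := h.pre.exists_act fr.coord
  obtain ⟨T, hTN, -, hTz⟩ := hK.exists_T h.odd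
  have hTC : (T : Subgroup G) ≤ centralizer ({z} : Set G) := fun t ht => mem_cent.2 (hTz t ht)
  have hact : ∀ (g : centralizer ({z} : Set G)) w, Act z y g w → ∀ v, ρ g v = rW w v := by
    intro g w hg v
    obtain ⟨x, hx, rfl⟩ := fr.pi_surj v
    rw [h1 g x hx, fr.act_pi_conj hg hx]
  let _ : MulAction (centralizer ({z} : Set G)) V := MulAction.compHom V ρ
  have hsm : ∀ (g : centralizer ({z} : Set G)) (v : V), g • v = ρ g v := fun _ _ => rfl
  have hD := xw_count ((T : Subgroup G).subgroupOf (centralizer ({z} : Set G)))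
    (Tech.IsSylowIn.of_sylow T hTC).not_dvd ?_ (fun g v => h2 g v) ?_ ⟨m, mem_cent.2 hm⟩
  · obtain ⟨w, hw⟩ := xw_exists_w (φ := ρ ⟨m, mem_cent.2 hm⟩) (ρ _).injective (fun u v => by
      have e1 := qf_add u v
      have e2 := qf_add (ρ ⟨m, mem_cent.2 hm⟩ u) (ρ ⟨m, mem_cent.2 hm⟩ v)
      have e3 : ∀ v, qf (ρ ⟨m, mem_cent.2 hm⟩ v) = qf v := h2 _
      rw [← map_add, e3, e3, e3, e1] at e2
      exact (add_left_cancel e2).symm) hD
    refine ⟨w, fr.act_of_pi (fun i j => h.pre.norm m hm _ (y_mem y i j)) fun i j => ?_⟩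
    rw [← hw, ← fr.pi_y, h1 _ _ (y_mem y i j)]
  · intro t ht i j
    rcases nonsing_cases (v := t • ev i j) ((h2 t _).trans (qf_ev i j)) with e | h3
    · exact e
    exfalso
    have htz := mem_cent.1 t.2
    obtain ⟨a, ha0, has, ha⟩ := xw_exists_a i
    obtain ⟨d, hd, hda⟩ := hK.lift _ (tr_mem_Yg has)
    have hdz := fr.act_comm_z hda
    have huK : t * d * (t : G)⁻¹ ∈ K := Tech.conj_mem_of_mem_normalizer (hTN ht) hd
    have huz := xw_conj_comm htz hdz
    obtain ⟨w, hw, hwa⟩ := hK.cen _ huK huz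
    have hd3 : d ^ 3 ∈ QQ y := hK.mem_Q_of_act (pow_mem hd 3) (tr_cube a ▸ fr.act_pow hda 3)
    have hw3 : w ^ 3 = 1 := fr.act_unique (fr.act_pow hwa 3)
      (fr.act_of_mem (by rw [conj_pow]; exact h.pre.norm _ htz _ hd3))
    have hwt := xw_cube hw hw3
    have hfix : rW w (t • ev i j) = t • ev i j := by
      let d' : centralizer ({z} : Set G) := ⟨d, mem_cent.2 hdz⟩
      have e1 : d' • ev i j = ev i j := by
        rw [hsm, hact d' _ hda, fix_tr]
        intro k
        by_cases hk : k = i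
        · exact Or.inl (hk ▸ ha0)
        · exact Or.inr (ev_ne hk j)
      rw [← hact (t * d' * t⁻¹) w hwa, ← hsm, mul_smul, inv_smul_smul, mul_smul, e1]
    rw [hwt, fix_tr] at hfix
    have hx0 : w.x = 0 := xw_three _ _ h3 (fun k hk => (hfix k).resolve_right (Finset.mem_filter.1 hk).2) hw.2.2
    rw [hx0, tr_zero] at hwt
    have h5 := h.pre.norm _ (show Commute (t : G) z from htz).inv_left _ (hK.mem_Q_of_act huK (hwt ▸ hwa))
    rw [show (t : G)⁻¹ * (t * d * (t : G)⁻¹) * (t : G)⁻¹⁻¹ = d by group] at h5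
    exact ha (tr_inj ((fr.act_unique hda (fr.act_of_mem h5)).trans tr_zero.symm))
  · intro w hw
    obtain ⟨d, -, hda⟩ := hK.lift w hw
    exact ⟨⟨d, mem_cent.2 (fr.act_comm_z hda)⟩, hact _ w hda⟩

theorem Hyp.xw_sgn [Finite G] (h : Hyp K z y n) {m : G} {w : W} (hm : Act z y m w) (hs : w.s = 1) (i : Fin 4) :
    w.e i = w.e 0 := by
  have hK := h.toKS.toK0
  have fr := hK.fr
  obtain ⟨T, hTN, -, hTz⟩ := hK.exists_T h.odd
  have hTC : (T : Subgroup G) ≤ centralizer ({z} : Set G) := fun t ht => mem_cent.2 (hTz t ht)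
  have h6 := fr.act_pow hm 6
  rw [xw_six hs] at h6
  have h6Q : m ^ 6 ∈ QQ y := h.pre.mem_of_conj fun x hx => by
    rw [← fr.pi_eq_iff (fr.act_conj_mem h6 hx) hx, fr.act_pi_conj h6 hx, rW_one]
  have h3 := fr.act_pow hm 3
  have h8 : (m ^ 3) ^ 2 ^ 3 = 1 := by
    rw [← pow_mul, ← fr.es.pow_four h6Q, ← pow_mul]; rfl
  obtain ⟨c, hc, hu⟩ := (Tech.IsSylowIn.of_sylow T hTC).exists_conj_mem (mem_cent.2 (fr.act_comm_z h3))
    (Tech.isPGroup_zpowers_of_pow h8)
  obtain ⟨v, hv⟩ := h.xw_act (mem_cent.1 hc)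
  have hua := fr.act_mul (fr.act_mul hv h3) (fr.act_inv hv)
  have hconst := sgn_const (w := v * w ^ 3 * v⁻¹) fun a ha => by
    obtain ⟨d, hd, hda⟩ := hK.lift _ (tr_mem_Yg ha)
    have h1 := fr.act_mul (fr.act_mul hua hda) (fr.act_inv hua)
    obtain ⟨w', hw', h2⟩ := hK.cen _ (Tech.conj_mem_of_mem_normalizer (hTN hu) hd) (fr.act_comm_z h1)
    rw [← fr.act_unique h1 h2, conj_tr] at hw'
    exact hw'.2.2
  have hs3 : (w ^ 3).s = 1 := by rw [pow_three', W.mul_s, W.mul_s, hs, one_mul, one_mul]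
  have he : ∀ k, (v * w ^ 3 * v⁻¹).e (v.s k) = w.e k := by
    intro k
    have e : v.s⁻¹ (v.s k) = k := v.s.symm_apply_apply k
    simp only [W.mul_e, W.inv_e, W.inv_s, hs3, Equiv.Perm.one_apply, e, xw_cube_e hs]
    generalize v.e k = a
    generalize w.e k = b
    revert a b; decide
  rw [← he i, ← he 0, hconst, hconst (v.s 0)]

theorem Hyp.exists_cz [Finite G] (h : Hyp K z y n) : ∃ P, Cz z y P := by
  have hK := h.toKS.toK0
  have fr := hK.fr
  have : ∀ m, ∃ w, m * z = z * m → Act z y m w := fun m => by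
    by_cases hm : m * z = z * m
    · obtain ⟨w, hw⟩ := h.xw_act hm
      exact ⟨w, fun _ => hw⟩
    · exact ⟨1, fun e => absurd e hm⟩
  choose P hP using this
  refine ⟨P, fr, h.pre.cent, hP, fun m hm hs => h.xw_sgn (hP m hm) hs, fun w hw => ?_⟩
  obtain ⟨d, -, hda⟩ := hK.lift w hw
  exact ⟨d, fr.act_comm_z hda, fr.act_unique (hP d (fr.act_comm_z hda)) hda⟩

end CfsgLib.O83
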